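import Cfsg.Agent.CTits.Bruhat

/-!
Decomposition into cells around a monomial subgroup.
-/

set_option autoImplicit false

namespace Cfsg.Agent.OmegaPres

open Matrix Cfsg.Agent.CTits
open scoped MatrixGroups

universe u v w

variable {F : Type u} [Field F] {X : Type v} [Group X] {R : Type w}

/-- The subgroup generated by the positive root subgroups. -/
def upper (U : R → Set X) (val pos : R → Prop) : Subgroup X :=
  Subgroup.closure {y | ∃ q, val q ∧ pos q ∧ y ∈ U q}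

theorem conj_closure_mem {g : X} {S : Set X} {H : Subgroup X} (h : ∀ y ∈ S, g * y * g⁻¹ ∈ H) {y : X}
    (hy : y ∈ Subgroup.closure S) : g * y * g⁻¹ ∈ H := by
  have hle : Subgroup.closure S ≤ H.comap (MulAut.conj g).toMonoidHom := (Subgroup.closure_le _).2 h
  exact hle hy

/-- Every element is a product of upper, monomial and upper elements. -/
theorem mem_cell {U : R → Set X} {val pos : R → Prop} {neg : R → R} (hval : ∀ r, val r → val (neg r))
    (hdich : ∀ r, val r → pos r ∨ pos (neg r)) {A : Type*} (ρ : A → SL(2, F) →* X)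
    (S : ∀ α, SimpleRoot (ρ α) U val pos neg) (N : Subgroup X)
    (hN : ∀ n ∈ N, ∀ r, val r → ∃ r', val r' ∧ (∀ x ∈ U r, n⁻¹ * x * n ∈ U r') ∧
      ∀ x ∈ U (neg r), n⁻¹ * x * n ∈ U (neg r'))
    (hw : ∀ α (a : F), a ≠ 0 → ρ α (wm a) ∈ N) :
    ∀ x ∈ ⨆ α, (ρ α).range, ∃ u ∈ upper U val pos, ∃ n ∈ N, ∃ u' ∈ upper U val pos, x = u * n * u' := by
  set Up := upper U val pos with hUp
  have hmem : ∀ {r x}, val r → pos r → x ∈ U r → x ∈ Up := fun h h' hx =>
    Subgroup.subset_closure ⟨_, h, h', hx⟩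
  let C : Set X := {g | ∃ u ∈ Up, ∃ n ∈ N, ∃ u' ∈ Up, g = u * n * u'}
  have hCU : ∀ b ∈ Up, ∀ g ∈ C, b * g ∈ C := by
    rintro b hb g ⟨u, hu, n, hn, u', hu', e⟩
    exact ⟨b * u, mul_mem hb hu, n, hn, u', hu', by rw [e]; simp [mul_assoc]⟩
  have hneg : ∀ α (a : F), a ≠ 0 → (ρ α (wm a))⁻¹ = ρ α (wm (-a)) := fun α a ha =>
    inv_eq_of_mul_eq_one_right (by rw [← map_mul, wm_neg ha, map_one])
  have hupn : ∀ α (t : F), ρ α (up t) ∈ Up := fun α t =>
    hmem (S α).val_root (S α).pos_root ((S α).up_eq ▸ ⟨t, rfl⟩)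
  have hupinv : ∀ α (t : F), (ρ α (up t))⁻¹ = ρ α (up (-t)) := fun α t =>
    inv_eq_of_mul_eq_one_right (by rw [← map_mul, up_add, add_neg_cancel, up_zero, map_one])
  -- products of two reflections
  have hCT : ∀ α (a b : F), a ≠ 0 → b ≠ 0 → ∀ g ∈ C, ρ α (wm a) * ρ α (wm b) * g ∈ C := by
    intro α a b ha hb g ⟨u, hu, n, hn, u', hu', e⟩
    have hu2 : ρ α (wm a) * ρ α (wm b) * u * (ρ α (wm a) * ρ α (wm b))⁻¹ ∈ Up :=
      conj_closure_mem (by
        rintro y ⟨q, hq, hq', hy⟩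
        have h1 := (S α).conj_σ a ha _ ((S α).val_σ q hq) _ ((S α).conj_σ b hb q hq y hy)
        rw [(S α).σσ q hq] at h1
        exact hmem hq hq' (by simpa [mul_assoc] using h1)) hu
    exact ⟨_, hu2, ρ α (wm a) * ρ α (wm b) * n, mul_mem (mul_mem (hw α a ha) (hw α b hb)) hn, u', hu', by
      rw [e]; group⟩
  have hCw : ∀ α, ∀ g ∈ C, ρ α (wm 1) * g ∈ C := by
    rintro α g ⟨u, hu, n, hn, u', hu', rfl⟩
    set V : Subgroup X := Subgroup.closure {y | ∃ q, (S α).Q q ∧ y ∈ U q}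
    have hdec : ∃ y ∈ V, ∃ t : F, u = y * ρ α (up t) := by
      let H : Subgroup X :=
        { carrier := {x | ∃ y ∈ V, ∃ t : F, x = y * ρ α (up t)}
          one_mem' := ⟨1, one_mem _, 0, by simp [up_zero]⟩
          mul_mem' := by
            rintro a b ⟨y, hy, t, rfl⟩ ⟨z, hz, s, rfl⟩
            refine ⟨y * (ρ α (up t) * z * (ρ α (up t))⁻¹), mul_mem hy
              (conj_closure_mem (by rintro w ⟨q, hq, hw⟩; exact (S α).norm t q hq w hw) hz), t + s, ?_⟩
            rw [← up_add, map_mul]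
            group
          inv_mem' := by
            rintro a ⟨y, hy, t, rfl⟩
            refine ⟨ρ α (up (-t)) * y⁻¹ * (ρ α (up (-t)))⁻¹,
              conj_closure_mem (by rintro w ⟨q, hq, hw⟩; exact (S α).norm (-t) q hq w hw) (inv_mem hy), -t, ?_⟩
            rw [_root_.mul_inv_rev, hupinv α t]
            group }
      have hle : Up ≤ H := (Subgroup.closure_le _).2 (by
        rintro y ⟨q, hq, hq', hy⟩
        rcases (S α).split q hq hq' with hQ | he
        · exact ⟨y, Subgroup.subset_closure ⟨q, hQ, hy⟩, 0, by simp [up_zero]⟩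
        · rw [he, (S α).up_eq] at hy
          obtain ⟨t, rfl⟩ := hy
          exact ⟨1, one_mem _, t, (one_mul _).symm⟩)
      exact hle hu
    obtain ⟨y, hy, t, rfl⟩ := hdec
    set s := ρ α (wm 1) with hs
    have hpre : s * y * s⁻¹ ∈ Up := conj_closure_mem (by
      rintro z ⟨q, hq, hz⟩
      obtain ⟨a, b⟩ := (S α).hQ _ ((S α).Q_σ q hq)
      exact hmem a b ((S α).conj_σ 1 one_ne_zero q ((S α).hQ q hq).1 z hz)) hy
    suffices hc : s * ρ α (up t) * n * u' ∈ C by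
      have := hCU _ hpre _ hc
      simpa [mul_assoc] using this
    rcases eq_or_ne t 0 with rfl | ht
    · exact ⟨1, one_mem _, s * n, mul_mem (hw α 1 one_ne_zero) hn, u', hu', by simp [up_zero, mul_assoc]⟩
    obtain ⟨r', hr', h1, h2⟩ := hN n hn _ (S α).val_root
    rcases hdich r' hr' with hp | hp
    · refine ⟨1, one_mem _, s * n, mul_mem (hw α 1 one_ne_zero) hn, n⁻¹ * ρ α (up t) * n * u', mul_mem
        (hmem hr' hp (h1 _ ((S α).up_eq ▸ ⟨t, rfl⟩))) hu', ?_⟩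
      group
    · refine ⟨ρ α (up (-t⁻¹)), hupn α _, ρ α (wm (-t⁻¹)) * ρ α (wm (-1)) * n,
        mul_mem (mul_mem (hw α _ (neg_ne_zero.2 (inv_ne_zero ht))) (hw α _ (neg_ne_zero.2 one_ne_zero))) hn,
        n⁻¹ * ρ α (lo t⁻¹) * n * u', mul_mem
        (hmem (hval _ hr') hp (h2 _ ((S α).lo_eq ▸ ⟨t⁻¹, rfl⟩))) hu', ?_⟩
      rw [hs, ← map_mul, wm_up ht, map_mul, map_mul, map_mul]
      group
  have hCwn : ∀ α, ∀ g ∈ C, ρ α (wm (-1)) * g ∈ C := by
    intro α g hg
    have h := hCT α (-1) (-1) (neg_ne_zero.2 one_ne_zero) (neg_ne_zero.2 one_ne_zero) _ (hCw α g hg)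
    rw [← hneg α 1 one_ne_zero] at h ⊢
    simpa [mul_assoc] using h
  intro x hx
  let H : Subgroup X :=
    { carrier := {h | (∀ g ∈ C, h * g ∈ C) ∧ ∀ g ∈ C, h⁻¹ * g ∈ C}
      one_mem' := ⟨fun g hg => by simpa using hg, fun g hg => by simpa using hg⟩
      mul_mem' := fun {a b} ha hb => ⟨fun g hg => by rw [mul_assoc]; exact ha.1 _ (hb.1 g hg),
        fun g hg => by rw [_root_.mul_inv_rev, mul_assoc]; exact hb.2 _ (ha.2 g hg)⟩
      inv_mem' := fun {a} ha => ⟨ha.2, fun g hg => by rw [inv_inv]; exact ha.1 g hg⟩ }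
  have hle : (⨆ α, (ρ α).range) ≤ H := by
    refine iSup_le fun α => ?_
    rintro _ ⟨A, rfl⟩
    refine sl2_induction (fun A => ρ α A ∈ H) (fun t => ?_) (fun t => ?_)
      (fun A B hA hB => by rw [map_mul]; exact mul_mem hA hB) A
    · exact ⟨hCU _ (hupn α t), hCU _ (inv_mem (hupn α t))⟩
    · have key : ∀ s : F, ∀ g ∈ C, ρ α (lo s) * g ∈ C := fun s g hg => by
        rw [lo_eq_conj, map_mul, map_mul, mul_assoc, mul_assoc]
        exact hCw α _ (hCU _ (hupn α _) _ (hCwn α g hg))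
      refine ⟨key t, fun g hg => ?_⟩
      rw [show (ρ α (lo t))⁻¹ = ρ α (lo (-t)) from inv_eq_of_mul_eq_one_right (by
        rw [← map_mul, lo_add, add_neg_cancel, lo_zero, map_one])]
      exact key (-t) g hg
  obtain ⟨u, hu, n, hn, u', hu', e⟩ := (hle hx).1 1 ⟨1, one_mem _, 1, one_mem _, 1, one_mem _, by simp⟩
  exact ⟨u, hu, n, hn, u', hu', by simpa using e⟩

end Cfsg.Agent.OmegaPres
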