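import Cfsg.Agent.OmegaPres.Elem

/-!
A few relations for one exchange element over the special linear group, and their first consequences.
-/

set_option autoImplicit false
set_option linter.unusedSectionVars false

namespace Cfsg.Agent.OmegaPres

open Matrix Cfsg.Agent.CTits
open scoped MatrixGroups

universe u v

/-- Distinguished indices. -/
structure Idx (n : ℕ) where
  /-- third from the end -/
  b : Fin n
  /-- second from the end -/
  c : Fin n
  /-- the last index -/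
  d : Fin n
  /-- the partner of the last index -/
  e : Fin n
  /-- a spare index -/
  l : Fin n
  hn : 4 ≤ n
  hbc : b ≠ c
  hbd : b ≠ d
  hcd : c ≠ d
  hce : c ≠ e
  hde : d ≠ e
  hlc : l ≠ c
  hld : l ≠ d
  hle : l ≠ e
  last : ∀ i, i ≤ d
  succ : c.val + 1 = d.val

variable {F : Type u} [Field F] {n : ℕ}

/-- The subgroup on which the exchange acts. -/
def Cgrp (F : Type u) [Field F] (I : Idx n) : Subgroup SL(n, F) :=
  Subgroup.closure ({g | ∃ (p q : Fin n) (h : p ≠ q) (t : F), ((p ≠ I.d ∧ p ≠ I.e) ∧ (q ≠ I.d ∧ q ≠ I.e) ∨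
      (p = I.d ∧ q = I.e) ∨ (p = I.e ∧ q = I.d)) ∧ g = SpecialLinearGroup.transvection h t} ∪
    {SpecialLinearGroup.diag2n I.hld.symm (-1) (neg_ne_zero.2 one_ne_zero)})

theorem T_mem_Cgrp (I : Idx n) {p q : Fin n} (h : p ≠ q) (hpq : (p ≠ I.d ∧ p ≠ I.e) ∧ (q ≠ I.d ∧ q ≠ I.e) ∨
      (p = I.d ∧ q = I.e) ∨ (p = I.e ∧ q = I.d)) (t : F) : SpecialLinearGroup.transvection h t ∈ Cgrp F I :=
  Subgroup.subset_closure (Or.inl ⟨p, q, h, t, hpq, rfl⟩)

theorem R_signed {a b : Fin n} (hab : a ≠ b) {m : SL(n, F)} {σ : Equiv.Perm (Fin n)} (hm : Signed m σ)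
    {a' b' : Fin n} (hab' : a' ≠ b') (hσ : ∀ q, (σ q = a' ∨ σ q = b') ↔ (q = a ∨ q = b)) :
    (blockDiag n F m).submatrix (ff a' b') (ff a b) = blockDiag n F m := by
  obtain ⟨v, hv, hm⟩ := hm
  have hinv : ∀ q, (v q)⁻¹ = v q := fun q => by rcases hv q with e | e <;> simp [e]
  ext x y
  rw [Matrix.submatrix_apply, blockDiag_mono hm, blockDiag_mono hm]
  rcases x with p | p <;> rcases y with q | q <;>
  · simp only [ff_inl hab, ff_inl hab', ff_inr hab, ff_inr hab']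
    have := hσ q
    by_cases hp : p = a' ∨ p = b' <;> by_cases hq : q = a ∨ q = b
    · simp [hp, hq, hinv]
    · have : p ≠ σ q := fun e => hq (this.1 (e ▸ hp))
      simp [hp, hq, this]
    · have : p ≠ σ q := fun e => hp (e ▸ this.2 hq)
      simp [hp, hq, this]
    · simp [hp, hq]

theorem exists_R (I : Idx n) {A : SL(n, F)} (hA : A ∈ Cgrp F I) : ∃ A', R I.d I.e A A' := by
  induction hA using Subgroup.closure_induction with
  | mem g hg =>
    rcases hg with ⟨p, q, h, t, hpq, rfl⟩ | hg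
    · rcases hpq with ⟨hp, hq⟩ | ⟨rfl, rfl⟩ | ⟨rfl, rfl⟩
      · exact ⟨_, R_T_out I.hde h hp hq t⟩
      · exact ⟨_, R_T_in I.hde t⟩
      · exact ⟨_, (R_T_in I.hde (-t)).symm I.hde |> fun h' => by rwa [neg_neg] at h'⟩
    · rw [Set.mem_singleton_iff] at hg
      subst hg
      refine ⟨_, R_signed I.hde ⟨_, fun q => ?_, mono_diag2n I.hld.symm _ _⟩ I.hde fun q => Iff.rfl⟩
      simp only [inv_neg, inv_one]
      split_ifs <;> simp
  | one => exact ⟨1, R.one⟩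
  | mul x y _ _ hx hy =>
    obtain ⟨x', hx⟩ := hx
    obtain ⟨y', hy⟩ := hy
    exact ⟨_, hx.mul hy⟩
  | inv x _ hx =>
    obtain ⟨x', hx⟩ := hx
    exact ⟨_, hx.inv⟩

theorem diag2n_mem_Cgrp (I : Idx n) (a : F) (ha : a ≠ 0) :
    SpecialLinearGroup.diag2n I.hde a ha ∈ Cgrp F I := by
  have h1 := fun t => T_mem_Cgrp (F := F) I I.hde (Or.inr (Or.inl ⟨rfl, rfl⟩)) t
  have h2 := fun t => T_mem_Cgrp (F := F) I I.hde.symm (Or.inr (Or.inr ⟨rfl, rfl⟩)) t
  rw [Linear.diag2n_decompose]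
  exact mul_mem (mul_mem (mul_mem (mul_mem (mul_mem (h1 _) (h2 _)) (h1 _)) (h1 _)) (h2 _)) (h1 _)

theorem wT_mem_Cgrp (I : Idx n) : wT (F := F) I.hde ∈ Cgrp F I :=
  mul_mem (mul_mem (T_mem_Cgrp I _ (Or.inr (Or.inl ⟨rfl, rfl⟩)) _)
    (T_mem_Cgrp I _ (Or.inr (Or.inr ⟨rfl, rfl⟩)) _)) (T_mem_Cgrp I _ (Or.inr (Or.inl ⟨rfl, rfl⟩)) _)

/-- Stabilising monomial elements lie in `Cgrp`. -/
theorem mono_mem_Cgrp (I : Idx n) {m : SL(n, F)} {σ : Equiv.Perm (Fin n)} {v : Fin n → F} (hm : Mono m σ v)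
    (hσ : ∀ q, (σ q = I.d ∨ σ q = I.e) ↔ (q = I.d ∨ q = I.e)) (hv : v I.d * v I.e = 1 ∨ v I.d * v I.e = -1) :
    m ∈ Cgrp F I := by
  suffices key : ∀ (m : SL(n, F)) (σ : Equiv.Perm (Fin n)) (v : Fin n → F), Mono m σ v →
      σ I.d = I.d → σ I.e = I.e → v I.d * v I.e = 1 → m ∈ Cgrp F I by
    have key2 : ∀ (m : SL(n, F)) (σ : Equiv.Perm (Fin n)) (v : Fin n → F), Mono m σ v →
        σ I.d = I.d → σ I.e = I.e → (v I.d * v I.e = 1 ∨ v I.d * v I.e = -1) → m ∈ Cgrp F I := by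
      intro m σ v hm h1 h2 hv
      rcases hv with hv | hv
      · exact key m σ v hm h1 h2 hv
      have hD : SpecialLinearGroup.diag2n I.hld.symm (-1 : F) (neg_ne_zero.2 one_ne_zero) ∈ Cgrp F I :=
        Subgroup.subset_closure (Or.inr rfl)
      refine (Subgroup.mul_mem_cancel_right _ hD).1 (key _ _ _ (hm.mul (mono_diag2n _ _ _)) (by simp [h1])
        (by simp [h2]) ?_)
      simp only [Equiv.Perm.one_apply, I.hde.symm, I.hle.symm, if_true, if_false]
      linear_combination -hv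
    have hd' : σ I.d = I.d ∨ σ I.d = I.e := (hσ I.d).2 (Or.inl rfl)
    have he' : σ I.e = I.d ∨ σ I.e = I.e := (hσ I.e).2 (Or.inr rfl)
    rcases hd' with hd | hd
    · have he : σ I.e = I.e := he'.resolve_left fun e => I.hde (σ.injective (hd.trans e.symm))
      exact key2 m σ v hm hd he hv
    · have he : σ I.e = I.d := he'.resolve_right fun e => I.hde (σ.injective (hd.trans e.symm))
      refine (Subgroup.mul_mem_cancel_right _ (wT_mem_Cgrp I)).1 (key2 _ _ _ (hm.mul (mono_wT I.hde))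
        (by simp [he]) (by simp [hd]) ?_)
      simp only [Equiv.swap_apply_left, Equiv.swap_apply_right, I.hde.symm, if_true, if_false]
      rcases hv with hv | hv
      · exact Or.inr (by linear_combination -hv)
      · exact Or.inl (by linear_combination -hv)
  intro m σ v hm h1 h2 hv
  have hd0 : v I.d ≠ 0 := hm.ne_zero _
  have hD := diag2n_mem_Cgrp (F := F) I (v I.d)⁻¹ (inv_ne_zero hd0)
  refine (Subgroup.mul_mem_cancel_right _ hD).1 ?_
  have hm2 := hm.mul (mono_diag2n I.hde (v I.d)⁻¹ (inv_ne_zero hd0))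
  generalize hτ : σ * 1 = τ at hm2
  rw [mul_one] at hτ
  subst hτ
  simp only [Equiv.Perm.one_apply] at hm2
  generalize hg : m * SpecialLinearGroup.diag2n I.hde (v I.d)⁻¹ (inv_ne_zero hd0) = g at hm2 ⊢
  generalize hw : (fun q => v q * if q = I.d then (v I.d)⁻¹ else if q = I.e then ((v I.d)⁻¹)⁻¹ else 1) = w at hm2
  have wd : w I.d = 1 := by subst hw; simp [hd0]
  have we : w I.e = 1 := by subst hw; simp [I.hde.symm, mul_comm, hv]
  have hfix : ∀ q, ¬(q ≠ I.e ∧ q ≠ I.d) → σ q = q ∧ w q = 1 := by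
    intro q hq
    rcases not_and_or.1 hq with h | h <;> rw [not_not] at h <;> subst h
    · exact ⟨h2, we⟩
    · exact ⟨h1, wd⟩
  let A : Matrix (Rest I.e I.d) (Rest I.e I.d) F := fun p q => g.1 p.1 q.1
  have hA : restMat I.e I.d A = g.1 := by
    ext p q
    rw [restMat_apply]
    by_cases hp : p ≠ I.e ∧ p ≠ I.d <;> by_cases hq : q ≠ I.e ∧ q ≠ I.d
    · rw [dif_pos ⟨hp, hq⟩]
    · rw [dif_neg (fun h => hq h.2), if_neg (fun h => h.1 hp), hm2 p q, (hfix q hq).1,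
        if_neg (fun e : p = q => hq (e ▸ hp))]
    · have : p ≠ σ q := fun e => hp (by
        have h' := hfix p hp
        have : σ q = σ p := by rw [h'.1, e]
        rw [← σ.injective this]
        exact hq)
      rw [dif_neg (fun h => hp h.1), hm2 p q, if_neg this, if_neg]
      rintro ⟨-, rfl⟩
      exact hp hq
    · rw [dif_neg (fun h => hp h.1), hm2 p q, (hfix q hq).1, (hfix q hq).2]
      simp [hp]
  have hAdet : A.det = 1 := by
    have := congrArg Matrix.det hA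
    simpa [restMat, Matrix.det_fromBlocks_zero₂₁, g.2] using this
  rw [show g = restHom I.e I.d ⟨A, hAdet⟩ from Subtype.ext hA.symm]
  have : Nontrivial (Rest I.e I.d) := by
    refine ⟨⟨I.c, I.hce, I.hcd⟩, ⟨I.l, I.hle, I.hld⟩, ?_⟩
    simp [I.hlc.symm]
  refine Linear.transvection_induction (fun A => restHom I.e I.d A ∈ Cgrp F I) (fun p q h t => ?_)
    (fun X Y hX hY => by rw [map_mul]; exact mul_mem hX hY) _
  rw [restHom_T]
  exact T_mem_Cgrp I _ (Or.inl ⟨⟨p.2.2, p.2.1⟩, q.2.2, q.2.1⟩) t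

variable {Y : Type v} [Group Y]

/-- The relations of one exchange element. -/
structure Data (I : Idx n) (π : SL(n, F) →* Y) (g : Y) : Prop where
  cC : ∀ A A', A ∈ Cgrp F I → R I.d I.e A A' → g * π A = π A' * g
  w1 : ∃ (m m' : SL(n, F)) (σ σ' : Equiv.Perm (Fin n)), Signed m σ ∧ Signed m' σ' ∧ σ I.d = I.e ∧ σ I.e = I.c ∧
    σ' I.d = I.d ∧ σ' I.e = I.c ∧ g * (π m * g * (π m)⁻¹) = π m' * g * (π m')⁻¹
  r6 : Commute (π (SpecialLinearGroup.transvection I.hcd 1))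
    (g * π (SpecialLinearGroup.transvection I.hcd 1) * g⁻¹)
  r7 : n = 4 → Commute (π (SpecialLinearGroup.transvection I.hle.symm 1))
    (g * π (SpecialLinearGroup.transvection I.hcd 1) * g⁻¹)

theorem exists_to (I : Idx n) {a b : Fin n} (hab : a ≠ b) :
    ∃ m : SL(n, F), ∃ σ, Signed m σ ∧ σ I.d = a ∧ σ I.e = b := by
  let σ1 := Equiv.swap I.d a
  obtain ⟨m, hm⟩ := exists_signed (F := F) (σ1.trans (Equiv.swap (σ1 I.e) b))
  refine ⟨m, _, hm, ?_, Equiv.swap_apply_left _ _⟩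
  show Equiv.swap (σ1 I.e) b (σ1 I.d) = a
  rw [show σ1 I.d = a from Equiv.swap_apply_left _ _]
  exact Equiv.swap_apply_of_ne_of_ne (fun e => I.hde (σ1.injective
    ((Equiv.swap_apply_left _ _).trans e))) hab

theorem exists_to_three (I : Idx n) {a b x : Fin n} (hab : a ≠ b) (hax : a ≠ x) (hbx : b ≠ x) :
    ∃ m : SL(n, F), ∃ σ, Signed m σ ∧ σ I.d = a ∧ σ I.e = b ∧ σ I.c = x := by
  obtain ⟨m, σ, -, hd, he⟩ := exists_to (F := F) I hab
  obtain ⟨k, hk⟩ := exists_signed (F := F) (σ.trans (Equiv.swap (σ I.c) x))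
  refine ⟨k, _, hk, ?_, ?_, Equiv.swap_apply_left _ _⟩
  · show Equiv.swap (σ I.c) x (σ I.d) = a
    rw [hd]
    exact Equiv.swap_apply_of_ne_of_ne (fun e => I.hcd (σ.injective (hd.trans e).symm)) hax
  · show Equiv.swap (σ I.c) x (σ I.e) = b
    rw [he]
    exact Equiv.swap_apply_of_ne_of_ne (fun e => I.hce (σ.injective (he.trans e).symm)) hbx

open Classical in
/-- The exchange of a pair of indices. -/
noncomputable def flipE (I : Idx n) (π : SL(n, F) →* Y) (g : Y) (a b : Fin n) : Y :=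
  if h : a ≠ b then π (exists_to (F := F) I h).choose * g * (π (exists_to (F := F) I h).choose)⁻¹ else 1

namespace Data

variable {I : Idx n} {π : SL(n, F) →* Y} {g : Y} (D : Data I π g)

local notation "Φ" => flipE I π g

include D

theorem comm_signed {m : SL(n, F)} {σ : Equiv.Perm (Fin n)} (hm : Signed m σ)
    (hσ : ∀ q, (σ q = I.d ∨ σ q = I.e) ↔ (q = I.d ∨ q = I.e)) : Commute g (π m) := by
  obtain ⟨v, hv, hmono⟩ := id hm
  refine D.cC m m (mono_mem_Cgrp I hmono hσ ?_) (R_signed I.hde hm I.hde hσ)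
  rcases hv I.d with e | e <;> rcases hv I.e with e' | e' <;> simp [e, e']

theorem flip_eq {m : SL(n, F)} {σ : Equiv.Perm (Fin n)} (hm : Signed m σ) {a b : Fin n}
    (h : σ I.d = a ∧ σ I.e = b ∨ σ I.d = b ∧ σ I.e = a) : π m * g * (π m)⁻¹ = Φ a b := by
  have hab : a ≠ b := by
    rintro rfl
    rcases h with ⟨h1, h2⟩ | ⟨h1, h2⟩ <;> exact I.hde (σ.injective (h1.trans h2.symm))
  rw [flipE, dif_pos hab]
  obtain ⟨τ, hτ, h1, h2⟩ := (exists_to (F := F) I hab).choose_spec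
  set m0 := (exists_to (F := F) I hab).choose
  have hs := hτ.inv.mul hm
  have hst : ∀ q, ((τ⁻¹ * σ) q = I.d ∨ (τ⁻¹ * σ) q = I.e) ↔ (q = I.d ∨ q = I.e) := by
    intro q
    rw [Equiv.Perm.mul_apply, Equiv.Perm.coe_inv, Equiv.symm_apply_eq, Equiv.symm_apply_eq, h1, h2]
    rcases h with ⟨e1, e2⟩ | ⟨e1, e2⟩ <;> rw [← e1, ← e2] <;>
      simp only [σ.injective.eq_iff] <;> tauto
  have hc := (D.comm_signed hs hst).eq
  rw [map_mul, map_inv] at hc
  calc π m * g * (π m)⁻¹ = π m0 * (((π m0)⁻¹ * π m) * g) * (π m)⁻¹ := by group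
    _ = π m0 * g * (π m0)⁻¹ := by rw [← hc]; group

theorem flip_base : Φ I.d I.e = g := by
  rw [← D.flip_eq (m := 1) (σ := 1) (a := I.d) (b := I.e) ⟨_, fun _ => Or.inl rfl, Mono.one⟩
    (Or.inl ⟨rfl, rfl⟩)]
  simp

theorem flip_symm (a b : Fin n) : Φ a b = Φ b a := by
  by_cases hab : a = b
  · rw [hab]
  obtain ⟨m, σ, hm, h1, h2⟩ := exists_to (F := F) I hab
  rw [← D.flip_eq hm (Or.inl ⟨h1, h2⟩), ← D.flip_eq hm (Or.inr ⟨h1, h2⟩)]

theorem conj_flip {m : SL(n, F)} {σ : Equiv.Perm (Fin n)} (hm : Signed m σ) {a b : Fin n} (hab : a ≠ b) :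
    π m * Φ a b * (π m)⁻¹ = Φ (σ a) (σ b) := by
  obtain ⟨k, τ, hk, h1, h2⟩ := exists_to (F := F) I hab
  rw [← D.flip_eq hk (Or.inl ⟨h1, h2⟩), ← D.flip_eq (hm.mul hk)
    (Or.inl ⟨by rw [Equiv.Perm.mul_apply, h1], by rw [Equiv.Perm.mul_apply, h2]⟩), map_mul]
  group

theorem flip_mul {a b x : Fin n} (hab : a ≠ b) (hax : a ≠ x) (hbx : b ≠ x) :
    Φ a b * Φ b x = Φ a x := by
  obtain ⟨k, τ, hk, h1, h2, h3⟩ := exists_to_three (F := F) I hab hax hbx
  obtain ⟨m, m', σ, σ', hm, hm', s1, s2, s3, s4, hw⟩ := D.w1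
  rw [D.flip_eq hm (Or.inl ⟨s1, s2⟩), D.flip_eq hm' (Or.inl ⟨s3, s4⟩)] at hw
  have h : π k * (g * Φ I.e I.c) * (π k)⁻¹ = π k * Φ I.d I.c * (π k)⁻¹ := by rw [hw]
  rw [show π k * (g * Φ I.e I.c) * (π k)⁻¹ = (π k * g * (π k)⁻¹) * (π k * Φ I.e I.c * (π k)⁻¹) by group,
    D.conj_flip hk I.hce.symm, D.conj_flip hk I.hcd.symm, D.flip_eq hk (Or.inl ⟨h1, h2⟩)] at h
  rw [h2, h3, h1] at h
  exact h

theorem exists_other (s : Finset (Fin n)) (hs : s.card < n) : ∃ x, x ∉ s := by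
  obtain ⟨x, -, hx⟩ := Finset.exists_mem_notMem_of_card_lt_card (s := s) (t := Finset.univ) (by simpa using hs)
  exact ⟨x, hx⟩

theorem flip_sq {a b : Fin n} (hab : a ≠ b) : Φ a b * Φ a b = 1 := by
  obtain ⟨x, hx⟩ := D.exists_other {a, b} (lt_of_le_of_lt Finset.card_le_two (by have := I.hn; omega))
  simp only [Finset.mem_insert, Finset.mem_singleton, not_or] at hx
  have h1 := D.flip_mul hab (Ne.symm hx.1) (Ne.symm hx.2)
  have h2 := D.flip_mul hab.symm (Ne.symm hx.2) (Ne.symm hx.1)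
  rw [D.flip_symm b a, ← h1, ← mul_assoc] at h2
  exact mul_eq_right.1 h2

theorem flip_inv {a b : Fin n} (hab : a ≠ b) : (Φ a b)⁻¹ = Φ a b :=
  inv_eq_of_mul_eq_one_left (D.flip_sq hab)

theorem flip_comm_adj {a b x : Fin n} (hab : a ≠ b) (hax : a ≠ x) (hbx : b ≠ x) :
    Φ a b * Φ b x = Φ b x * Φ a b := by
  rw [D.flip_mul hab hax hbx, ← D.flip_inv hax, ← D.flip_mul hab hax hbx, _root_.mul_inv_rev, D.flip_inv hab,
    D.flip_inv hbx]

theorem flip_comm {a b x y : Fin n} (hab : a ≠ b) (hxy : x ≠ y) : Commute (Φ a b) (Φ x y) := by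
  have key : ∀ p q : Fin n, p ≠ q → ∀ r, r ≠ q → r = a ∨ r = b → Commute (Φ a b) (Φ r q) := by
    intro p q _ r hrq hr
    rcases hr with rfl | rfl
    · by_cases hqb : q = b
      · subst hqb; exact Commute.refl _
      · have := D.flip_comm_adj hab.symm (Ne.symm hqb) hrq
        rw [D.flip_symm b r] at this
        exact this
    · by_cases hqa : q = a
      · subst hqa; rw [D.flip_symm r q]
      · exact D.flip_comm_adj hab (Ne.symm hqa) hrq
  by_cases hxa : x = a ∨ x = b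
  · exact key x y hxy x hxy hxa
  by_cases hya : y = a ∨ y = b
  · rw [D.flip_symm x y]; exact key y x hxy.symm y hxy.symm hya
  simp only [not_or] at hxa hya
  rw [← D.flip_mul (Ne.symm (Ne.symm hxa.1)) hxy (Ne.symm hya.1)]
  exact (D.flip_symm x a ▸ key a x (Ne.symm hxa.1) a (Ne.symm hxa.1) (Or.inl rfl)).mul_right
    (key a y (Ne.symm hya.1) a (Ne.symm hya.1) (Or.inl rfl))

/-- Conjugation by an exchange. -/
theorem flip_R {a b : Fin n} (hab : a ≠ b) {p : SL(n, F)} {σ : Equiv.Perm (Fin n)} (hp : Signed p σ)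
    (h1 : σ I.d = a) (h2 : σ I.e = b) {A A' : SL(n, F)} (hA : p⁻¹ * A * p ∈ Cgrp F I) (hR : R a b A A') :
    Φ a b * π A * Φ a b = π A' := by
  have hP : (blockDiag n F p).submatrix (ff a b) (ff I.d I.e) = blockDiag n F p :=
    R_signed I.hde hp hab fun q => by rw [← h1, ← h2, σ.injective.eq_iff, σ.injective.eq_iff]
  have hP' : (blockDiag n F p⁻¹).submatrix (ff I.d I.e) (ff a b) = blockDiag n F p⁻¹ :=
    R_signed hab hp.inv I.hde fun q => by
      rw [Equiv.Perm.coe_inv, Equiv.symm_apply_eq, Equiv.symm_apply_eq, h1, h2]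
  have hR' : R I.d I.e (p⁻¹ * A * p) (p⁻¹ * A' * p) := by
    unfold R at hR ⊢
    rw [map_mul, map_mul, map_mul, map_mul, ← Matrix.submatrix_mul_equiv _ _ _ (ff a b),
      ← Matrix.submatrix_mul_equiv _ _ _ (ff a b), hP', hR, hP]
  have h := D.cC _ _ hA hR'
  conv_lhs => arg 2; rw [← D.flip_inv hab]
  rw [mul_inv_eq_iff_eq_mul, ← D.flip_eq hp (Or.inl ⟨h1, h2⟩)]
  simp only [map_mul, map_inv] at h
  calc π p * g * (π p)⁻¹ * π A = π p * (g * ((π p)⁻¹ * π A * π p)) * (π p)⁻¹ := by group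
    _ = π A' * (π p * g * (π p)⁻¹) := by rw [h]; group

theorem T_conj_mem {p : SL(n, F)} {σ : Equiv.Perm (Fin n)} (hp : Signed p σ) {i j : Fin n} (h : i ≠ j) (t : F) :
    ∃ s : F, p⁻¹ * SpecialLinearGroup.transvection h t * p =
      SpecialLinearGroup.transvection ((σ⁻¹ : Equiv.Perm (Fin n)).injective.ne h) s := by
  obtain ⟨v, -, hv⟩ := hp.inv
  refine ⟨t * v i / v j, ?_⟩
  rw [DPair.mono_T hv h t (hv.ne_zero j), inv_mul_cancel_right]

theorem flip_T_out {a b i j : Fin n} (hab : a ≠ b) (h : i ≠ j) (hi : i ≠ a ∧ i ≠ b) (hj : j ≠ a ∧ j ≠ b)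
    (t : F) : Φ a b * π (SpecialLinearGroup.transvection h t) * Φ a b =
      π (SpecialLinearGroup.transvection h t) := by
  obtain ⟨p, σ, hp, h1, h2⟩ := exists_to (F := F) I hab
  refine D.flip_R hab hp h1 h2 ?_ (R_T_out hab h hi hj t)
  obtain ⟨s, hs⟩ := D.T_conj_mem hp h t
  rw [hs]
  refine T_mem_Cgrp I _ (Or.inl ?_) s
  simp only [Equiv.Perm.coe_inv, ne_eq, Equiv.symm_apply_eq, h1, h2]
  exact ⟨hi, hj⟩

theorem flip_T_in {a b : Fin n} (hab : a ≠ b) (t : F) :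
    Φ a b * π (SpecialLinearGroup.transvection hab t) * Φ a b =
      π (SpecialLinearGroup.transvection hab.symm (-t)) := by
  obtain ⟨p, σ, hp, h1, h2⟩ := exists_to (F := F) I hab
  refine D.flip_R hab hp h1 h2 ?_ (R_T_in hab t)
  obtain ⟨s, hs⟩ := D.T_conj_mem hp hab t
  rw [hs]
  refine T_mem_Cgrp I _ (Or.inr (Or.inl ?_)) s
  simp only [Equiv.Perm.coe_inv, Equiv.symm_apply_eq, h1, h2, and_self]

/-- Conjugation of a stabilising monomial element. -/
theorem flip_mono {a b : Fin n} (hab : a ≠ b) {m : SL(n, F)} {σ : Equiv.Perm (Fin n)} {v : Fin n → F}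
    (hm : Mono m σ v) (hσ : ∀ q, (σ q = a ∨ σ q = b) ↔ (q = a ∨ q = b))
    (hv : v a * v b = 1 ∨ v a * v b = -1) :
    ∃ m', Mono m' σ (fun q => if q = a ∨ q = b then (v q)⁻¹ else v q) ∧ Φ a b * π m * Φ a b = π m' := by
  obtain ⟨p, τ, hp, h1, h2⟩ := exists_to (F := F) I hab
  obtain ⟨w, hw, hpm⟩ := id hp
  obtain ⟨w', hw', hpm'⟩ := hp.inv
  have hk := (hpm'.mul hm).mul hpm
  have hC : p⁻¹ * m * p ∈ Cgrp F I := by
    refine mono_mem_Cgrp I hk (fun q => ?_) ?_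
    · simp only [Equiv.Perm.mul_apply, Equiv.Perm.coe_inv, Equiv.symm_apply_eq, h1, h2]
      rw [hσ, ← h1, ← h2, τ.injective.eq_iff, τ.injective.eq_iff]
    · simp only [h1, h2]
      rcases hv with hv | hv <;> rcases hw' (σ a) with e1 | e1 <;> rcases hw' (σ b) with e2 | e2 <;>
        rcases hw I.d with e3 | e3 <;> rcases hw I.e with e4 | e4 <;> simp [e1, e2, e3, e4, hv]
  obtain ⟨B, hB⟩ := exists_R I hC
  have hP : (blockDiag n F p).submatrix (ff a b) (ff I.d I.e) = blockDiag n F p :=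
    R_signed I.hde hp hab fun q => by rw [← h1, ← h2, τ.injective.eq_iff, τ.injective.eq_iff]
  have hP' : (blockDiag n F p⁻¹).submatrix (ff I.d I.e) (ff a b) = blockDiag n F p⁻¹ :=
    R_signed hab hp.inv I.hde fun q => by
      rw [Equiv.Perm.coe_inv, Equiv.symm_apply_eq, Equiv.symm_apply_eq, h1, h2]
  have hR : R a b m (p * B * p⁻¹) := by
    unfold R at hB ⊢
    rw [map_mul, map_mul, ← hB]
    conv_rhs => rw [← hP, ← hP', Matrix.submatrix_mul_equiv, Matrix.submatrix_mul_equiv, ← map_mul, ← map_mul]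
    congr 2
    group
  exact ⟨_, hR.mono hab hm hσ, D.flip_R hab hp h1 h2 hC hR⟩

end Data

end Cfsg.Agent.OmegaPres
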