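import Cfsg.Agent.CTits.TypeDModel
import Cfsg.Agent.CTits.TypeDKer

/-!
Monomial matrices and conjugation of block diagonal matrices by an exchange of two hyperbolic pairs.
-/

set_option autoImplicit false

namespace Cfsg.Agent.OmegaPres

open Matrix Cfsg.Agent.CTits
open scoped MatrixGroups

universe u

variable {F : Type u} [Field F] {n : ℕ}

/-- A monomial matrix. -/
def Mono (g : SL(n, F)) (σ : Equiv.Perm (Fin n)) (v : Fin n → F) : Prop :=
  ∀ p q, g.1 p q = if p = σ q then v q else 0

theorem Mono.ne_zero {g : SL(n, F)} {σ : Equiv.Perm (Fin n)} {v : Fin n → F} (h : Mono g σ v) (q : Fin n) :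
    v q ≠ 0 := fun e => by
  have hdet := g.2
  rw [Matrix.det_eq_zero_of_column_eq_zero q fun p => by rw [h p q]; split_ifs <;> simp [e]] at hdet
  exact zero_ne_one hdet

theorem Mono.mul {g g' : SL(n, F)} {σ τ : Equiv.Perm (Fin n)} {v w : Fin n → F} (h : Mono g σ v)
    (h' : Mono g' τ w) : Mono (g * g') (σ * τ) (fun q => v (τ q) * w q) := by
  intro p q
  rw [Linear.val_mul, Matrix.mul_apply, Finset.sum_eq_single (τ q)
    (fun r _ hr => by rw [h' r q, if_neg hr, mul_zero]) (by simp), h' _ q, if_pos rfl, h p (τ q),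
    Equiv.Perm.mul_apply, ite_mul, zero_mul]

theorem Mono.one : Mono (1 : SL(n, F)) 1 (fun _ => 1) := fun p q => by
  rw [Matrix.SpecialLinearGroup.coe_one, Matrix.one_apply, Equiv.Perm.one_apply]

theorem Mono.eq {g g' : SL(n, F)} {σ : Equiv.Perm (Fin n)} {v : Fin n → F} (h : Mono g σ v)
    (h' : Mono g' σ v) : g = g' := Subtype.ext (Matrix.ext fun p q => by rw [h p q, h' p q])

theorem exists_mono (σ : Equiv.Perm (Fin n)) (v : Fin n → F)
    (h : ((Equiv.Perm.sign σ : ℤ) : F) * ∏ q, v q = 1) : ∃ g : SL(n, F), Mono g σ v := by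
  refine ⟨⟨Matrix.of fun p q => if p = σ q then v q else 0, ?_⟩, fun p q => rfl⟩
  have hM : (Matrix.of fun p q => if p = σ q then v q else 0) = (σ⁻¹).permMatrix F * Matrix.diagonal v := by
    ext p q
    simp [Matrix.mul_diagonal, Equiv.Perm.permMatrix, PEquiv.toMatrix_apply, Equiv.toPEquiv,
      Equiv.symm_apply_eq]
  rw [hM, Matrix.det_mul, Matrix.det_permutation, Matrix.det_diagonal, Equiv.Perm.sign_inv, h]

/-- A monomial matrix with entries `±1`. -/
def Signed (g : SL(n, F)) (σ : Equiv.Perm (Fin n)) : Prop :=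
  ∃ v : Fin n → F, (∀ q, v q = 1 ∨ v q = -1) ∧ Mono g σ v

theorem exists_signed (σ : Equiv.Perm (Fin n)) : ∃ g : SL(n, F), Signed g σ := by
  by_cases hn : n = 0
  · subst hn; exact ⟨1, fun _ => 1, fun q => q.elim0, fun p => p.elim0⟩
  · let z : Fin n := ⟨0, by omega⟩
    rcases Int.units_eq_one_or (Equiv.Perm.sign σ) with e | e
    · obtain ⟨g, hg⟩ := exists_mono σ (fun _ => (1 : F)) (by simp [e])
      exact ⟨g, _, fun _ => Or.inl rfl, hg⟩
    · obtain ⟨g, hg⟩ := exists_mono σ (fun q => if q = z then (-1 : F) else 1)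
        (by rw [Finset.prod_ite_eq' Finset.univ z, if_pos (Finset.mem_univ z)]; simp [e])
      exact ⟨g, _, fun q => by split_ifs <;> simp, hg⟩

theorem Signed.mul {g g' : SL(n, F)} {σ τ : Equiv.Perm (Fin n)} (h : Signed g σ) (h' : Signed g' τ) :
    Signed (g * g') (σ * τ) := by
  obtain ⟨v, hv, hg⟩ := h
  obtain ⟨w, hw, hg'⟩ := h'
  refine ⟨_, fun q => ?_, hg.mul hg'⟩
  rcases hv (τ q) with e | e <;> rcases hw q with e' | e' <;> simp [e, e']

theorem Signed.inv {g : SL(n, F)} {σ : Equiv.Perm (Fin n)} (h : Signed g σ) : Signed g⁻¹ σ⁻¹ := by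
  obtain ⟨v, hv, hg⟩ := h
  refine ⟨fun q => v (σ⁻¹ q), fun q => hv _, ?_⟩
  have hM : Mono g⁻¹ σ⁻¹ fun q => v (σ⁻¹ q) := by
    have hd := DPair.mono_dual hg hg.ne_zero
    intro p q
    have := hd q p
    change (g⁻¹ : SL(n, F)).1ᵀ q p = _ at this
    rw [Matrix.transpose_apply] at this
    rw [this]
    by_cases e : q = σ p
    · subst e
      rw [if_pos rfl, Equiv.Perm.coe_inv, Equiv.symm_apply_apply, if_pos rfl]
      rcases hv p with e | e <;> simp [e]
    · rw [if_neg e, if_neg fun e' => e (by rw [e']; simp)]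
  exact hM

theorem mono_diag2n {i j : Fin n} (h : i ≠ j) (a : F) (ha : a ≠ 0) :
    Mono (SpecialLinearGroup.diag2n h a ha) 1 (fun q => if q = i then a else if q = j then a⁻¹ else 1) := by
  intro p q
  rw [SpecialLinearGroup.diag2n_coe, Matrix.diagonal_apply, Equiv.Perm.one_apply]
  by_cases e : p = q
  · subst e
    simp only [if_pos rfl]
  · rw [if_neg e, if_neg e]

/-- The Weyl element of a pair. -/
def wT {i j : Fin n} (h : i ≠ j) : SL(n, F) :=
  SpecialLinearGroup.transvection h 1 * SpecialLinearGroup.transvection h.symm (-1) *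
    SpecialLinearGroup.transvection h 1

theorem mono_wT {i j : Fin n} (h : i ≠ j) :
    Mono (wT (F := F) h) (Equiv.swap i j) (fun q => if q = i then -1 else if q = j then 1 else 1) := by
  intro p q
  have := wij_spec h (one_ne_zero (α := F)) p q
  rw [inv_one] at this
  exact this

/-! ### Exchanging two hyperbolic pairs -/

/-- Exchanging the vectors of two hyperbolic pairs. -/
def ff (a b : Fin n) : BI n ≃ BI n := (flipD a).trans (flipD b)

theorem ff_inl {a b p : Fin n} (hab : a ≠ b) :
    ff a b (Sum.inl p) = if p = a ∨ p = b then Sum.inr p else Sum.inl p := by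
  show flipD b (flipD a (Sum.inl p)) = _
  by_cases ha : p = a
  · subst ha
    rw [show flipD p (Sum.inl p) = Sum.inr p from Equiv.swap_apply_left _ _, flipD_inr hab,
      if_pos (Or.inl rfl)]
  · rw [flipD_inl ha]
    by_cases hb : p = b
    · subst hb
      rw [show flipD p (Sum.inl p) = Sum.inr p from Equiv.swap_apply_left _ _, if_pos (Or.inr rfl)]
    · rw [flipD_inl hb, if_neg (by simp [ha, hb])]

theorem ff_inr {a b p : Fin n} (hab : a ≠ b) :
    ff a b (Sum.inr p) = if p = a ∨ p = b then Sum.inl p else Sum.inr p := by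
  show flipD b (flipD a (Sum.inr p)) = _
  by_cases ha : p = a
  · subst ha
    rw [show flipD p (Sum.inr p) = Sum.inl p from Equiv.swap_apply_right _ _, flipD_inl hab,
      if_pos (Or.inl rfl)]
  · rw [flipD_inr ha]
    by_cases hb : p = b
    · subst hb
      rw [show flipD p (Sum.inr p) = Sum.inl p from Equiv.swap_apply_right _ _, if_pos (Or.inr rfl)]
    · rw [flipD_inr hb, if_neg (by simp [ha, hb])]

theorem ff_ff {a b : Fin n} (hab : a ≠ b) (x : BI n) : ff a b (ff a b x) = x := by
  rcases x with p | p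
  · rw [ff_inl hab]
    split_ifs with h
    · rw [ff_inr hab, if_pos h]
    · rw [ff_inl hab, if_neg h]
  · rw [ff_inr hab]
    split_ifs with h
    · rw [ff_inl hab, if_pos h]
    · rw [ff_inr hab, if_neg h]

/-- `A'` is `A` seen after exchanging two hyperbolic pairs. -/
def R (a b : Fin n) (A A' : SL(n, F)) : Prop :=
  (blockDiag n F A).submatrix (ff a b) (ff a b) = blockDiag n F A'

theorem blockDiag_injective : Function.Injective (blockDiag n F) := fun A A' h => by
  apply Subtype.ext
  have := congrArg Matrix.toBlocks₁₁ h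
  rw [show blockDiag n F A = Matrix.fromBlocks A.1 0 0 (dualSL A).1 from rfl,
    show blockDiag n F A' = Matrix.fromBlocks A'.1 0 0 (dualSL A').1 from rfl,
    Matrix.toBlocks_fromBlocks₁₁, Matrix.toBlocks_fromBlocks₁₁] at this
  exact this

theorem R.mul {a b : Fin n} {A B A' B' : SL(n, F)} (h : R a b A A') (h' : R a b B B') :
    R a b (A * B) (A' * B') := by
  unfold R at h h' ⊢
  rw [map_mul, map_mul, ← h, ← h', Matrix.submatrix_mul_equiv]

theorem R.one {a b : Fin n} : R a b (1 : SL(n, F)) 1 := by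
  unfold R
  rw [map_one, Matrix.submatrix_one_equiv]

theorem R.unique {a b : Fin n} {A A' A'' : SL(n, F)} (h : R a b A A') (h' : R a b A A'') : A' = A'' :=
  blockDiag_injective (h.symm.trans h')

theorem R.symm {a b : Fin n} (hab : a ≠ b) {A A' : SL(n, F)} (h : R a b A A') : R a b A' A := by
  unfold R at h ⊢
  rw [← h, Matrix.submatrix_submatrix]
  ext x y
  simp [ff_ff hab]

theorem R.inv {a b : Fin n} {A A' : SL(n, F)} (h : R a b A A') : R a b A⁻¹ A'⁻¹ := by
  unfold R at h ⊢
  have h1 : (blockDiag n F A⁻¹).submatrix (ff a b) (ff a b) * (blockDiag n F A).submatrix (ff a b) (ff a b) = 1 := by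
    rw [Matrix.submatrix_mul_equiv, ← map_mul, inv_mul_cancel, map_one, Matrix.submatrix_one_equiv]
  have h2 : (blockDiag n F A).submatrix (ff a b) (ff a b) * blockDiag n F A'⁻¹ = 1 := by
    rw [h, ← map_mul, mul_inv_cancel, map_one]
  exact left_inv_eq_right_inv h1 h2

theorem blockDiag_apply_inl (A : SL(n, F)) (p q : Fin n) :
    blockDiag n F A (Sum.inl p) (Sum.inl q) = A.1 p q := rfl

theorem blockDiag_mono {g : SL(n, F)} {σ : Equiv.Perm (Fin n)} {v : Fin n → F} (h : Mono g σ v)
    (x y : BI n) : blockDiag n F g x y =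
      if x = Sum.map σ σ y then Sum.elim v (fun q => (v q)⁻¹) y else 0 := by
  have hd := DPair.mono_dual h h.ne_zero
  rcases x with p | p <;> rcases y with q | q
  · show g.1 p q = _
    simp [h p q]
  · show (0 : F) = _
    simp
  · show (0 : F) = _
    simp
  · show (dualSL g).1 p q = _
    simp [hd p q]

/-- The action of the exchange on a stabilising monomial matrix. -/
theorem R.mono {a b : Fin n} (hab : a ≠ b) {A A' : SL(n, F)} (h : R a b A A') {σ : Equiv.Perm (Fin n)}
    {v : Fin n → F} (hA : Mono A σ v) (hσ : ∀ q, (σ q = a ∨ σ q = b) ↔ (q = a ∨ q = b)) :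
    Mono A' σ (fun q => if q = a ∨ q = b then (v q)⁻¹ else v q) := by
  intro p q
  rw [← blockDiag_apply_inl A' p q, ← h, Matrix.submatrix_apply, blockDiag_mono hA, ff_inl hab, ff_inl hab]
  have := hσ q
  by_cases hp : p = a ∨ p = b <;> by_cases hq : q = a ∨ q = b
  · simp [hp, hq]
  · have : p ≠ σ q := fun e => hq (this.1 (e ▸ hp))
    simp [hp, hq, this]
  · have : p ≠ σ q := fun e => hp (e ▸ this.2 hq)
    simp [hp, hq, this]
  · simp [hp, hq]

theorem blockDiag_T {p q : Fin n} (h : p ≠ q) (t : F) :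
    blockDiag n F (SpecialLinearGroup.transvection h t) =
      1 + Matrix.single (Sum.inl p) (Sum.inl q) t + Matrix.single (Sum.inr q) (Sum.inr p) (-t) :=
  L1_T h t

theorem R_T_out {a b p q : Fin n} (hab : a ≠ b) (h : p ≠ q) (hp : p ≠ a ∧ p ≠ b) (hq : q ≠ a ∧ q ≠ b)
    (t : F) : R a b (SpecialLinearGroup.transvection h t) (SpecialLinearGroup.transvection h t) := by
  unfold R
  rw [blockDiag_T]
  ext x y
  have h1 : ff a b (Sum.inl p) = Sum.inl p := by rw [ff_inl hab, if_neg (by simp [hp.1, hp.2])]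
  have h2 : ff a b (Sum.inr p) = Sum.inr p := by rw [ff_inr hab, if_neg (by simp [hp.1, hp.2])]
  have h3 : ff a b (Sum.inl q) = Sum.inl q := by rw [ff_inl hab, if_neg (by simp [hq.1, hq.2])]
  have h4 : ff a b (Sum.inr q) = Sum.inr q := by rw [ff_inr hab, if_neg (by simp [hq.1, hq.2])]
  have key : ∀ z w : BI n, ff a b z = z → (z = ff a b w ↔ z = w) := fun z w hz =>
    ⟨fun e => by rw [← hz, e, ff_ff hab], fun e => by rw [← e, hz]⟩
  simp only [Matrix.submatrix_apply, Matrix.add_apply, Matrix.single_apply, Matrix.one_apply,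
    (ff a b).injective.eq_iff, key _ _ h1, key _ _ h2, key _ _ h3, key _ _ h4]

theorem R_T_in {a b : Fin n} (hab : a ≠ b) (t : F) :
    R a b (SpecialLinearGroup.transvection hab t) (SpecialLinearGroup.transvection hab.symm (-t)) := by
  unfold R
  rw [blockDiag_T, blockDiag_T]
  ext x y
  have h1 : ff a b (Sum.inr a) = Sum.inl a := by rw [ff_inr hab, if_pos (Or.inl rfl)]
  have h2 : ff a b (Sum.inl a) = Sum.inr a := by rw [ff_inl hab, if_pos (Or.inl rfl)]
  have h3 : ff a b (Sum.inr b) = Sum.inl b := by rw [ff_inr hab, if_pos (Or.inr rfl)]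
  have h4 : ff a b (Sum.inl b) = Sum.inr b := by rw [ff_inl hab, if_pos (Or.inr rfl)]
  have key : ∀ z z' w : BI n, ff a b z' = z → (z = ff a b w ↔ z' = w) := fun z z' w hz =>
    ⟨fun e => (ff a b).injective (hz.trans e), fun e => by rw [← e, hz]⟩
  simp only [Matrix.submatrix_apply, Matrix.add_apply, Matrix.single_apply, Matrix.one_apply,
    (ff a b).injective.eq_iff, key _ _ _ h1, key _ _ _ h2, key _ _ _ h3, key _ _ _ h4, neg_neg]
  ring

/-! ### Sums of squares -/

/-- An additively closed set containing all squares is everything. -/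
theorem forall_of_squares [Finite F] {P : F → Prop} (hsub : ∀ x y, P x → P y → P (x - y))
    (hsq : ∀ s, P (s * s)) (x : F) : P x := by
  by_cases h2 : (2 : F) = 0
  · have hinj : Function.Injective fun s : F => s * s := fun s r e => by
      have : (s - r) * (s - r) = 0 := by
        linear_combination (e : s * s = r * r) + (r * r - s * r) * h2
      exact sub_eq_zero.1 (mul_self_eq_zero.1 this)
    obtain ⟨s, rfl⟩ := Finite.surjective_of_injective hinj x
    exact hsq s
  · have := hsub _ _ (hsq ((x + 1) / 2)) (hsq ((x - 1) / 2))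
    have e : (x + 1) / 2 * ((x + 1) / 2) - (x - 1) / 2 * ((x - 1) / 2) = x := by field_simp; ring
    rwa [e] at this

end Cfsg.Agent.OmegaPres
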