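import Cfsg.Agent.OmegaPres.Data
import Cfsg.Agent.CTits.TypeDRec
import Cfsg.Agent.S2402
import Cfsg.Agent.S2403

/-!
Four elements generating the subgroup on which the exchange acts.
-/

set_option autoImplicit false
set_option linter.unusedSectionVars false

namespace Cfsg.Agent.OmegaPres

open Matrix Cfsg.Agent.CTits
open scoped MatrixGroups commutatorElement

universe u

variable {F : Type u} [Field F] [Finite F] {n : ℕ}

theorem eq_top_of_sup_center {G : Type*} [Group G] {H : Subgroup G} (hG : commutator G = ⊤)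
    (h : H ⊔ Subgroup.center G = ⊤) : H = ⊤ := by
  rw [eq_top_iff, ← hG, commutator_def, Subgroup.commutator_le]
  intro x _ y _
  have hmul : ∀ x : G, ∃ a ∈ H, ∃ z ∈ Subgroup.center G, x = a * z := by
    intro x
    have hx : x ∈ (↑(H ⊔ Subgroup.center G) : Set G) := h ▸ Subgroup.mem_top x
    rw [Subgroup.mul_normal] at hx
    obtain ⟨a, ha, z, hz, rfl⟩ := Set.mem_mul.1 hx
    exact ⟨a, ha, z, hz, rfl⟩
  obtain ⟨a, ha, z, hz, rfl⟩ := hmul x
  obtain ⟨b, hb, z', hz', rfl⟩ := hmul y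
  have cz : ∀ w, w * z = z * w := Subgroup.mem_center_iff.1 hz
  have cz' : ∀ w, w * z' = z' * w := Subgroup.mem_center_iff.1 hz'
  have : ⁅a * z, b * z'⁆ = ⁅a, b⁆ := by
    simp only [commutatorElement_def, _root_.mul_inv_rev]
    calc a * z * (b * z') * (z⁻¹ * a⁻¹) * (z'⁻¹ * b⁻¹)
        = a * (z * b) * (z' * (z⁻¹ * a⁻¹)) * (z'⁻¹ * b⁻¹) := by group
      _ = a * (b * z) * ((z⁻¹ * a⁻¹) * z') * (z'⁻¹ * b⁻¹) := by rw [cz b, cz']
      _ = _ := by group
  rw [this, commutatorElement_def]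
  exact mul_mem (mul_mem (mul_mem ha hb) (inv_mem ha)) (inv_mem hb)

theorem exists_two_general (m : ℕ) (hm : 2 ≤ m) : ∃ a b : SpecialLinearGroup (Fin (m + 1)) F,
    Subgroup.closure {a, b} = ⊤ := by
  classical
  have : Fintype F := Fintype.ofFinite F
  have h01 : (0 : Fin (m + 1)) ≠ 1 := fun e => by
    have := congrArg Fin.val e
    rw [Fin.val_zero, Fin.val_one', Nat.mod_eq_of_lt (by omega)] at this
    omega
  let σ : Equiv.Perm (Fin (m + 1)) := (finRotate (m + 1))⁻¹
  obtain ⟨w, hw⟩ := exists_mono (F := F) σ (fun q => Spec.SLGen.esign m (σ q)) (by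
    rw [Equiv.prod_comp σ (fun q => Spec.SLGen.esign (K := F) m q),
      Fintype.prod_eq_single (f := fun q => Spec.SLGen.esign (K := F) m q) (Fin.last m) (fun x hx => if_neg (fun e => hx (Fin.ext e))),
      Spec.SLGen.esign, if_pos (Fin.val_last m), Equiv.Perm.sign_inv, sign_finRotate]
    push_cast
    rw [← mul_pow]
    simp)
  have hw' : w.1 = Spec.SLGen.cycMat F m := by
    ext i j
    rw [hw i j]
    show _ = if j = i + 1 then Spec.SLGen.esign m i else 0
    have e : i = σ j ↔ j = i + 1 := by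
      rw [Equiv.Perm.eq_inv_iff_eq, finRotate_succ_apply, eq_comm]
    by_cases h : i = σ j
    · rw [if_pos h, if_pos (e.1 h), h]
    · rw [if_neg h, if_neg (fun h' => h (e.2 h'))]
  rw [Spec.SLGen.cycMat_eq] at hw'
  set x : SpecialLinearGroup (Fin (m + 1)) F := SpecialLinearGroup.transvection h01 1 with hx
  have hx' : x.1 = Matrix.transvection (0 : Fin (m + 1)) (1 : Fin (m + 1)) 1 := by
    rw [hx, SpecialLinearGroup.transvection_coe]; rfl
  have hperf := Linear.commutator_SL_eq_top (F := F) (ι := Fin (m + 1)) (by rw [Fintype.card_fin]; omega)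
  rcases Nat.lt_or_ge 3 (Fintype.card F) with hq | hq
  · obtain ⟨k, hk⟩ := IsCyclic.exists_generator (α := Fˣ)
    refine ⟨SpecialLinearGroup.diag2n h01 (k : F) k.ne_zero, x * w, eq_top_of_sup_center hperf
      (S2402.result hq m (by omega) k hk _ x w ?_ hx' hw')⟩
    rw [SpecialLinearGroup.diag2n_coe]
    congr 1
    funext i
    have h1 : ((1 : Fin (m + 1)) : ℕ) = 1 := by rw [Fin.val_one']; exact Nat.mod_eq_of_lt (by omega)
    simp only [Fin.ext_iff, Fin.val_zero, h1, Units.val_inv_eq_inv_val]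
  · exact ⟨x, w, eq_top_of_sup_center hperf (S2403.result hq m (by omega) x w hx' hw')⟩

/-- Two elements with a twisting element generate one pair of root groups. -/
theorem exists_two_pair {p q : Fin n} (h : p ≠ q) (D : SL(n, F)) {v : Fin n → F} (hD : Mono D 1 v)
    (ε : v p = 1 ∧ v q = 1 ∨ v p = -1 ∧ v q = 1) :
    ∃ a b : SL(n, F), (a ∈ Subgroup.closure ({D} ∪ {x | ∃ t, x = SpecialLinearGroup.transvection h t} ∪
        {x | ∃ t, x = SpecialLinearGroup.transvection h.symm t})) ∧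
      (b ∈ Subgroup.closure ({D} ∪ {x | ∃ t, x = SpecialLinearGroup.transvection h t} ∪
        {x | ∃ t, x = SpecialLinearGroup.transvection h.symm t})) ∧
      ∀ t, SpecialLinearGroup.transvection h t ∈ Subgroup.closure {a, b} ∧
        SpecialLinearGroup.transvection h.symm t ∈ Subgroup.closure {a, b} ∧ D ∈ Subgroup.closure {a, b} := by
  classical
  set K := Subgroup.closure ({D} ∪ {x | ∃ t, x = SpecialLinearGroup.transvection h t} ∪
    {x | ∃ t, x = SpecialLinearGroup.transvection h.symm t})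
  let T : F → SL(n, F) := fun t => SpecialLinearGroup.transvection h t
  let T' : F → SL(n, F) := fun t => SpecialLinearGroup.transvection h.symm t
  have hT : ∀ t, T t ∈ K := fun t => Subgroup.subset_closure (Or.inl (Or.inr ⟨t, rfl⟩))
  have hT' : ∀ t, T' t ∈ K := fun t => Subgroup.subset_closure (Or.inr ⟨t, rfl⟩)
  have hDK : D ∈ K := Subgroup.subset_closure (Or.inl (Or.inl rfl))
  have Tadd : ∀ s t, T (s + t) = T s * T t := fun s t => by
    rw [show T = fun t => SpecialLinearGroup.transvection h t from rfl]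
    exact Subtype.ext (by
      simp [SpecialLinearGroup.transvection_coe, Linear.val_mul, mul_add, add_mul,
        Matrix.single_mul_single_of_ne _ _ _ _ h.symm, Matrix.single_add, add_assoc])
  have T0 : T 0 = 1 := by
    have := Tadd 0 0
    rw [add_zero] at this
    exact (mul_eq_left.1 this.symm)
  have Tinv : ∀ t, (T t)⁻¹ = T (-t) := fun t =>
    inv_eq_of_mul_eq_one_right (by rw [← Tadd, add_neg_cancel, T0])
  set w : SL(n, F) := wT h with hw
  have hwK : w ∈ K := mul_mem (mul_mem (hT _) (hT' _)) (hT _)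
  -- the monomial element
  have hm := (mono_wT (F := F) h).mul hD
  obtain ⟨c, hc, hconj⟩ : ∃ c : F, c ≠ 0 ∧ ∀ t, w * D * T t = T' (c * t) * (w * D) := by
    refine ⟨-(v p / v q), neg_ne_zero.2 (div_ne_zero (hD.ne_zero p) (hD.ne_zero q)), fun t => ?_⟩
    have := DPair.mono_T hm h t (hm.ne_zero q)
    rw [this]
    simp only [mul_one, Equiv.Perm.one_apply, Equiv.swap_apply_left, Equiv.swap_apply_right, eq_self_iff_true,
      if_true, if_neg h.symm]
    congr 1
    show SpecialLinearGroup.transvection _ _ = SpecialLinearGroup.transvection _ _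
    congr 1
    field_simp
  -- once the root group and the monomial element are there
  have finish : ∀ {a b : SL(n, F)}, w * D ∈ Subgroup.closure {a, b} → (∀ t, T t ∈ Subgroup.closure {a, b}) →
      ∀ t, T t ∈ Subgroup.closure {a, b} ∧ T' t ∈ Subgroup.closure {a, b} ∧ D ∈ Subgroup.closure {a, b} := by
    intro a b hwD hall t
    have hall' : ∀ t, T' t ∈ Subgroup.closure {a, b} := fun t => by
      have h1 := hconj (t / c)
      rw [mul_div_cancel₀ t hc, ← mul_inv_eq_iff_eq_mul] at h1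
      rw [← h1]
      exact mul_mem (mul_mem hwD (hall _)) (inv_mem hwD)
    refine ⟨hall t, hall' t, ?_⟩
    refine (Subgroup.mul_mem_cancel_left _ ?_).1 hwD
    exact mul_mem (mul_mem (hall _) (hall' _)) (hall _)
  by_cases hsq : ∀ u : F, u ≠ 0 → u * u = 1
  · refine ⟨w * D, T 1, mul_mem hwK hDK, hT 1, finish (Subgroup.subset_closure (Or.inl rfl)) fun t => ?_⟩
    have h1 : T 1 ∈ Subgroup.closure {w * D, T 1} := Subgroup.subset_closure (Or.inr rfl)
    by_cases ht : t = 0
    · rw [ht, T0]; exact one_mem _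
    rcases mul_self_eq_one_iff.1 (hsq t ht) with rfl | rfl
    · exact h1
    · rw [← Tinv]; exact inv_mem h1
  push Not at hsq
  obtain ⟨u0, hu0, hu0'⟩ := hsq
  obtain ⟨k, hk⟩ := IsCyclic.exists_generator (α := Fˣ)
  set H : SL(n, F) := SpecialLinearGroup.diag2n h (k : F) k.ne_zero with hH
  have hHK : H ∈ K := by
    rw [hH, Linear.diag2n_decompose]
    exact mul_mem (mul_mem (mul_mem (mul_mem (mul_mem (hT _) (hT' _)) (hT _)) (hT _)) (hT' _)) (hT _)
  set C := Subgroup.closure {T 1 * (w * D), H} with hC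
  have ha : T 1 * (w * D) ∈ C := Subgroup.subset_closure (Or.inl rfl)
  have hb : H ∈ C := Subgroup.subset_closure (Or.inr rfl)
  have hHc : ∀ t, H * T t * H⁻¹ = T ((k : F) * (k : F) * t) := by
    intro t
    rw [mul_inv_eq_iff_eq_mul]
    have hh := mono_diag2n h (k : F) k.ne_zero
    show H * SpecialLinearGroup.transvection h t = _
    rw [hH, DPair.mono_T hh h t (hh.ne_zero q)]
    congr 1
    show SpecialLinearGroup.transvection _ _ = SpecialLinearGroup.transvection _ _
    congr 1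
    simp [h.symm]
    ring
  have hwDH : w * D * H = H⁻¹ * (w * D) := by
    rw [eq_inv_mul_iff_mul_eq]
    have hh := mono_diag2n h (k : F) k.ne_zero
    have h1 := hh.mul (hm.mul hh)
    rw [one_mul, mul_one] at h1
    refine h1.eq ?_
    have h2 := hm
    rw [mul_one] at h2
    have hk0 : (k : F) ≠ 0 := k.ne_zero
    convert h2 using 1
    any_goals exact mul_one _
    funext r
    simp only [Equiv.Perm.mul_apply, Equiv.Perm.one_apply]
    by_cases hrp : r = p
    · subst hrp; simp [h.symm]; field_simp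
    by_cases hrq : r = q
    · subst hrq; simp [hrp]; field_simp
    simp [hrp, hrq, Equiv.swap_apply_of_ne_of_ne hrp hrq]
  set s0 : F := 1 - ((k : F) * (k : F))⁻¹
  have hk2 : (k : F) * (k : F) ≠ 1 := by
    intro e
    apply hu0'
    obtain ⟨i, hi⟩ := Subgroup.mem_zpowers_iff.1 (hk (Units.mk0 u0 hu0))
    have hk' : k * k = 1 := Units.ext (by simpa using e)
    have : Units.mk0 u0 hu0 * Units.mk0 u0 hu0 = 1 := by
      rw [← hi, ← mul_zpow, hk', _root_.one_zpow]
    simpa using congrArg Units.val this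
  have hs0' : s0 ≠ 0 := sub_ne_zero.2 fun e => hk2 (by rw [← inv_inv ((k : F) * k), ← e, inv_one])
  have hs0 : T s0 ∈ C := by
    have e : T s0 = T 1 * (w * D) * H * (T 1 * (w * D))⁻¹ * H := by
      have hinv : H⁻¹ * T (-1) * H = T (((k : F) * k)⁻¹ * -1) := by
        have := hHc (((k : F) * k)⁻¹ * -1)
        rw [← mul_assoc ((k : F) * k), mul_inv_cancel₀ (mul_ne_zero k.ne_zero k.ne_zero), one_mul] at this
        rw [← this]; group
      calc T s0 = T 1 * T (((k : F) * k)⁻¹ * -1) := by rw [← Tadd]; congr 1; simp [s0]; ring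
        _ = T 1 * (H⁻¹ * (T 1)⁻¹ * H) := by rw [Tinv, hinv]
        _ = T 1 * ((w * D * H) * (w * D)⁻¹) * (T 1)⁻¹ * H := by rw [hwDH]; group
        _ = _ := by group
    rw [e]
    exact mul_mem (mul_mem (mul_mem ha hb) (inv_mem ha)) hb
  have hpow : ∀ i : ℕ, T (((k : F) ^ i) * ((k : F) ^ i) * s0) ∈ C := by
    intro i
    induction i with
    | zero => simpa using hs0
    | succ i ih =>
      have := mul_mem (mul_mem hb ih) (inv_mem hb)
      rw [hHc] at this
      convert this using 2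
      ring
  have hall : ∀ t, T t ∈ C := by
    intro t
    have := forall_of_squares (P := fun x => T (x * s0) ∈ C)
      (fun x y hx hy => by
        rw [sub_mul, sub_eq_add_neg, Tadd, ← Tinv]
        exact mul_mem hx (inv_mem hy))
      (fun s => by
        by_cases hs : s = 0
        · rw [hs, zero_mul, zero_mul, T0]; exact one_mem _
        obtain ⟨i, hi⟩ := (mem_powers_iff_mem_zpowers.2 (hk (Units.mk0 s hs)))
        have : (k : F) ^ i = s := by simpa using congrArg Units.val hi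
        rw [← this]
        exact hpow i) (t / s0)
    rwa [div_mul_cancel₀ t hs0'] at this
  refine ⟨T 1 * (w * D), H, mul_mem (hT 1) (mul_mem hwK hDK), hHK, finish ?_ hall⟩
  exact (Subgroup.mul_mem_cancel_left _ (hall 1)).1 ha

theorem exists_two_out (I : Idx n) : ∃ a b : SL(n, F), a ∈ Cgrp F I ∧ b ∈ Cgrp F I ∧
    ∀ (p q : Fin n) (h : p ≠ q), (p ≠ I.d ∧ p ≠ I.e) → (q ≠ I.d ∧ q ≠ I.e) → ∀ t,
      SpecialLinearGroup.transvection h t ∈ Subgroup.closure {a, b} := by
  classical
  have hn := I.hn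
  let ι := Fintype.equivFin (Rest I.d I.e)
  have hcard : Fintype.card (Rest I.d I.e) = n - 2 := by
    rw [Fintype.card_subtype,
      show (Finset.univ.filter fun x => x ≠ I.d ∧ x ≠ I.e) = ({I.d, I.e} : Finset (Fin n))ᶜ by ext x; simp,
      Finset.card_compl, Finset.card_pair I.hde, Fintype.card_fin]
  rcases Nat.lt_or_ge n 5 with h4 | h5
  · have e2 : ∀ x : Fin n, x ≠ I.d ∧ x ≠ I.e → x = I.c ∨ x = I.l := by
      intro x hx
      by_contra hcon
      simp only [not_or] at hcon
      have hsub : ({x, I.c, I.l} : Finset (Fin n)) ⊆ Finset.univ.filter fun y => y ≠ I.d ∧ y ≠ I.e := by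
        intro y hy
        simp only [Finset.mem_insert, Finset.mem_singleton] at hy
        rcases hy with rfl | rfl | rfl <;> simp [hx, I.hcd, I.hce, I.hld, I.hle]
      have := Finset.card_le_card hsub
      rw [Finset.card_insert_of_notMem (by simp [hcon.1, hcon.2]), Finset.card_pair I.hlc.symm,
        ← Fintype.card_subtype, hcard] at this
      omega
    obtain ⟨a, b, ha, hb, h⟩ := exists_two_pair (F := F) I.hlc.symm 1 Mono.one (Or.inl ⟨rfl, rfl⟩)
    have hle : Subgroup.closure ({(1 : SL(n, F))} ∪ {x | ∃ t, x = SpecialLinearGroup.transvection I.hlc.symm t} ∪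
        {x | ∃ t, x = SpecialLinearGroup.transvection I.hlc.symm.symm t}) ≤ Cgrp F I := by
      refine (Subgroup.closure_le _).2 ?_
      rintro x ((hx | ⟨t, rfl⟩) | ⟨t, rfl⟩)
      · rw [Set.mem_singleton_iff.1 hx]; exact one_mem _
      · exact T_mem_Cgrp I _ (Or.inl ⟨⟨I.hcd, I.hce⟩, I.hld, I.hle⟩) t
      · exact T_mem_Cgrp I _ (Or.inl ⟨⟨I.hld, I.hle⟩, I.hcd, I.hce⟩) t
    refine ⟨a, b, hle ha, hle hb, fun p q hpq hp hq t => ?_⟩
    rcases e2 p hp with rfl | rfl <;> rcases e2 q hq with rfl | rfl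
    · exact absurd rfl hpq
    · exact (h t).1
    · exact (h t).2.1
    · exact absurd rfl hpq
  obtain ⟨m, hm⟩ : ∃ m, n - 2 = m + 1 := ⟨n - 3, by omega⟩
  let e : Fin (m + 1) → Fin n := fun i => (ι.symm (Fin.cast (by rw [hcard, hm]) i)).1
  have hinj : Function.Injective e := fun i j h => Fin.cast_injective _ (ι.symm.injective (Subtype.ext h))
  have hmem : ∀ i, e i ≠ I.d ∧ e i ≠ I.e := fun i => (ι.symm _).2
  have Sy := sys_rootsOf (MonoidHom.id SL(n, F))
  have S : Spec.StPres.Sys F (m + 1) (fun i j t => rootsOf (MonoidHom.id SL(n, F)) (e i) (e j) t) :=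
    { add := fun i j h => Sy.add _ _ (hinj.ne h)
      comm0 := fun i j k l h1 h2 h3 h4 => Sy.comm0 _ _ _ _ (hinj.ne h1) (hinj.ne h2) (hinj.ne h3) (hinj.ne h4)
      comm1 := fun i j l h1 h2 h3 => Sy.comm1 _ _ _ (hinj.ne h1) (hinj.ne h2) (hinj.ne h3) }
  obtain ⟨f, hf⟩ := Cfsg.Agent.Spec.StPres.exists_hom (by omega) S
  obtain ⟨a, b, hab⟩ := exists_two_general (F := F) m (by omega)
  have : Nontrivial (Fin (m + 1)) := Fin.nontrivial_iff_two_le.2 (by omega)
  have hfC : ∀ A, f A ∈ Cgrp F I := fun A =>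
    Linear.transvection_induction (fun A => f A ∈ Cgrp F I) (fun i j h t => by
      rw [hf i j h, rootsOf_eq _ (hinj.ne h)]
      exact T_mem_Cgrp I (hinj.ne h) (Or.inl ⟨hmem i, hmem j⟩) t) (fun A B hA hB => by rw [map_mul]; exact mul_mem hA hB) A
  refine ⟨f a, f b, hfC a, hfC b, fun p q hpq hp hq t => ?_⟩
  obtain ⟨i, hi⟩ : ∃ i, e i = p := ⟨Fin.cast (by rw [hcard, hm]) (ι ⟨p, hp⟩), by simp [e]⟩
  obtain ⟨j, hj⟩ : ∃ j, e j = q := ⟨Fin.cast (by rw [hcard, hm]) (ι ⟨q, hq⟩), by simp [e]⟩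
  subst hi hj
  have hij : i ≠ j := fun h => hpq (h ▸ rfl)
  have : f (SpecialLinearGroup.transvection hij t) ∈ (Subgroup.closure {a, b}).map f :=
    ⟨_, hab ▸ Subgroup.mem_top _, rfl⟩
  rw [MonoidHom.map_closure, Set.image_pair, hf i j hij, rootsOf_eq _ hpq] at this
  exact this

/-- Four elements generate `Cgrp`. -/
theorem exists_four (I : Idx n) : ∃ a : Fin 4 → SL(n, F), (∀ i, a i ∈ Cgrp F I) ∧
    Cgrp F I ≤ Subgroup.closure (Set.range a) := by
  obtain ⟨a, b, ha, hb, hab⟩ := exists_two_out (F := F) I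
  have hD := mono_diag2n I.hld.symm (-1 : F) (neg_ne_zero.2 one_ne_zero)
  obtain ⟨c, d, hc, hd, hcd⟩ := exists_two_pair (F := F) I.hde _ hD (Or.inr (by
    simp [I.hde.symm, I.hle.symm]))
  have hle : Subgroup.closure ({SpecialLinearGroup.diag2n I.hld.symm (-1 : F) (neg_ne_zero.2 one_ne_zero)} ∪
      {x | ∃ t, x = SpecialLinearGroup.transvection I.hde t} ∪
      {x | ∃ t, x = SpecialLinearGroup.transvection I.hde.symm t}) ≤ Cgrp F I := by
    refine (Subgroup.closure_le _).2 ?_
    rintro x ((hx | ⟨t, rfl⟩) | ⟨t, rfl⟩)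
    · exact Subgroup.subset_closure (Or.inr hx)
    · exact T_mem_Cgrp I _ (Or.inr (Or.inl ⟨rfl, rfl⟩)) t
    · exact T_mem_Cgrp I _ (Or.inr (Or.inr ⟨rfl, rfl⟩)) t
  refine ⟨![a, b, c, d], fun i => by fin_cases i <;> first | exact ha | exact hb | exact hle hc | exact hle hd, ?_⟩
  have h1 : Subgroup.closure {a, b} ≤ Subgroup.closure (Set.range ![a, b, c, d]) :=
    Subgroup.closure_mono (by rintro x (rfl | rfl); exacts [⟨0, rfl⟩, ⟨1, rfl⟩])
  have h2 : Subgroup.closure {c, d} ≤ Subgroup.closure (Set.range ![a, b, c, d]) :=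
    Subgroup.closure_mono (by rintro x (rfl | rfl); exacts [⟨2, rfl⟩, ⟨3, rfl⟩])
  refine (Subgroup.closure_le _).2 ?_
  rintro x (⟨p, q, h, t, hpq, rfl⟩ | hx)
  · rcases hpq with ⟨hp, hq⟩ | ⟨rfl, rfl⟩ | ⟨rfl, rfl⟩
    · exact h1 (hab p q h hp hq t)
    · exact h2 (hcd t).1
    · exact h2 (hcd t).2.1
  · rw [Set.mem_singleton_iff.1 hx]
    exact h2 (hcd 0).2.2

end Cfsg.Agent.OmegaPres
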