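import Cfsg.Agent.OmegaPres.Kernel
import Cfsg.Agent.DType.Omega

/-!
The matrix model: the relations hold, and the generated group is the commutator subgroup of the isometry group.
-/

set_option autoImplicit false
set_option linter.unusedSectionVars false

namespace Cfsg.Agent.OmegaPres

open Matrix Cfsg.Agent.CTits
open scoped MatrixGroups

universe u

variable {F : Type u} [Field F] [Finite F] {n : ℕ}

/-- The permutation matrix exchanging two hyperbolic pairs. -/
def permG (F : Type u) [Field F] {n : ℕ} (a b : Fin n) : Matrix (BI n) (BI n) F :=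
  Matrix.of fun x y => if x = ff a b y then 1 else 0

theorem permG_mul_left {a b : Fin n} (hab : a ≠ b) (M : Matrix (BI n) (BI n) F) :
    permG F a b * M = M.submatrix (ff a b) id := by
  ext x y
  rw [Matrix.mul_apply, Finset.sum_eq_single (ff a b x) (fun r _ hr => by
    rw [permG, Matrix.of_apply, if_neg (fun e => hr (by rw [e, ff_ff hab])), zero_mul]) (by simp),
    permG, Matrix.of_apply, ff_ff hab, if_pos rfl, one_mul]
  rfl

theorem permG_mul_right (a b : Fin n) (M : Matrix (BI n) (BI n) F) :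
    M * permG F a b = M.submatrix id (ff a b) := by
  ext x y
  rw [Matrix.mul_apply, Finset.sum_eq_single (ff a b y) (fun r _ hr => by
    rw [permG, Matrix.of_apply, if_neg hr, mul_zero]) (by simp), permG, Matrix.of_apply, if_pos rfl, mul_one]
  rfl

theorem permG_sq {a b : Fin n} (hab : a ≠ b) : permG F a b * permG F a b = 1 := by
  rw [permG_mul_left hab]
  ext x y
  rw [Matrix.submatrix_apply, id_eq, permG, Matrix.of_apply, Matrix.one_apply]
  simp [(ff a b).injective.eq_iff]

/-- The exchange as a unit. -/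
def gMat (F : Type u) [Field F] [Finite F] {n : ℕ} (a b : Fin n) (hab : a ≠ b) : GL (BI n) F :=
  ⟨permG F a b, permG F a b, permG_sq hab, permG_sq hab⟩

theorem gMat_conj {a b : Fin n} (hab : a ≠ b) (X : GL (BI n) F) :
    (gMat F a b hab * X * gMat F a b hab).1 = X.1.submatrix (ff a b) (ff a b) := by
  show permG F a b * X.1 * permG F a b = _
  rw [permG_mul_left hab, permG_mul_right]
  rfl

theorem gMat_inv {a b : Fin n} (hab : a ≠ b) : (gMat F a b hab)⁻¹ = gMat F a b hab :=
  inv_eq_of_mul_eq_one_left (Units.ext (permG_sq hab))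

theorem ff_mul {a b x : Fin n} (hab : a ≠ b) (hax : a ≠ x) (hbx : b ≠ x) (y : BI n) :
    ff a b (ff b x y) = ff a x y := by
  rcases y with q | q
  all_goals
    by_cases hqa : q = a
    · subst hqa; simp [ff_inl, ff_inr, hab, hax, hbx, hab.symm, hax.symm, hbx.symm]
    by_cases hqb : q = b
    · subst hqb; simp [ff_inl, ff_inr, hab, hax, hbx, hqa, hab.symm, hax.symm, hbx.symm]
    by_cases hqx : q = x
    · subst hqx; simp [ff_inl, ff_inr, hab, hax, hbx, hqa, hqb, hab.symm, hax.symm, hbx.symm]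
    simp [ff_inl, ff_inr, hab, hax, hbx, hqa, hqb, hqx]

theorem L1_conj_gMat {I : Idx n} {m : SL(n, F)} {σ : Equiv.Perm (Fin n)} (hm : Signed m σ) {a b : Fin n}
    (hab : a ≠ b) (h1 : σ I.d = a) (h2 : σ I.e = b) :
    L1 n F m * gMat F I.d I.e I.hde * (L1 n F m)⁻¹ = gMat F a b hab := by
  rw [mul_inv_eq_iff_eq_mul]
  refine Units.ext ?_
  show blockDiag n F m * permG F I.d I.e = permG F a b * blockDiag n F m
  have hP := R_signed I.hde hm hab fun q => by rw [← h1, ← h2, σ.injective.eq_iff, σ.injective.eq_iff]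
  rw [permG_mul_left hab, permG_mul_right]
  conv_lhs => rw [← hP]
  rw [Matrix.submatrix_submatrix]
  ext x y
  simp [ff_ff I.hde]

/-- The relations hold in the model. -/
theorem model_data (I : Idx n) : Data I (L1 n F) (gMat F I.d I.e I.hde) := by
  have hg := gMat_inv (F := F) I.hde
  have hT : ∀ t : F, gMat F I.d I.e I.hde * L1 n F (SpecialLinearGroup.transvection I.hcd t) * gMat F I.d I.e I.hde =
      rootsOf (L2 F I.d) I.c I.d t := fun t => Units.ext (by
    rw [gMat_conj, L1_T, rootsOf_L2 I.d I.hcd, submatrix_T I.hde I.hce.symm I.hde.symm])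
  have P' : DPair (L1 n F) (L2 F I.d) I.b I.c I.d := dpair_model I.hn I.hbc I.hbd I.hcd I.last I.succ
  refine ⟨fun A A' _ hR => ?_, ?_, ?_, fun h4 => ?_⟩
  · refine Units.ext ?_
    show permG F I.d I.e * blockDiag n F A = blockDiag n F A' * permG F I.d I.e
    rw [permG_mul_left I.hde, permG_mul_right]
    unfold R at hR
    rw [← hR, Matrix.submatrix_submatrix]
    ext x y
    simp [ff_ff I.hde]
  · obtain ⟨m, σ, hm, h1, h2⟩ := exists_to (F := F) I I.hce.symm
    obtain ⟨m', σ', hm', h1', h2'⟩ := exists_to (F := F) I I.hcd.symm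
    refine ⟨m, m', σ, σ', hm, hm', h1, h2, h1', h2', ?_⟩
    rw [L1_conj_gMat hm I.hce.symm h1 h2, L1_conj_gMat hm' I.hcd.symm h1' h2']
    refine Units.ext ?_
    show permG F I.d I.e * permG F I.e I.c = permG F I.d I.c
    rw [permG_mul_left I.hde]
    ext x y
    rw [Matrix.submatrix_apply, id_eq, permG, Matrix.of_apply, permG, Matrix.of_apply]
    have h := ff_mul I.hde I.hcd.symm I.hce.symm y
    by_cases e : x = ff I.d I.c y
    · rw [if_pos e, if_pos (by rw [e, ← h, ff_ff I.hde])]
    · rw [if_neg e, if_neg (fun e' => e (by rw [← h, ← e', ff_ff I.hde]))]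
  · rw [hg, hT, ← rootsOf_eq _ I.hcd]
    exact (P'.comm 1 1).1
  · rw [hg, hT, ← P'.siegel.Y_base]
    show _ = _
    rw [← mul_inv_eq_iff_eq_mul, P'.siegel.Y_T_fix I.hle.symm 1 1 I.hlc I.hld]

/-- The commutator subgroup of the isometry group, as matrices. -/
def omegaMat (F : Type u) [Field F] (n : ℕ) : Subgroup (GL (BI n) F) :=
  (Cfsg.Omega F (Cfsg.quadFormPlus n F)).map (Cfsg.isometryGroup F (Cfsg.quadFormPlus n F)).subtype

theorem flipD_bar (d : Fin n) (x : BI n) : flipD d (DType.bar x) = DType.bar (flipD d x) := by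
  rcases x with q | q <;> by_cases h : q = d
  · subst h
    simp [DType.bar, flipD]
  · simp [DType.bar, flipD_inl h, flipD_inr h]
  · subst h
    simp [DType.bar, flipD]
  · simp [DType.bar, flipD_inl h, flipD_inr h]

theorem flipD_ix (d : Fin n) (x : BI n) : DType.ix (flipD d x) = DType.ix x := by
  rcases x with q | q <;> by_cases h : q = d
  · subst h
    simp [DType.ix, flipD]
  · simp [flipD_inl h]
  · subst h
    simp [DType.ix, flipD]
  · simp [flipD_inr h]

theorem X_submatrix {x y : DType.I n} (hxy : DType.ix x ≠ DType.ix y) {a b : Fin n} (hab : a ≠ b) (t : F) :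
    (DType.rmat x y t).submatrix (ff a b) (ff a b) = DType.rmat (ff a b x) (ff a b y) t := by
  have hbar : ∀ z : BI n, ff a b (DType.bar z) = DType.bar (ff a b z) := fun z => by
    show flipD b (flipD a _) = _
    rw [flipD_bar, flipD_bar]
    rfl
  have key : ∀ z w : BI n, z = ff a b w ↔ ff a b z = w := fun z w =>
    ⟨fun e => by rw [e, ff_ff hab], fun e => by rw [← e, ff_ff hab]⟩
  ext p q
  simp [DType.rmat, DType.nil, Matrix.one_apply, Matrix.single_apply, ← hbar, key, ff_ff hab]

theorem ff_ix (a b : Fin n) (x : BI n) : DType.ix (ff a b x) = DType.ix x := by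
  show DType.ix (flipD b (flipD a x)) = _
  rw [flipD_ix, flipD_ix]

theorem L1_X {p q : Fin n} (h : p ≠ q) (t : F) :
    (L1 n F (SpecialLinearGroup.transvection h t)).1 = DType.rmat (Sum.inl p) (Sum.inr q) t := by
  rw [L1_T, DType.rmat, DType.nil]
  simp [DType.bar, smul_sub, add_assoc, sub_eq_add_neg, Matrix.single_neg]

theorem L2_X {p q : Fin n} (d : Fin n) (h : p ≠ q) (t : F) :
    (rootsOf (L2 F d) p q t).1 = DType.rmat (flipD d (Sum.inl p)) (flipD d (Sum.inr q)) t := by
  rw [rootsOf_L2 d h, DType.rmat, DType.nil, ← flipD_bar, ← flipD_bar]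
  simp [DType.bar, smul_sub, add_assoc, sub_eq_add_neg, Matrix.single_neg]

theorem mem_omegaMat_of_rmat (hn : 3 ≤ n) {A : GL (BI n) F} {x y : BI n} (hxy : DType.ix x ≠ DType.ix y) (t : F)
    (h : A.1 = DType.rmat x y t) : A ∈ omegaMat F n :=
  ⟨DType.X x y t, DType.X_mem_Omega hn x y t, Units.ext ((DType.mat_X hxy t).trans h.symm)⟩

theorem closure_model (I : Idx n) :
    Subgroup.closure (Set.range (L1 n F) ∪ {gMat F I.d I.e I.hde}) = omegaMat F n := by
  have D := model_data (F := F) I
  obtain ⟨π₂, hπ₂⟩ := D.exists_second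
  have S : Second I (L1 n F) π₂ (gMat F I.d I.e I.hde) := ⟨D, hπ₂⟩
  have M : Model I (L1 n F) (gMat F I.d I.e I.hde) (MonoidHom.id _) := ⟨rfl, fun x y => rfl⟩
  have h2 : π₂ = L2 F I.d := S.comp_second M
  have hn : 3 ≤ n := by have := I.hn; omega
  have : Nontrivial (Fin n) := Fin.nontrivial_iff_two_le.2 (by omega)
  have hL1 : ∀ A, L1 n F A ∈ omegaMat F n := fun A => Linear.transvection_induction
    (fun A => L1 n F A ∈ omegaMat F n) (fun p q h t => mem_omegaMat_of_rmat hn
      (x := Sum.inl p) (y := Sum.inr q) h t (L1_X h t))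
    (fun A B hA hB => by rw [map_mul]; exact mul_mem hA hB) A
  have hL2 : ∀ A, L2 F I.d A ∈ omegaMat F n := fun A => Linear.transvection_induction
    (fun A => L2 F I.d A ∈ omegaMat F n) (fun p q h t => by
      rw [← rootsOf_eq _ h]
      refine mem_omegaMat_of_rmat hn (x := flipD I.d (Sum.inl p)) (y := flipD I.d (Sum.inr q)) ?_ t (L2_X I.d h t)
      rw [flipD_ix, flipD_ix]
      exact h)
    (fun A B hA hB => by rw [map_mul]; exact mul_mem hA hB) A
  set K := Subgroup.closure (Set.range (L1 n F) ∪ {gMat F I.d I.e I.hde})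
  have hKL : ∀ A, L1 n F A ∈ K := fun A => Subgroup.subset_closure (Or.inl ⟨A, rfl⟩)
  refine le_antisymm ((Subgroup.closure_le _).2 ?_) ?_
  · rintro x (⟨A, rfl⟩ | hx)
    · exact hL1 A
    rw [Set.mem_singleton_iff.1 hx]
    have h1 : flipE I (L1 n F) (gMat F I.d I.e I.hde) I.d I.c ∈ omegaMat F n := by
      refine (Subgroup.mul_mem_cancel_right _ (hL1 (wT I.hcd))).1 ?_
      rw [← S.second_w, h2]
      exact hL2 _
    obtain ⟨k, σ, hk, hd, hc⟩ : ∃ k σ, Signed (F := F) k σ ∧ σ I.d = I.d ∧ σ I.c = I.e := by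
      obtain ⟨k, hk⟩ := exists_signed (F := F) (Equiv.swap I.c I.e)
      exact ⟨k, _, hk, Equiv.swap_apply_of_ne_of_ne I.hcd.symm I.hde, Equiv.swap_apply_left _ _⟩
    have := D.conj_flip hk I.hcd.symm
    rw [hd, hc, D.flip_base] at this
    rw [← this]
    exact mul_mem (mul_mem (hL1 k) h1) (inv_mem (hL1 k))
  · rintro _ ⟨x, hx, rfl⟩
    change x ∈ Cfsg.Omega F (Cfsg.quadFormPlus n F) at hx
    rw [← DType.closure_X hn] at hx
    suffices hle : Subgroup.closure {g : Cfsg.isometryGroup F (DType.Q n F) |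
        ∃ a b t, DType.ix a ≠ DType.ix b ∧ g = DType.X a b t} ≤
        K.comap (Cfsg.isometryGroup F (DType.Q n F)).subtype from hle hx
    refine (Subgroup.closure_le _).2 ?_
    rintro _ ⟨a, b, t, hab, rfl⟩
    show (DType.X a b t).1 ∈ K
    have hflip : ∀ {a b : Fin n} (h : a ≠ b), gMat F a b h ∈ K := by
      intro a b h
      obtain ⟨m, σ, hm, h1, h2⟩ := exists_to (F := F) I h
      rw [← L1_conj_gMat hm h h1 h2]
      exact mul_mem (mul_mem (hKL m) (Subgroup.subset_closure (Or.inr rfl))) (inv_mem (hKL m))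
    have hlr : ∀ {i j : Fin n}, i ≠ j → ∀ t, (DType.X (Sum.inl i) (Sum.inr j) t : Cfsg.isometryGroup F (DType.Q n F)).1 ∈ K := by
      intro i j h t
      have e : (DType.X (Sum.inl i) (Sum.inr j) t : Cfsg.isometryGroup F (DType.Q n F)).1 =
          L1 n F (SpecialLinearGroup.transvection h t) :=
        Units.ext ((DType.mat_X (show DType.ix (Sum.inl i : DType.I n) ≠ DType.ix (Sum.inr j) from h) t).trans (L1_X h t).symm)
      rw [e]
      exact hKL _
    have hconj : ∀ {u v : Fin n} (huv : u ≠ v) {x y : DType.I n}, DType.ix x ≠ DType.ix y → ∀ t,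
        (DType.X x y t : Cfsg.isometryGroup F (DType.Q n F)).1 ∈ K →
        (DType.X (ff u v x) (ff u v y) t : Cfsg.isometryGroup F (DType.Q n F)).1 ∈ K := by
      intro u v huv x y hxy t h
      have hxy' : DType.ix (ff u v x) ≠ DType.ix (ff u v y) := by rwa [ff_ix, ff_ix]
      have e : (DType.X (ff u v x) (ff u v y) t : Cfsg.isometryGroup F (DType.Q n F)).1 =
          gMat F u v huv * (DType.X x y t : Cfsg.isometryGroup F (DType.Q n F)).1 * gMat F u v huv := by
        refine Units.ext ?_
        rw [gMat_conj]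
        exact (DType.mat_X hxy' t).trans ((X_submatrix hxy huv t).symm.trans (by rw [← DType.mat_X hxy t]))
      rw [e]
      exact mul_mem (mul_mem (hflip huv) h) (hflip huv)
    rcases a with i | i <;> rcases b with j | j <;> simp only [DType.ix, Sum.elim_inl, Sum.elim_inr, id_eq] at hab
    · obtain ⟨z, hzi, hzj, -⟩ := D.exists_three i j j
      have := hconj hzj.symm (x := Sum.inl i) (y := Sum.inr j) hab t (hlr hab t)
      rwa [ff_inl hzj.symm, ff_inr hzj.symm, if_neg (by simp [hab, hzi.symm]), if_pos (Or.inl rfl)] at this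
    · exact hlr hab t
    · rw [DType.X_swap (a := Sum.inl j) (b := Sum.inr i) (Ne.symm hab) t]
      exact hlr (Ne.symm hab) (-t)
    · obtain ⟨z, hzi, hzj, -⟩ := D.exists_three i j j
      have := hconj hzi.symm (x := Sum.inl i) (y := Sum.inr j) hab t (hlr hab t)
      rwa [ff_inl hzi.symm, ff_inr hzi.symm, if_pos (Or.inl rfl), if_neg (by simp [Ne.symm hab, hzj.symm])] at this

end Cfsg.Agent.OmegaPres
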