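import Cfsg.Agent.OmegaPres.Roots

/-!
The monomial subgroup maps injectively to matrices.
-/

set_option autoImplicit false
set_option linter.unusedSectionVars false

namespace Cfsg.Agent.OmegaPres

open Matrix Cfsg.Agent.CTits
open scoped MatrixGroups

universe u v

variable {F : Type u} [Field F] [Finite F] {n : ℕ} {Y : Type v} [Group Y]

theorem Mono.mul1 {g g' : SL(n, F)} {v w : Fin n → F} (h : Mono g 1 v) (h' : Mono g' 1 w) :
    Mono (g * g') 1 (fun q => v q * w q) := by
  have := h.mul h'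
  rw [mul_one] at this
  exact this

/-- The torus element outside the special linear group. -/
noncomputable def tor (I : Idx n) (π : SL(n, F) →* Y) (g : Y) (a : Fˣ) : Y :=
  flipE I π g I.c I.b * π (SpecialLinearGroup.diag2n I.hcd (a : F) a.ne_zero) * flipE I π g I.c I.b

/-- Elements of the extended torus. -/
def TorP (I : Idx n) (π : SL(n, F) →* Y) (g : Y) (y : Y) : Prop :=
  ∃ (D : SL(n, F)) (v : Fin n → F) (a : Fˣ), Mono D 1 v ∧ y = π D * tor I π g a

/-- The flips. -/
def flips (I : Idx n) (π : SL(n, F) →* Y) (g : Y) (s : Finset (Fin n)) : Subgroup Y :=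
  Subgroup.closure {y | ∃ x ∈ s, x ≠ I.d ∧ y = flipE I π g I.d x}

/-- The monomial subgroup. -/
def monoGrp (I : Idx n) (π : SL(n, F) →* Y) (g : Y) : Subgroup Y :=
  Subgroup.closure ({y | ∃ m σ v, Mono m σ v ∧ y = π m} ∪ {y | ∃ a b, a ≠ b ∧ y = flipE I π g a b})

/-- The matrix model of the generators. -/
structure Model (I : Idx n) (π : SL(n, F) →* Y) (g : Y) (φ : Y →* GL (BI n) F) : Prop where
  onSL : φ.comp π = L1 n F
  onFlip : ∀ x y, (φ g).1 x y = if x = ff I.d I.e y then 1 else 0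

namespace Data

variable {I : Idx n} {π : SL(n, F) →* Y} {g : Y} (D : Data I π g)

local notation "Φ" => flipE I π g

include D

theorem flip_diag {a b : Fin n} (hab : a ≠ b) {m m' : SL(n, F)} {v v' : Fin n → F} (hm : Mono m 1 v)
    (hm' : Mono m' 1 v') (hv : v a * v b = 1 ∨ v a * v b = -1)
    (hvv' : ∀ q, v' q = if q = a ∨ q = b then (v q)⁻¹ else v q) :
    Φ a b * π m * Φ a b = π m' := by
  obtain ⟨k, hk, e⟩ := D.flip_mono hab hm (fun q => Iff.rfl) hv
  rw [e, hk.eq (show Mono k 1 _ from hk)]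
  congr 1
  exact (show (fun q => if q = a ∨ q = b then (v q)⁻¹ else v q) = v' from funext fun q => (hvv' q).symm) ▸ hk |>.eq hm'

theorem diag_mul {i j : Fin n} (h : i ≠ j) (a b : Fˣ) :
    SpecialLinearGroup.diag2n h (a : F) a.ne_zero * SpecialLinearGroup.diag2n h (b : F) b.ne_zero =
      SpecialLinearGroup.diag2n h ((a * b : Fˣ) : F) (a * b).ne_zero := by
  refine ((mono_diag2n h (a : F) a.ne_zero).mul1 (mono_diag2n h (b : F) b.ne_zero)).eq ?_
  convert mono_diag2n h ((a * b : Fˣ) : F) (a * b).ne_zero using 2 with q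
  simp only [Units.val_mul, _root_.mul_inv_rev]
  split_ifs <;> simp [mul_comm]

theorem tor_mul (a b : Fˣ) : tor I π g a * tor I π g b = tor I π g (a * b) := by
  rw [tor, tor, conj_sq_mul (D.flip_sq I.hbc.symm), ← map_mul, D.diag_mul]
  rfl

theorem tor_one : tor I π g 1 = 1 := by
  have := D.tor_mul 1 1
  rw [mul_one, mul_eq_left] at this
  exact this

theorem tS_indep {a x b b' : Fin n} (hax : a ≠ x) (hab : a ≠ b) (hab' : a ≠ b') (hxb : x ≠ b) (hxb' : x ≠ b')
    (l : Fˣ) : Φ a b * π (SpecialLinearGroup.diag2n hax (l : F) l.ne_zero) * Φ a b =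
      Φ a b' * π (SpecialLinearGroup.diag2n hax (l : F) l.ne_zero) * Φ a b' := by
  by_cases e : b = b'
  · rw [e]
  have hfix : Φ b' b * π (SpecialLinearGroup.diag2n hax (l : F) l.ne_zero) * Φ b' b =
      π (SpecialLinearGroup.diag2n hax (l : F) l.ne_zero) :=
    D.flip_diag (Ne.symm e) (mono_diag2n _ _ _) (mono_diag2n _ _ _)
      (Or.inl (by simp [hab.symm, hab'.symm, hxb.symm, hxb'.symm]))
      (fun q => by
        by_cases hq : q = b' ∨ q = b
        · rw [if_pos hq]
          rcases hq with rfl | rfl <;> simp [hab.symm, hab'.symm, hxb.symm, hxb'.symm]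
        · rw [if_neg hq])
  have hc := (D.flip_comm hab' (Ne.symm e)).eq
  rw [← D.flip_mul hab' hab (Ne.symm e)]
  calc Φ a b' * Φ b' b * π (SpecialLinearGroup.diag2n hax (l : F) l.ne_zero) * (Φ a b' * Φ b' b)
      = Φ a b' * Φ b' b * π (SpecialLinearGroup.diag2n hax (l : F) l.ne_zero) * (Φ b' b * Φ a b') := by rw [hc]
    _ = Φ a b' * (Φ b' b * π (SpecialLinearGroup.diag2n hax (l : F) l.ne_zero) * Φ b' b) * Φ a b' := by group
    _ = _ := by rw [hfix]

theorem tS_symm {a x b : Fin n} (hax : a ≠ x) (hab : a ≠ b) (hxb : x ≠ b) (l : Fˣ) :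
    Φ x b * π (SpecialLinearGroup.diag2n hax.symm (l : F) l.ne_zero) * Φ x b =
      Φ a b * π (SpecialLinearGroup.diag2n hax (l : F) l.ne_zero) * Φ a b := by
  have hfl : Φ x a * π (SpecialLinearGroup.diag2n hax.symm (l : F) l.ne_zero) * Φ x a =
      π (SpecialLinearGroup.diag2n hax (l : F) l.ne_zero) :=
    D.flip_diag hax.symm (mono_diag2n _ _ _) (mono_diag2n _ _ _)
      (Or.inl (by simp [hax]))
      (fun q => by
        by_cases hqx : q = x
        · subst hqx; simp [hax.symm]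
        by_cases hqa : q = a
        · subst hqa; simp [hqx]
        simp [hqx, hqa])
  have hc := (D.flip_comm hax.symm hab).eq
  rw [← D.flip_mul hax.symm hxb hab]
  calc Φ x a * Φ a b * π (SpecialLinearGroup.diag2n hax.symm (l : F) l.ne_zero) * (Φ x a * Φ a b)
      = Φ a b * Φ x a * π (SpecialLinearGroup.diag2n hax.symm (l : F) l.ne_zero) * (Φ x a * Φ a b) := by rw [hc]
    _ = Φ a b * (Φ x a * π (SpecialLinearGroup.diag2n hax.symm (l : F) l.ne_zero) * Φ x a) * Φ a b := by group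
    _ = _ := by rw [hfl]

theorem tS_ratio {a x y b : Fin n} (hax : a ≠ x) (hay : a ≠ y) (hyx : y ≠ x) (hab : a ≠ b) (hxb : x ≠ b)
    (hyb : y ≠ b) (l : Fˣ) : Φ a b * π (SpecialLinearGroup.diag2n hax (l : F) l.ne_zero) * Φ a b =
      π (SpecialLinearGroup.diag2n hyx (l : F) l.ne_zero) *
        (Φ a b * π (SpecialLinearGroup.diag2n hay (l : F) l.ne_zero) * Φ a b) := by
  have hprod : SpecialLinearGroup.diag2n hax (l : F) l.ne_zero =
      SpecialLinearGroup.diag2n hyx (l : F) l.ne_zero * SpecialLinearGroup.diag2n hay (l : F) l.ne_zero := by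
    have h1 := (mono_diag2n hyx (l : F) l.ne_zero).mul (mono_diag2n hay (l : F) l.ne_zero)
    rw [mul_one] at h1
    refine (mono_diag2n hax (l : F) l.ne_zero).eq ?_
    convert h1 using 2 with q
    simp only [Equiv.Perm.one_apply]
    by_cases hqa : q = a
    · subst hqa; simp [hay, hax]
    by_cases hqy : q = y
    · subst hqy; simp [hqa, hyx]
    by_cases hqx : q = x
    · subst hqx; simp [hqa, hqy]
    simp [hqa, hqy, hqx]
  have hfix : Φ a b * π (SpecialLinearGroup.diag2n hyx (l : F) l.ne_zero) * Φ a b =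
      π (SpecialLinearGroup.diag2n hyx (l : F) l.ne_zero) :=
    D.flip_diag hab (mono_diag2n _ _ _) (mono_diag2n _ _ _)
      (Or.inl (by simp [hay, hax, hyb.symm, hxb.symm]))
      (fun q => by
        by_cases hq : q = a ∨ q = b
        · rw [if_pos hq]
          rcases hq with rfl | rfl <;> simp [hay, hax, hyb.symm, hxb.symm]
        · rw [if_neg hq])
  conv_lhs => rw [hprod, map_mul, ← conj_sq_mul (D.flip_sq hab), hfix]

theorem commute_tor {m : SL(n, F)} {v : Fin n → F} (hm : Mono m 1 v) (l : Fˣ) :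
    Commute (π m) (tor I π g l) := by
  have hc : ∀ {k k' : SL(n, F)} {w w' : Fin n → F}, Mono k 1 w → Mono k' 1 w' → k * k' = k' * k := by
    intro k k' w w' h h'
    have h1 := h.mul h'
    have h2 := h'.mul h
    simp only [mul_one, Equiv.Perm.one_apply] at h1 h2
    exact h1.eq (by convert h2 using 2 with q; ring)
  have key : ∀ {z : Fin n}, I.c ≠ z → I.d ≠ z → ∀ {k : SL(n, F)} {w : Fin n → F}, Mono k 1 w →
      w I.c * w z = 1 → Commute (π k) (Φ I.c z * π (SpecialLinearGroup.diag2n I.hcd (l : F) l.ne_zero) * Φ I.c z) := by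
    intro z hcz hdz k w hk hw
    obtain ⟨k', hk', e⟩ := D.flip_mono hcz hk (fun q => Iff.rfl) (Or.inl hw)
    have hcomm : Commute (π k') (π (SpecialLinearGroup.diag2n I.hcd (l : F) l.ne_zero)) := by
      show _ = _
      rw [← map_mul, ← map_mul, hc hk' (mono_diag2n I.hcd _ l.ne_zero)]
    have h := commute_conj_sq (D.flip_sq hcz) hcomm
    rwa [← e, conj_sq_sq (D.flip_sq hcz)] at h
  obtain ⟨z, hzb, hzc, hzd⟩ := D.exists_three I.b I.c I.d
  set μ : F := v I.c * v I.b with hμ
  have hμ0 : μ ≠ 0 := mul_ne_zero (hm.ne_zero _) (hm.ne_zero _)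
  have hD2 := mono_diag2n I.hbd μ hμ0
  have hD1 : Mono (m * (SpecialLinearGroup.diag2n I.hbd μ hμ0)⁻¹) 1
      (fun q => v q * (if q = I.b then μ else if q = I.d then μ⁻¹ else 1)⁻¹) := by
    have hinv : Mono (SpecialLinearGroup.diag2n I.hbd μ hμ0)⁻¹ 1
        (fun q => (if q = I.b then μ else if q = I.d then μ⁻¹ else 1)⁻¹) := by
      have h' := mono_diag2n I.hbd μ⁻¹ (inv_ne_zero hμ0)
      have e : (SpecialLinearGroup.diag2n I.hbd μ hμ0)⁻¹ = SpecialLinearGroup.diag2n I.hbd μ⁻¹ (inv_ne_zero hμ0) := by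
        refine inv_eq_of_mul_eq_one_right ?_
        refine (hD2.mul1 h').eq ?_
        convert Mono.one (F := F) (n := n) using 2 with q
        split_ifs <;> simp [hμ0]
      rw [e]
      convert h' using 2 with q
      split_ifs <;> simp
    simpa using hm.mul hinv
  have c1 : Commute (π (m * (SpecialLinearGroup.diag2n I.hbd μ hμ0)⁻¹)) (tor I π g l) :=
    key I.hbc.symm I.hbd.symm hD1 (by
      simp only [I.hbc.symm, I.hcd, if_true, if_false, inv_one, mul_one, hμ]
      field_simp [hm.ne_zero I.c, hm.ne_zero I.b])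
  have c2 : Commute (π (SpecialLinearGroup.diag2n I.hbd μ hμ0)) (tor I π g l) := by
    rw [tor, D.tS_indep I.hcd I.hbc.symm hzc.symm I.hbd.symm hzd.symm]
    exact key hzc.symm hzd.symm hD2 (by simp [I.hbc.symm, I.hcd, hzb, hzd])
  have := c1.mul_left c2
  rwa [← map_mul, inv_mul_cancel_right] at this

theorem torP_diag {m : SL(n, F)} {v : Fin n → F} (hm : Mono m 1 v) : TorP I π g (π m) :=
  ⟨m, v, 1, hm, by rw [D.tor_one, mul_one]⟩

theorem torP_mul {x y : Y} (hx : TorP I π g x) (hy : TorP I π g y) : TorP I π g (x * y) := by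
  obtain ⟨A, v, a, hA, rfl⟩ := hx
  obtain ⟨B, w, b, hB, rfl⟩ := hy
  have h := hA.mul hB
  rw [mul_one] at h
  refine ⟨_, _, a * b, h, ?_⟩
  rw [map_mul, ← D.tor_mul]
  calc π A * tor I π g a * (π B * tor I π g b) = π A * (tor I π g a * π B) * tor I π g b := by group
    _ = _ := by rw [← (D.commute_tor hB a).eq]; group

theorem tS_mem {a x b : Fin n} (hax : a ≠ x) (hab : a ≠ b) (hxb : x ≠ b) (l : Fˣ) :
    ∃ (A : SL(n, F)) (v : Fin n → F), Mono A 1 v ∧
      Φ a b * π (SpecialLinearGroup.diag2n hax (l : F) l.ne_zero) * Φ a b = π A * tor I π g l := by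
  have hcd : ∀ {b : Fin n} (hcb : I.c ≠ b) (hdb : I.d ≠ b), Φ I.c b *
      π (SpecialLinearGroup.diag2n I.hcd (l : F) l.ne_zero) * Φ I.c b = tor I π g l := by
    intro b hcb hdb
    rw [D.tS_indep I.hcd hcb I.hbc.symm hdb I.hbd.symm, tor]
  have hc : ∀ {x b : Fin n} (hcx : I.c ≠ x) (hcb : I.c ≠ b) (hxb : x ≠ b), ∃ (A : SL(n, F)) (v : Fin n → F),
      Mono A 1 v ∧ Φ I.c b * π (SpecialLinearGroup.diag2n hcx (l : F) l.ne_zero) * Φ I.c b = π A * tor I π g l := by
    intro x b hcx hcb hxb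
    by_cases hxd : x = I.d
    · subst hxd
      exact ⟨1, _, Mono.one, by rw [hcd hcb hxb, map_one, one_mul]⟩
    obtain ⟨z, hzc, hzd, hzx⟩ := D.exists_three I.c I.d x
    refine ⟨_, _, mono_diag2n (Ne.symm hxd) (l : F) l.ne_zero, ?_⟩
    rw [D.tS_indep hcx hcb hzc.symm hxb hzx.symm, D.tS_ratio hcx I.hcd (Ne.symm hxd) hzc.symm hzx.symm hzd.symm,
      hcd hzc.symm hzd.symm]
  by_cases hac : a = I.c
  · subst hac; exact hc hax hab hxb
  by_cases hxc : x = I.c
  · subst hxc
    obtain ⟨A, v, hA, e⟩ := hc hax.symm hxb hab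
    exact ⟨A, v, hA, by rw [← e, D.tS_symm hax hab hxb]⟩
  obtain ⟨z, hza, hzx, hzc⟩ := D.exists_three a x I.c
  obtain ⟨A, v, hA, e⟩ := hc (Ne.symm hac) hzc.symm hza.symm
  refine ⟨_, _, (mono_diag2n (Ne.symm hxc) (l : F) l.ne_zero).mul hA, ?_⟩
  rw [D.tS_indep hax hab hza.symm hxb hzx.symm, D.tS_ratio hax hac (Ne.symm hxc) hza.symm hzx.symm hzc.symm,
    ← D.tS_symm hac hza.symm hzc.symm, e, map_mul, mul_assoc]

theorem flip_diag_torP {a b : Fin n} (hab : a ≠ b) {m : SL(n, F)} {v : Fin n → F} (hm : Mono m 1 v) :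
    TorP I π g (Φ a b * π m * Φ a b) := by
  obtain ⟨x, hxa, hxb, -⟩ := D.exists_three a b b
  set μ : Fˣ := Units.mk0 (v a * v b) (mul_ne_zero (hm.ne_zero _) (hm.ne_zero _)) with hμ
  have hD1 := hm.mul (mono_diag2n hxa.symm ((μ⁻¹ : Fˣ) : F) (μ⁻¹).ne_zero)
  rw [mul_one] at hD1
  obtain ⟨k, hk, e⟩ := D.flip_mono hab hD1 (fun q => Iff.rfl) (Or.inl (by
    simp only [Equiv.Perm.one_apply, hab.symm, hxb.symm, if_true, if_false, mul_one, hμ, Units.val_inv_eq_inv_val,
      Units.val_mk0]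
    field_simp [hm.ne_zero a, hm.ne_zero b]))
  have hsplit : m = m * SpecialLinearGroup.diag2n hxa.symm ((μ⁻¹ : Fˣ) : F) (μ⁻¹).ne_zero *
      SpecialLinearGroup.diag2n hxa.symm (μ : F) μ.ne_zero := by
    rw [mul_assoc, D.diag_mul]
    have h1 := mono_diag2n hxa.symm ((μ⁻¹ * μ : Fˣ) : F) (μ⁻¹ * μ).ne_zero
    rw [(h1.eq (g' := 1) (by
      convert Mono.one (F := F) (n := n) using 2 with q
      simp)), mul_one]
  rw [hsplit, map_mul, ← conj_sq_mul (D.flip_sq hab), e]
  obtain ⟨A, w, hA, e'⟩ := D.tS_mem hxa.symm hab hxb μ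
  exact D.torP_mul (D.torP_diag hk) ⟨A, w, μ, hA, e'⟩

theorem flip_tor_torP {a b : Fin n} (hab : a ≠ b) (l : Fˣ) : TorP I π g (Φ a b * tor I π g l * Φ a b) := by
  obtain ⟨z, hza, hzb, -⟩ := D.exists_three a b b
  obtain ⟨A, v, hA, e⟩ := D.tS_mem hab hza.symm hzb.symm l
  obtain ⟨A', hA', hAi⟩ : ∃ A' : SL(n, F), Mono A' 1 (fun q => (v q)⁻¹) ∧ π A' * π A = 1 := by
    obtain ⟨A', hA'⟩ := exists_mono (F := F) (1 : Equiv.Perm (Fin n)) (fun q => (v q)⁻¹) (by
      have h := A.2
      rw [show A.1 = Matrix.diagonal v from Matrix.ext fun p q => by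
        rw [hA p q, Matrix.diagonal_apply, Equiv.Perm.one_apply]; split_ifs with h <;> simp [h],
        Matrix.det_diagonal] at h
      rw [Finset.prod_inv_distrib, h]; simp)
    refine ⟨A', hA', ?_⟩
    have h1 := hA'.mul hA
    rw [mul_one] at h1
    rw [← map_mul, h1.eq (g' := 1) (by
      convert Mono.one (F := F) (n := n) using 2 with q
      simp [hA.ne_zero q]), map_one]
  have et : tor I π g l = π A' * (Φ a z * π (SpecialLinearGroup.diag2n hab (l : F) l.ne_zero) * Φ a z) := by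
    rw [e, ← mul_assoc, hAi, one_mul]
  rw [et, ← conj_sq_mul (D.flip_sq hab)]
  refine D.torP_mul (D.flip_diag_torP hab hA') ?_
  obtain ⟨B, w, hB, e'⟩ := D.tS_mem hab.symm hzb.symm hza.symm l⁻¹
  refine ⟨B, w, l⁻¹, hB, ?_⟩
  rw [← e']
  have hflip : Φ a b * π (SpecialLinearGroup.diag2n hab (l : F) l.ne_zero) * Φ a b =
      π (SpecialLinearGroup.diag2n hab ((l⁻¹ : Fˣ) : F) (l⁻¹).ne_zero) :=
    D.flip_diag hab (mono_diag2n _ _ _) (mono_diag2n _ _ _) (Or.inl (by simp [hab.symm]))
      (fun q => by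
        by_cases hqa : q = a
        · subst hqa; simp
        by_cases hqb : q = b
        · subst hqb; simp [hqa]
        simp [hqa, hqb])
  have hh : SpecialLinearGroup.diag2n hab.symm ((l⁻¹ : Fˣ) : F) (l⁻¹).ne_zero =
      SpecialLinearGroup.diag2n hab (l : F) l.ne_zero := by
    refine (mono_diag2n _ _ _).eq ?_
    convert mono_diag2n hab (l : F) l.ne_zero using 2 with q
    by_cases hqa : q = a
    · subst hqa; simp [hab]
    by_cases hqb : q = b
    · subst hqb; simp [hqa]
    simp [hqa, hqb]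
  rw [hh]
  have hm := D.flip_mul hab.symm hzb.symm hza.symm
  rw [← hm, D.flip_symm b a]
  have hc := (D.flip_comm hab hza.symm).eq
  calc Φ a b * (Φ a z * π (SpecialLinearGroup.diag2n hab (l : F) l.ne_zero) * Φ a z) * Φ a b
      = Φ a b * Φ a z * π (SpecialLinearGroup.diag2n hab (l : F) l.ne_zero) * (Φ a z * Φ a b) := by group
    _ = _ := by rw [← hc]

theorem flips_spec (φ : Y →* GL (BI n) F) (hφ : ∀ x, x ≠ I.d → ∀ p q, (φ (Φ I.d x)).1 p q =
      if p = ff I.d x q then 1 else 0) (s : Finset (Fin n)) :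
    ∀ f ∈ flips I π g s, ∃ τ : BI n ≃ BI n, (∀ p q, (φ f).1 p q = if p = τ q then 1 else 0) ∧
      (∀ q, q ∉ s → q ≠ I.d → τ (Sum.inl q) = Sum.inl q ∧ τ (Sum.inr q) = Sum.inr q) ∧
      ((∀ q, ∃ q', τ (Sum.inl q) = Sum.inl q') → f = 1) := by
  induction s using Finset.induction_on with
  | empty =>
    intro f hf
    have : f = 1 := by
      have hle : flips I π g ∅ ≤ ⊥ := (Subgroup.closure_le _).2 (by
        rintro y ⟨x, hx, -⟩
        exact absurd hx (Finset.notMem_empty x))
      exact Subgroup.mem_bot.1 (hle hf)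
    subst this
    exact ⟨Equiv.refl _, fun p q => by rw [map_one, Units.val_one, Matrix.one_apply]; rfl,
      fun q _ _ => ⟨rfl, rfl⟩, fun _ => rfl⟩
  | insert x s hx ih =>
    intro f hf
    by_cases hxd : x = I.d
    · have hle : flips I π g (insert x s) ≤ flips I π g s := Subgroup.closure_mono (by
        rintro y ⟨z, hz, hzd, e⟩
        exact ⟨z, (Finset.mem_insert.1 hz).resolve_left (fun e => hzd (e ▸ hxd)), hzd, e⟩)
      obtain ⟨τ, h1, h2, h3⟩ := ih f (hle hf)
      exact ⟨τ, h1, fun q hq hqd => h2 q (fun h => hq (Finset.mem_insert_of_mem h)) hqd, h3⟩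
    have hcomm : ∀ a ∈ flips I π g s, Commute a (Φ I.d x) := by
      intro a ha
      induction ha using Subgroup.closure_induction with
      | mem y hy =>
        obtain ⟨z, -, hzd, rfl⟩ := hy
        exact D.flip_comm (Ne.symm hzd) (Ne.symm hxd)
      | one => exact Commute.one_left _
      | mul a b _ _ ha hb => exact ha.mul_left hb
      | inv a _ ha => exact ha.inv_left
    have hcases : ∃ a ∈ flips I π g s, f = a ∨ f = a * Φ I.d x := by
      induction hf using Subgroup.closure_induction with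
      | mem y hy =>
        obtain ⟨z, hz, hzd, rfl⟩ := hy
        rcases Finset.mem_insert.1 hz with rfl | hz
        · exact ⟨1, one_mem _, Or.inr (one_mul _).symm⟩
        · exact ⟨_, Subgroup.subset_closure ⟨z, hz, hzd, rfl⟩, Or.inl rfl⟩
      | one => exact ⟨1, one_mem _, Or.inl rfl⟩
      | mul p q _ _ hp hq =>
        obtain ⟨a, ha, hp⟩ := hp
        obtain ⟨b, hb, hq⟩ := hq
        refine ⟨a * b, mul_mem ha hb, ?_⟩
        rcases hp with rfl | rfl <;> rcases hq with rfl | rfl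
        · exact Or.inl rfl
        · exact Or.inr (by rw [mul_assoc])
        · exact Or.inr (by rw [mul_assoc, ← (hcomm _ hb).eq, mul_assoc])
        · refine Or.inl ?_
          rw [mul_assoc, ← mul_assoc (Φ I.d x), ← (hcomm _ hb).eq, mul_assoc b, D.flip_sq (Ne.symm hxd), mul_one]
      | inv p _ hp =>
        obtain ⟨a, ha, hp⟩ := hp
        refine ⟨a⁻¹, inv_mem ha, ?_⟩
        rcases hp with rfl | rfl
        · exact Or.inl rfl
        · exact Or.inr (by rw [_root_.mul_inv_rev, D.flip_inv (Ne.symm hxd), ← ((hcomm _ ha).inv_left).eq])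
    obtain ⟨a, ha, hcases⟩ := hcases
    obtain ⟨τ, h1, h2, h3⟩ := ih a ha
    rcases hcases with rfl | rfl
    · exact ⟨τ, h1, fun q hq hqd => h2 q (fun h => hq (Finset.mem_insert_of_mem h)) hqd, h3⟩
    refine ⟨(ff I.d x).trans τ, fun p q => ?_, fun q hq hqd => ?_, fun h => ?_⟩
    · rw [map_mul, Units.val_mul, Matrix.mul_apply, Finset.sum_eq_single (ff I.d x q)
        (fun r _ hr => by rw [hφ x hxd r q, if_neg hr, mul_zero]) (by simp), hφ x hxd, if_pos rfl, mul_one, h1]
      rfl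
    · simp only [Finset.mem_insert, not_or] at hq
      obtain ⟨a1, a2⟩ := h2 q hq.2 hqd
      refine ⟨?_, ?_⟩ <;> simp only [Equiv.trans_apply]
      · rwa [ff_inl (Ne.symm hxd), if_neg (by simp [hqd, hq.1])]
      · rwa [ff_inr (Ne.symm hxd), if_neg (by simp [hqd, hq.1])]
    · obtain ⟨q', hq'⟩ := h x
      rw [Equiv.trans_apply, ff_inl (Ne.symm hxd), if_pos (Or.inr rfl), (h2 x hx hxd).2] at hq'
      simp at hq'

theorem flip_mem_flips {a b : Fin n} (hab : a ≠ b) : Φ a b ∈ flips I π g Finset.univ := by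
  have hgen : ∀ {x : Fin n}, x ≠ I.d → Φ I.d x ∈ flips I π g Finset.univ := fun {x} hx =>
    Subgroup.subset_closure ⟨x, Finset.mem_univ x, hx, rfl⟩
  by_cases ha : a = I.d
  · subst ha; exact hgen hab.symm
  by_cases hb : b = I.d
  · subst hb; rw [D.flip_symm]; exact hgen ha
  rw [← D.flip_mul ha hab (Ne.symm hb), D.flip_symm a I.d]
  exact mul_mem (hgen ha) (hgen hb)

theorem mono_form {y : Y} (hy : y ∈ monoGrp I π g) : ∃ (m : SL(n, F)) (σ : Equiv.Perm (Fin n)) (v : Fin n → F)
    (l : Fˣ), Mono m σ v ∧ ∃ f ∈ flips I π g Finset.univ, y = π m * tor I π g l * f := by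
  let P : Y → Prop := fun y => ∃ (m : SL(n, F)) (σ : Equiv.Perm (Fin n)) (v : Fin n → F)
    (l : Fˣ), Mono m σ v ∧ ∃ f ∈ flips I π g Finset.univ, y = π m * tor I π g l * f
  have hπ : ∀ {k : SL(n, F)} {τ : Equiv.Perm (Fin n)} {w : Fin n → F}, Mono k τ w → ∀ y, P y → P (π k * y) := by
    rintro k τ w hk y ⟨m, σ, v, l, hm, f, hf, rfl⟩
    exact ⟨k * m, _, _, l, hk.mul hm, f, hf, by rw [map_mul]; group⟩
  have hΦ : ∀ {a b : Fin n}, a ≠ b → ∀ y, P y → P (Φ a b * y) := by
    rintro a b hab y ⟨m, σ, v, l, hm, f, hf, rfl⟩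
    obtain ⟨p, hp⟩ := exists_signed (F := F) σ
    obtain ⟨w, hw, hpi⟩ := hp.inv
    have hD := hpi.mul hm
    rw [inv_mul_cancel] at hD
    have hab' : σ⁻¹ a ≠ σ⁻¹ b := σ⁻¹.injective.ne hab
    have hconj := D.conj_flip hp hab'
    rw [Equiv.Perm.coe_inv, Equiv.apply_symm_apply, Equiv.apply_symm_apply] at hconj
    obtain ⟨A, u, r, hA, e⟩ := D.torP_mul (D.flip_diag_torP hab' hD) (D.flip_tor_torP hab' l)
    obtain ⟨x, hx, hpx⟩ := id hp
    refine ⟨p * A, _, _, r, hpx.mul hA, Φ (σ⁻¹ a) (σ⁻¹ b) * f, mul_mem (D.flip_mem_flips hab') hf, ?_⟩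
    have hsq := D.flip_sq hab'
    rw [map_mul, mul_assoc (π p) (π A), ← e]
    rw [map_mul, map_inv]
    simp only [Equiv.Perm.coe_inv] at hconj hsq ⊢
    rw [← hconj]
    generalize Φ (σ.symm a) (σ.symm b) = h at hsq ⊢
    calc π p * h * (π p)⁻¹ * (π m * tor I π g l * f)
        = π p * (h * ((π p)⁻¹ * π m) * (h * h) * tor I π g l * (h * h)) * f := by rw [hsq]; group
      _ = _ := by group
  induction hy using Subgroup.closure_induction_left with
  | one => exact ⟨1, 1, _, 1, Mono.one, 1, one_mem _, by rw [map_one, D.tor_one, mul_one, mul_one]⟩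
  | mul_left x hx y _ ih =>
    rcases hx with ⟨m, σ, v, hm, rfl⟩ | ⟨a, b, hab, rfl⟩
    · exact hπ hm y ih
    · exact hΦ hab y ih
  | inv_mul_cancel x hx y _ ih =>
    rcases hx with ⟨m, σ, v, hm, rfl⟩ | ⟨a, b, hab, rfl⟩
    · obtain ⟨p, hp⟩ := exists_signed (F := F) σ
      obtain ⟨w, hw, hpi⟩ := hp.inv
      obtain ⟨v', hv'⟩ : ∃ v', Mono (p⁻¹ * m) 1 v' := ⟨_, by simpa using hpi.mul hm⟩
      obtain ⟨k, hk⟩ := exists_mono (F := F) (1 : Equiv.Perm (Fin n)) (fun q => (v' q)⁻¹) (by
        have h := (p⁻¹ * m).2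
        rw [show (p⁻¹ * m).1 = Matrix.diagonal v' from Matrix.ext fun a b => by
          rw [hv' a b, Matrix.diagonal_apply, Equiv.Perm.one_apply]; split_ifs with h <;> simp [h],
          Matrix.det_diagonal] at h
        rw [Finset.prod_inv_distrib, h]; simp)
      have hinv : m⁻¹ = k * p⁻¹ := by
        refine inv_eq_of_mul_eq_one_left ?_
        rw [mul_assoc]
        have h1 := hk.mul hv'
        rw [mul_one] at h1
        exact h1.eq (by
          convert Mono.one (F := F) (n := n) using 2 with q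
          simp [hv'.ne_zero q])
      rw [← map_inv, hinv]
      exact hπ (hk.mul hpi) y ih
    · rw [D.flip_inv hab]; exact hΦ hab y ih

theorem model_flip {φ : Y →* GL (BI n) F} (M : Model I π g φ) {a b : Fin n} (hab : a ≠ b) (x y : BI n) :
    (φ (Φ a b)).1 x y = if x = ff a b y then 1 else 0 := by
  obtain ⟨m, σ, hm, h1, h2⟩ := exists_to (F := F) I hab
  rw [← D.flip_eq hm (Or.inl ⟨h1, h2⟩)]
  let Q : Matrix (BI n) (BI n) F := Matrix.of fun x y => if x = ff a b y then 1 else 0
  have hP := R_signed I.hde hm hab fun q => by rw [← h1, ← h2, σ.injective.eq_iff, σ.injective.eq_iff]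
  have key : (φ (π m)).1 * (φ g).1 = Q * (φ (π m)).1 := by
    rw [← MonoidHom.comp_apply φ π, M.onSL]
    show blockDiag n F m * _ = Q * blockDiag n F m
    ext p q
    rw [Matrix.mul_apply, Matrix.mul_apply, Finset.sum_eq_single (ff I.d I.e q)
      (fun r _ hr => by rw [M.onFlip, if_neg hr, mul_zero]) (by simp), M.onFlip, if_pos rfl, mul_one,
      Finset.sum_eq_single (ff a b p) (fun r _ hr => ?_) (by simp)]
    · show _ = (if p = ff a b (ff a b p) then (1 : F) else 0) * _
      rw [ff_ff hab, if_pos rfl, one_mul]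
      conv_rhs => rw [← hP]
      rw [Matrix.submatrix_apply, ff_ff hab]
    · show (if p = ff a b r then (1 : F) else 0) * _ = 0
      rw [if_neg (fun e => hr (by rw [e, ff_ff hab])), zero_mul]
  rw [map_mul, map_mul, map_inv, Units.val_mul, Units.val_mul, key, Matrix.mul_assoc, Units.mul_inv, Matrix.mul_one]
  rfl

theorem model_tor {φ : Y →* GL (BI n) F} (M : Model I π g φ) (l : Fˣ) :
    (φ (tor I π g l)).1 = Matrix.diagonal (Sum.elim
      (fun q => if q = I.c then (l : F)⁻¹ else if q = I.d then (l : F)⁻¹ else 1)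
      (fun q => if q = I.c then (l : F) else if q = I.d then (l : F) else 1)) := by
  have hdb := I.hbc.symm
  ext x y
  rw [tor, map_mul, map_mul, Units.val_mul, Units.val_mul, ← MonoidHom.comp_apply φ π, M.onSL]
  show ((φ (Φ I.c I.b)).1 * blockDiag n F _ * (φ (Φ I.c I.b)).1) x y = _
  rw [Matrix.mul_apply, Finset.sum_eq_single (ff I.c I.b y)
    (fun r _ hr => by rw [D.model_flip M hdb, if_neg hr, mul_zero]) (by simp), D.model_flip M hdb, if_pos rfl,
    mul_one, Matrix.mul_apply, Finset.sum_eq_single (ff I.c I.b x)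
    (fun r _ hr => by rw [D.model_flip M hdb, if_neg (fun e => hr (by rw [e, ff_ff hdb])), zero_mul]) (by simp),
    D.model_flip M hdb, ff_ff hdb, if_pos rfl, one_mul, blockDiag_mono (mono_diag2n _ _ _)]
  by_cases hxy : x = y
  · subst hxy
    rw [Matrix.diagonal_apply_eq]
    have hsum : ∀ z : BI n, Sum.map (1 : Equiv.Perm (Fin n)) (1 : Equiv.Perm (Fin n)) z = z := fun z => by
      rcases z with z | z <;> rfl
    rw [hsum, if_pos rfl]
    have := I.hcd
    have := I.hbc
    have := I.hbd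
    rcases x with q | q <;> simp only [ff_inl hdb, ff_inr hdb] <;>
    · by_cases hq : q = I.c ∨ q = I.b
      · rw [if_pos hq]
        rcases hq with rfl | rfl <;> simp [I.hcd, I.hbc, I.hbd]
      · rw [if_neg hq]
        simp only [not_or] at hq
        simp [hq.1, hq.2] <;> split_ifs <;> simp
  · rw [Matrix.diagonal_apply_ne _ hxy, if_neg]
    intro e
    refine hxy ((ff I.c I.b).injective ?_)
    rw [e]
    rcases ff I.c I.b y with z | z <;> rfl

/-- The monomial subgroup maps injectively. -/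
theorem monoGrp_injective {φ : Y →* GL (BI n) F} (M : Model I π g φ) {y : Y} (hy : y ∈ monoGrp I π g)
    (h1 : ∀ x, (φ y).1 x x = 1) : y = 1 := by
  obtain ⟨m, σ, v, l, hm, f, hf, rfl⟩ := D.mono_form hy
  obtain ⟨τ, hτ, -, hτ1⟩ := D.flips_spec φ (fun x hx => D.model_flip M (Ne.symm hx)) Finset.univ f hf
  set δ : BI n → F := Sum.elim
      (fun q => if q = I.c then (l : F)⁻¹ else if q = I.d then (l : F)⁻¹ else 1)
      (fun q => if q = I.c then (l : F) else if q = I.d then (l : F) else 1) with hδ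
  have hval : ∀ x, blockDiag n F m x (τ x) * δ (τ x) = 1 := by
    intro x
    have h := h1 x
    rw [map_mul, map_mul, Units.val_mul, Units.val_mul, ← MonoidHom.comp_apply φ π, M.onSL, D.model_tor M] at h
    change (blockDiag n F m * Matrix.diagonal δ * (φ f).1) x x = 1 at h
    rw [Matrix.mul_apply, Finset.sum_eq_single (τ x) (fun r _ hr => by rw [hτ, if_neg hr, mul_zero]) (by simp),
      hτ, if_pos rfl, mul_one, Matrix.mul_diagonal] at h
    exact h
  have hperm : ∀ x, x = Sum.map σ σ (τ x) := by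
    intro x
    by_contra e
    have := hval x
    rw [blockDiag_mono hm, if_neg e, zero_mul] at this
    exact zero_ne_one this
  have hf1 : f = 1 := hτ1 fun q => by
    have := hperm (Sum.inl q)
    rcases hz : τ (Sum.inl q) with z | z
    · exact ⟨z, rfl⟩
    · rw [hz] at this; simp at this
  subst hf1
  have hτid : ∀ x, τ x = x := fun x => by
    have := hτ (τ x) x
    rw [if_pos rfl, map_one, Units.val_one, Matrix.one_apply] at this
    by_contra e
    rw [if_neg e] at this
    exact zero_ne_one this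
  have hσ : σ = 1 := Equiv.ext fun q => by
    have := hperm (Sum.inl q)
    rw [hτid, Sum.map_inl, Sum.inl.injEq] at this
    exact this.symm
  subst hσ
  have hv : ∀ q, v q = if q = I.c then (l : F) else if q = I.d then (l : F) else 1 := by
    intro q
    have h := hval (Sum.inl q)
    rw [hτid, blockDiag_mono hm, if_pos (by rfl)] at h
    simp only [hδ, Sum.elim_inl] at h
    split_ifs at h ⊢
    · rwa [mul_inv_eq_one₀ l.ne_zero] at h
    · rwa [mul_inv_eq_one₀ l.ne_zero] at h
    · simpa using h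
  have hl : (l : F) * (l : F) = 1 := by
    have hdet := m.2
    rw [show m.1 = Matrix.diagonal v from Matrix.ext fun p q => by
      rw [hm p q, Matrix.diagonal_apply, Equiv.Perm.one_apply]; split_ifs with h <;> simp [h],
      Matrix.det_diagonal, Finset.prod_eq_mul I.c I.d I.hcd (fun x _ hx => by
        rw [hv, if_neg hx.1, if_neg hx.2]) (by simp) (by simp), hv, hv, if_pos rfl, if_neg I.hcd.symm,
      if_pos rfl] at hdet
    exact hdet
  have hinv : (l : F)⁻¹ = (l : F) := inv_eq_of_mul_eq_one_left hl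
  have hm' : m = SpecialLinearGroup.diag2n I.hcd (l : F) l.ne_zero := by
    refine hm.eq ?_
    convert mono_diag2n I.hcd (l : F) l.ne_zero using 2 with q
    rw [hv q]
    split_ifs <;> simp [hinv]
  have hflip : Φ I.c I.b * π m * Φ I.c I.b = π m :=
    D.flip_diag I.hbc.symm hm hm (by
      rw [hv, hv]
      simp only [I.hbc, I.hbd, I.hcd, if_true, if_false, mul_one, hinv]
      rcases mul_self_eq_one_iff.1 hl with e | e <;> simp [e])
      (fun q => by
        by_cases hq : q = I.c ∨ q = I.b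
        · rw [if_pos hq, hv]
          rcases hq with rfl | rfl
          · simp [hinv]
          · simp [I.hbc, I.hbd]
        · rw [if_neg hq])
  rw [tor, ← hm', hflip, mul_one, ← map_mul, hm', D.diag_mul]
  have hl1 : l * l = 1 := Units.ext (by simpa using hl)
  have h1' := mono_diag2n I.hcd ((l * l : Fˣ) : F) (l * l).ne_zero
  rw [h1'.eq (g' := 1) (by
    convert Mono.one (F := F) (n := n) using 2 with q
    simp [hl1]), map_one]

end Data

end Cfsg.Agent.OmegaPres
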