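import Cfsg.Agent.OmegaPres.Roots
import Cfsg.Agent.CTits.TypeDRec

/-!
The Siegel radical maps injectively to matrices.
-/

set_option autoImplicit false
set_option linter.unusedSectionVars false

namespace Cfsg.Agent.OmegaPres

open Matrix Cfsg.Agent.CTits
open scoped MatrixGroups

universe u v

variable {F : Type u} [Field F] [Finite F] {n : ℕ} {Y : Type v} [Group Y]

theorem blockUp_mul (M N : Matrix (Fin n) (Fin n) F) : blockUp M * blockUp N = blockUp (M + N) := by
  rw [blockUp, blockUp, blockUp, Matrix.fromBlocks_multiply]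
  simp [add_comm]

/-- The radical elements of a set of pairs. -/
def rad (π π₂ : SL(n, F) →* Y) (c d : Fin n) (s : Finset (Fin n × Fin n)) : Subgroup Y :=
  Subgroup.closure {y | ∃ p ∈ s, p.1 ≠ p.2 ∧ ∃ t, y = DY π π₂ c d p.1 p.2 t}

namespace Second

variable {I : Idx n} {π π₂ : SL(n, F) →* Y} {g : Y} (S : Second I π π₂ g)

local notation "Φ" => flipE I π g
local notation "DD" => DY π π₂ (Idx.c I) (Idx.d I)

include S

theorem DY_swap (i j : Fin n) (t : F) : DY π π₂ I.c I.d j i t = DY π π₂ I.c I.d i j (-t) := by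
  rw [DY, DY, biv_swap i j, smul_neg, neg_smul]

theorem DY_add {i j : Fin n} (h : i ≠ j) (t u : F) :
    DY π π₂ I.c I.d i j t * DY π π₂ I.c I.d i j u = DY π π₂ I.c I.d i j (t + u) :=
  S.dpair.siegel.Y_add h t u

theorem DY_zero {i j : Fin n} : DY π π₂ I.c I.d i j 0 = 1 := by
  rw [DY, zero_smul, S.dpair.siegel.Y_zero]

theorem DY_commute {i j k l : Fin n} (hij : i ≠ j) (hkl : k ≠ l) (t u : F) :
    Commute (DY π π₂ I.c I.d i j t) (DY π π₂ I.c I.d k l u) := by
  have P := S.dpair
  have shared : ∀ {a b c : Fin n}, a ≠ b → c ≠ b → ∀ t u,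
      Commute (DY π π₂ I.c I.d a b t) (DY π π₂ I.c I.d c b u) := by
    intro a b c hab hcb t u
    rcases eq_or_ne a c with rfl | hac
    · show _ = _
      rw [S.DY_add hab, S.DY_add hab, add_comm]
    · exact (P.siegel.Y_three hab hac hcb.symm t u).2
  by_cases hjl : j = l
  · subst hjl; exact shared hij hkl t u
  by_cases hjk : j = k
  · subst hjk; rw [S.DY_swap l j u]; exact shared hij hkl.symm t (-u)
  by_cases hil : i = l
  · subst hil; rw [S.DY_swap j i t]; exact shared hij.symm hkl (-t) u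
  by_cases hik : i = k
  · subst hik; rw [S.DY_swap j i t, S.DY_swap l i u]; exact shared hij.symm hkl.symm (-t) (-u)
  rw [S.DY_swap l k u, S.pos_root_eq hij (Ne.symm hik) (Ne.symm hjk) t,
    S.pos_root_eq hkl.symm hjl hjk (-u), S.data.flip_symm k j]
  refine commute_conj_sq (S.data.flip_sq hjk) ?_
  exact (sys_rootsOf π).comm0 i j l k hij hkl.symm hik hjl t (-u)

theorem conj_rad (A : SL(n, F)) {y : Y} (hy : y ∈ rad π π₂ I.c I.d Finset.univ) :
    π A * y * (π A)⁻¹ ∈ rad π π₂ I.c I.d Finset.univ := by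
  set Rd := rad π π₂ I.c I.d Finset.univ with hR
  have hmem : ∀ {i j : Fin n}, i ≠ j → ∀ t, DY π π₂ I.c I.d i j t ∈ Rd := fun {i j} h t =>
    Subgroup.subset_closure ⟨(i, j), Finset.mem_univ _, h, t, rfl⟩
  have hT : ∀ {k l : Fin n} (h : k ≠ l) (s : F), ∀ y ∈ Rd,
      π (SpecialLinearGroup.transvection h s) * y * (π (SpecialLinearGroup.transvection h s))⁻¹ ∈ Rd := by
    intro k l h s y hy
    induction hy using Subgroup.closure_induction with
    | mem y hy =>
      obtain ⟨⟨i, j⟩, -, hij, t, rfl⟩ := hy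
      have P := S.dpair.siegel
      have key : ∀ {i : Fin n}, i ≠ l → ∀ t, π (SpecialLinearGroup.transvection h s) * DY π π₂ I.c I.d i l t *
          (π (SpecialLinearGroup.transvection h s))⁻¹ ∈ Rd := by
        intro i hi t
        by_cases hik : i = k
        · subst hik
          rw [DY, ← P.Y_act, act_smul, act_T_move h s hi, biv_self, smul_zero, add_zero]
          exact hmem hi t
        · rw [DY, P.Y_T_move h s t hi hik]
          exact mul_mem (hmem hi t) (hmem hik _)
      by_cases hlj : l = j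
      · subst hlj; exact key hij t
      by_cases hli : l = i
      · subst hli; rw [S.DY_swap j l t]; exact key hij.symm (-t)
      rw [DY, P.Y_T_fix h s t hli hlj]
      exact hmem hij t
    | one => simp
    | mul a b _ _ ha hb =>
      have := mul_mem ha hb
      simpa [mul_assoc] using this
    | inv a _ ha =>
      have := inv_mem ha
      simpa [mul_assoc] using this
  have : Nontrivial (Fin n) := Fin.nontrivial_iff_two_le.2 (by have := I.hn; omega)
  refine Linear.transvection_induction (fun A => ∀ y ∈ Rd, π A * y * (π A)⁻¹ ∈ Rd) (fun k l h s => hT h s)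
    (fun A B hA hB y hy => ?_) A y hy
  have := hA _ (hB y hy)
  simpa [mul_assoc] using this

variable {φ : Y →* GL (BI n) F}

theorem rad_spec (h₁ : φ.comp π = L1 n F) (h₂ : φ.comp π₂ = L2 F I.d) (s : Finset (Fin n × Fin n))
    (hs : ∀ p ∈ s, p.1 < p.2) :
    ∀ a ∈ rad π π₂ I.c I.d s, ∃ M : Matrix (Fin n) (Fin n) F, (φ a).1 = blockUp M ∧
      (∀ i j, i < j → (i, j) ∉ s → M i j = 0) ∧ (M = 0 → a = 1) := by
  induction s using Finset.induction_on with
  | empty =>
    intro a ha
    have : a = 1 := by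
      have hle : rad π π₂ I.c I.d ∅ ≤ ⊥ := (Subgroup.closure_le _).2 (by
        rintro y ⟨x, hx, -⟩
        exact absurd hx (Finset.notMem_empty x))
      exact Subgroup.mem_bot.1 (hle ha)
    subst this
    exact ⟨0, by rw [map_one, Units.val_one, blockUp, Matrix.fromBlocks_one], fun _ _ _ _ => rfl, fun _ => rfl⟩
  | insert p s hp ih =>
    intro a ha
    obtain ⟨i, j⟩ := p
    have hij : i < j := hs (i, j) (Finset.mem_insert_self _ _)
    have hdec : ∃ b ∈ rad π π₂ I.c I.d s, ∃ t, a = b * DY π π₂ I.c I.d i j t := by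
      have hcomm : ∀ b ∈ rad π π₂ I.c I.d s, ∀ t, Commute b (DY π π₂ I.c I.d i j t) := by
        intro b hb t
        induction hb using Subgroup.closure_induction with
        | mem y hy =>
          obtain ⟨q, -, hq, u, rfl⟩ := hy
          exact S.DY_commute hq hij.ne u t
        | one => exact Commute.one_left _
        | mul a b _ _ ha hb => exact ha.mul_left hb
        | inv a _ ha => exact ha.inv_left
      induction ha using Subgroup.closure_induction with
      | mem y hy =>
        obtain ⟨q, hq, hq', u, rfl⟩ := hy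
        rcases Finset.mem_insert.1 hq with rfl | hq
        · exact ⟨1, one_mem _, u, (one_mul _).symm⟩
        · exact ⟨_, Subgroup.subset_closure ⟨q, hq, hq', u, rfl⟩, 0, by rw [S.DY_zero, mul_one]⟩
      | one => exact ⟨1, one_mem _, 0, by rw [S.DY_zero, mul_one]⟩
      | mul x y _ _ hx hy =>
        obtain ⟨b, hb, t, rfl⟩ := hx
        obtain ⟨b', hb', t', rfl⟩ := hy
        refine ⟨b * b', mul_mem hb hb', t + t', ?_⟩
        rw [← S.DY_add hij.ne, mul_assoc, ← mul_assoc (DY π π₂ I.c I.d i j t), ← (hcomm b' hb' t).eq,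
          mul_assoc b', ← mul_assoc b]
      | inv x _ hx =>
        obtain ⟨b, hb, t, rfl⟩ := hx
        refine ⟨b⁻¹, inv_mem hb, -t, ?_⟩
        rw [_root_.mul_inv_rev, (hcomm b hb t).inv_inv.eq.symm]
        congr 1
        exact inv_eq_of_mul_eq_one_right (by rw [S.DY_add hij.ne, add_neg_cancel, S.DY_zero])
    obtain ⟨b, hb, t, rfl⟩ := hdec
    obtain ⟨M, h1, h2, h3⟩ := ih (fun q hq => hs q (Finset.mem_insert_of_mem hq)) b hb
    have P' : DPair (L1 n F) (L2 F I.d) I.b I.c I.d :=
      dpair_model I.hn I.hbc I.hbd I.hcd I.last I.succ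
    refine ⟨M + t • biv F i j, ?_, fun k l hkl hkl' => ?_, fun h => ?_⟩
    · rw [map_mul, Units.val_mul, h1, DY_map, h₁, h₂, DY_L1 P' hij.ne, blockUp_mul]
    · simp only [Finset.mem_insert, Prod.mk.injEq, not_or] at hkl'
      rw [Matrix.add_apply, h2 k l hkl hkl'.2, Matrix.smul_apply, biv_apply, if_neg hkl'.1,
        if_neg (fun e : k = j ∧ l = i => absurd hkl (by rw [e.1, e.2]; exact hij.not_gt))]
      simp
    · have ht : t = 0 := by
        have := congrFun (congrFun h i) j
        simpa [h2 i j hij hp, biv_apply, hij.ne] using this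
      subst ht
      rw [S.DY_zero, mul_one]
      exact h3 (by simpa using h)

theorem rad_le_lt : rad π π₂ I.c I.d Finset.univ ≤
    rad π π₂ I.c I.d (Finset.univ.filter fun p => p.1 < p.2) := by
  refine (Subgroup.closure_le _).2 ?_
  rintro y ⟨⟨i, j⟩, -, hij, t, rfl⟩
  rcases lt_or_gt_of_ne hij with h | h
  · exact Subgroup.subset_closure ⟨(i, j), by simpa using h, hij, t, rfl⟩
  · exact Subgroup.subset_closure ⟨(j, i), by simpa using h, h.ne, -t, S.DY_swap j i t⟩

/-- The product of the Levi subgroup and the radical maps injectively. -/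
theorem parabolic_injective (h₁ : φ.comp π = L1 n F) (h₂ : φ.comp π₂ = L2 F I.d) {x : Y}
    (hx : x ∈ π.range ⊔ rad π π₂ I.c I.d Finset.univ) (h : φ x = 1) : x = 1 := by
  have hle : π.range ≤ Subgroup.normalizer (rad π π₂ I.c I.d Finset.univ : Set Y) := by
    rintro _ ⟨A, rfl⟩
    refine Subgroup.mem_normalizer_iff.2 fun y => ⟨S.conj_rad A, fun hy => ?_⟩
    have := S.conj_rad A⁻¹ hy
    simpa [mul_assoc] using this
  have hx' : x ∈ (↑(π.range ⊔ rad π π₂ I.c I.d Finset.univ) : Set Y) := hx
  rw [Subgroup.coe_mul_of_left_le_normalizer_right _ _ hle] at hx'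
  obtain ⟨_, ⟨A, rfl⟩, r, hr, rfl⟩ := Set.mem_mul.1 hx'
  obtain ⟨M, h1, -, h3⟩ := S.rad_spec h₁ h₂ _ (fun p hp => (Finset.mem_filter.1 hp).2) r (S.rad_le_lt hr)
  have hm := congrArg Units.val h
  rw [map_mul, Units.val_mul, h1, ← MonoidHom.comp_apply φ π, h₁, Units.val_one] at hm
  change Matrix.fromBlocks A.1 0 0 (dualSL A).1 * blockUp M = 1 at hm
  rw [blockUp, Matrix.fromBlocks_multiply, ← Matrix.fromBlocks_one] at hm
  obtain ⟨e1, e2, -, -⟩ := Matrix.fromBlocks_inj.1 hm
  have hA : A = 1 := Subtype.ext (by simpa using e1)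
  subst hA
  rw [h3 (by simpa using e2), map_one, mul_one]

end Second

end Cfsg.Agent.OmegaPres
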