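import Cfsg.Agent.OmegaPres.Cells
import Cfsg.Agent.OmegaPres.Monomial
import Cfsg.Agent.OmegaPres.Radical
import Cfsg.Agent.CTits.TypeDRec

/-!
The relations define the matrix group: the homomorphism to matrices is injective.
-/

set_option autoImplicit false
set_option linter.unusedSectionVars false

namespace Cfsg.Agent.OmegaPres

open Matrix Cfsg.Agent.CTits
open scoped MatrixGroups

universe u v

variable {F : Type u} [Field F] [Finite F] {n : ℕ} {Y : Type v} [Group Y]

theorem perm_val_neg (σ : Equiv.Perm (Fin n)) {r : DRoot n} (hr : r.val) :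
    (r.perm σ).val ∧ r.neg.perm σ = (r.perm σ).neg := by
  cases r with
  | ee i j =>
    simp only [DRoot.val] at hr
    simp [DRoot.perm, DRoot.val, DRoot.neg, σ.injective.ne hr]
  | pp i j =>
    simp only [DRoot.val] at hr
    rcases lt_or_gt_of_ne (σ.injective.ne hr.ne) with h | h
    · simp [DRoot.perm, DRoot.val, DRoot.neg, h]
    · simp [DRoot.perm, DRoot.val, DRoot.neg, h, h.not_gt]
  | mm i j =>
    simp only [DRoot.val] at hr
    rcases lt_or_gt_of_ne (σ.injective.ne hr.ne) with h | h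
    · simp [DRoot.perm, DRoot.val, DRoot.neg, h]
    · simp [DRoot.perm, DRoot.val, DRoot.neg, h, h.not_gt]

theorem Mono.inv' {m : SL(n, F)} {σ : Equiv.Perm (Fin n)} {v : Fin n → F} (h : Mono m σ v) :
    ∃ w, Mono m⁻¹ σ⁻¹ w := by
  refine ⟨fun q => (v (σ⁻¹ q))⁻¹, fun p q => ?_⟩
  have hd := DPair.mono_dual h h.ne_zero q p
  change (m⁻¹ : SL(n, F)).1ᵀ q p = _ at hd
  rw [Matrix.transpose_apply] at hd
  rw [hd]
  by_cases e : q = σ p
  · subst e
    simp
  · rw [if_neg e, if_neg fun e' => e (by rw [e']; simp)]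

/-- A transvection seen from the second copy. -/
theorem submatrix_T {p q d z : Fin n} (hdz : d ≠ z) (hzp : z ≠ p) (hzq : z ≠ q) (t : F) :
    (1 + Matrix.single (Sum.inl p) (Sum.inl q) t + Matrix.single (Sum.inr q) (Sum.inr p) (-t)).submatrix
        (ff d z) (ff d z) =
      1 + Matrix.single (flipD d (Sum.inl p)) (flipD d (Sum.inl q)) t +
        Matrix.single (flipD d (Sum.inr q)) (flipD d (Sum.inr p)) (-t) := by
  have key : ∀ x, x = Sum.inl p ∨ x = Sum.inl q ∨ x = Sum.inr p ∨ x = Sum.inr q → ∀ w : BI n,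
      (x = ff d z w ↔ flipD d x = w) := by
    intro x hx w
    have hfixl : ∀ r, r ≠ z → flipD z (flipD d (Sum.inl r)) = flipD d (Sum.inl r) ∧
        flipD z (flipD d (Sum.inr r)) = flipD d (Sum.inr r) := by
      intro r hr
      by_cases e : r = d
      · subst r
        rw [show flipD d (Sum.inl d) = Sum.inr d from Equiv.swap_apply_left _ _,
          show flipD d (Sum.inr d) = Sum.inl d from Equiv.swap_apply_right _ _, flipD_inr hr, flipD_inl hr]
        exact ⟨rfl, rfl⟩
      · rw [flipD_inl e, flipD_inr e, flipD_inl hr, flipD_inr hr]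
        exact ⟨rfl, rfl⟩
    have hfix : flipD z (flipD d x) = flipD d x := by
      rcases hx with rfl | rfl | rfl | rfl
      · exact (hfixl p hzp.symm).1
      · exact (hfixl q hzq.symm).1
      · exact (hfixl p hzp.symm).2
      · exact (hfixl q hzq.symm).2
    have hx' : ff d z x = flipD d x := hfix
    constructor
    · intro e
      rw [← hx', e, ff_ff hdz]
    · intro e
      rw [← e, ← hx', ff_ff hdz]
  ext x y
  rw [Matrix.submatrix_apply]
  simp only [Matrix.add_apply, Matrix.one_apply, Matrix.single_apply, (ff d z).injective.eq_iff,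
    key (Sum.inl p) (by tauto), key (Sum.inl q) (by tauto), key (Sum.inr p) (by tauto), key (Sum.inr q) (by tauto)]

namespace Second

variable {I : Idx n} {π π₂ : SL(n, F) →* Y} {g : Y} (S : Second I π π₂ g) {φ : Y →* GL (BI n) F}

local notation "Φ" => flipE I π g

include S

/-- Monomial elements permute the roots. -/
theorem rootMove {y : Y} (hy : y ∈ monoGrp I π g) :
    ∀ r : DRoot n, r.val → ∃ r' : DRoot n, r'.val ∧ (∀ x ∈ r.U π π₂ I.c I.d, y⁻¹ * x * y ∈ r'.U π π₂ I.c I.d) ∧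
      ∀ x ∈ r.neg.U π π₂ I.c I.d, y⁻¹ * x * y ∈ r'.neg.U π π₂ I.c I.d := by
  let P : Y → Prop := fun y => ∀ r : DRoot n, r.val → ∃ r' : DRoot n, r'.val ∧
    (∀ x ∈ r.U π π₂ I.c I.d, y * x * y⁻¹ ∈ r'.U π π₂ I.c I.d) ∧
      ∀ x ∈ r.neg.U π π₂ I.c I.d, y * x * y⁻¹ ∈ r'.neg.U π π₂ I.c I.d
  have hmul : ∀ a b, P a → P b → P (a * b) := by
    intro a b ha hb r hr
    obtain ⟨r1, h1, h2, h3⟩ := hb r hr
    obtain ⟨r2, k1, k2, k3⟩ := ha r1 h1
    refine ⟨r2, k1, fun x hx => ?_, fun x hx => ?_⟩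
    · simpa [mul_assoc] using k2 _ (h2 x hx)
    · simpa [mul_assoc] using k3 _ (h3 x hx)
  have hmono : ∀ {m : SL(n, F)} {σ : Equiv.Perm (Fin n)} {v : Fin n → F}, Mono m σ v → P (π m) := by
    intro m σ v hm r hr
    obtain ⟨a, b⟩ := perm_val_neg σ hr
    refine ⟨r.perm σ, a, fun x hx => S.dpair.conj_mono hm hm.ne_zero hr hx, fun x hx => ?_⟩
    rw [← b]
    exact S.dpair.conj_mono hm hm.ne_zero (DRoot.val_neg hr) hx
  have hflip : ∀ {a b : Fin n}, a ≠ b → P (Φ a b) := by
    intro a b hab r hr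
    obtain ⟨h1, h2⟩ := flipRoot_val a b hr
    rw [S.data.flip_inv hab]
    refine ⟨flipRoot a b r, h1, fun x hx => S.conj_flipRoot hab hr hx, fun x hx => ?_⟩
    rw [← h2]
    exact S.conj_flipRoot hab (DRoot.val_neg hr) hx
  have key : P y ∧ P y⁻¹ := by
    induction hy using Subgroup.closure_induction with
    | mem y hy =>
      rcases hy with ⟨m, σ, v, hm, rfl⟩ | ⟨a, b, hab, rfl⟩
      · obtain ⟨w, hw⟩ := hm.inv'
        exact ⟨hmono hm, by rw [← map_inv]; exact hmono hw⟩
      · exact ⟨hflip hab, by rw [S.data.flip_inv hab]; exact hflip hab⟩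
    | one =>
      have : P 1 := fun r hr => ⟨r, hr, fun x hx => by simpa using hx, fun x hx => by simpa using hx⟩
      exact ⟨this, by rwa [inv_one]⟩
    | mul a b _ _ ha hb => exact ⟨hmul a b ha.1 hb.1, by rw [_root_.mul_inv_rev]; exact hmul _ _ hb.2 ha.2⟩
    | inv a _ ha => exact ⟨ha.2, by rw [inv_inv]; exact ha.1⟩
  intro r hr
  obtain ⟨r', h1, h2, h3⟩ := key.2 r hr
  exact ⟨r', h1, fun x hx => by simpa using h2 x hx, fun x hx => by simpa using h3 x hx⟩

theorem comp_second (M : Model I π g φ) : φ.comp π₂ = L2 F I.d := by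
  have : Nontrivial (Fin n) := Fin.nontrivial_iff_two_le.2 (by have := I.hn; omega)
  refine MonoidHom.ext fun A => ?_
  refine Linear.transvection_induction (fun A => φ.comp π₂ A = L2 F I.d A) (fun p q h t => ?_)
    (fun A B hA hB => by rw [map_mul, map_mul, hA, hB]) A
  rw [← rootsOf_eq _ h, ← rootsOf_eq _ h, ← rootsOf_map, S.spec p q h]
  obtain ⟨z, hzp, hzq, hzd⟩ := S.data.exists_three p q I.d
  rw [S.data.xr_eq h hzp hzq hzd, map_mul, map_mul, rootsOf_map, M.onSL]
  refine Units.ext ?_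
  rw [Units.val_mul, Units.val_mul, rootsOf_L1 h, rootsOf_L2 I.d h]
  have hdz := hzd.symm
  have hΦ := S.data.model_flip M hdz
  ext x y
  rw [Matrix.mul_apply, Finset.sum_eq_single (ff I.d z y) (fun r _ hr => by rw [hΦ, if_neg hr, mul_zero])
    (by simp), hΦ, if_pos rfl, mul_one, Matrix.mul_apply, Finset.sum_eq_single (ff I.d z x)
    (fun r _ hr => by rw [hΦ, if_neg (fun e => hr (by rw [e, ff_ff hdz])), zero_mul]) (by simp),
    hΦ, ff_ff hdz, if_pos rfl, one_mul]
  exact congrFun (congrFun (submatrix_T hdz hzp hzq t) x) y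

theorem elt_map (M : Model I π g φ) (r : DRoot n) (t : F) :
    φ (r.elt π π₂ I.c I.d t) = r.elt (L1 n F) (L2 F I.d) I.c I.d t := by
  have h₂ := S.comp_second M
  cases r with
  | ee i j =>
    show φ (rootsOf π i j t) = rootsOf _ i j t
    rw [rootsOf_map, M.onSL]
  | pp i j =>
    show φ (DY π π₂ I.c I.d i j t) = DY _ _ I.c I.d i j t
    rw [DY_map, M.onSL, h₂]
  | mm i j =>
    show φ (DY (π.comp dualSL) (π₂.comp dualSL) I.c I.d i j t) = DY _ _ I.c I.d i j t
    rw [DY_map, ← MonoidHom.comp_assoc, ← MonoidHom.comp_assoc, M.onSL, h₂]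

theorem upper_le_parabolic : upper (fun r : DRoot n => r.U π π₂ I.c I.d) DRoot.val DRoot.pos ≤
    π.range ⊔ rad π π₂ I.c I.d Finset.univ := by
  refine (Subgroup.closure_le _).2 ?_
  rintro y ⟨r, hr, hp, t, rfl⟩
  cases r with
  | ee i j =>
    simp only [DRoot.val] at hr
    refine Subgroup.mem_sup_left ?_
    show rootsOf π i j t ∈ _
    rw [rootsOf_eq π hr]
    exact ⟨_, rfl⟩
  | pp i j =>
    simp only [DRoot.val] at hr
    exact Subgroup.mem_sup_right (Subgroup.subset_closure ⟨(i, j), Finset.mem_univ _, hr.ne, t, rfl⟩)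
  | mm i j => exact absurd hp (by simp [DRoot.pos])

theorem second_w : π₂ (wT I.hcd) = Φ I.d I.c * π (wT I.hcd) := by
  have hx : ∀ {p q : Fin n} (h : p ≠ q), (p = I.c ∧ q = I.d ∨ p = I.d ∧ q = I.c) → ∀ t,
      π₂ (SpecialLinearGroup.transvection h t) =
        Φ I.d I.e * π (SpecialLinearGroup.transvection h t) * Φ I.d I.e := by
    intro p q h hpq t
    rw [← rootsOf_eq π₂ h, S.spec p q h, ← rootsOf_eq π h]
    rcases hpq with ⟨rfl, rfl⟩ | ⟨rfl, rfl⟩
    · exact S.data.xr_eq h I.hce.symm I.hde.symm I.hde.symm t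
    · exact S.data.xr_eq h I.hde.symm I.hce.symm I.hde.symm t
  have hsq := S.data.flip_sq I.hde
  rw [wT, map_mul, map_mul, hx I.hcd (Or.inl ⟨rfl, rfl⟩), hx I.hcd.symm (Or.inr ⟨rfl, rfl⟩),
    conj_sq_mul hsq, conj_sq_mul hsq, ← map_mul, ← map_mul, ← wT]
  have hsig : Signed (wT (F := F) I.hcd) (Equiv.swap I.c I.d) :=
    ⟨_, fun q => by split_ifs <;> simp, mono_wT I.hcd⟩
  have hc := S.data.conj_flip hsig I.hde
  rw [Equiv.swap_apply_right, Equiv.swap_apply_of_ne_of_ne I.hce.symm I.hde.symm, mul_inv_eq_iff_eq_mul] at hc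
  rw [mul_assoc, hc, ← mul_assoc, S.data.flip_symm I.c I.e, S.data.flip_mul I.hde I.hcd.symm I.hce.symm]

/-- The matrix homomorphism is injective. -/
theorem injective (M : Model I π g φ) (hgen : Subgroup.closure (Set.range π ∪ {g}) = ⊤) :
    Function.Injective φ := by
  classical
  let A := Option {p : Fin n × Fin n // p.1.val + 1 = p.2.val}
  have hι : ∀ p : {p : Fin n × Fin n // p.1.val + 1 = p.2.val}, ∃ ι : SL(2, F) →* SL(n, F),
      ∃ h : p.1.1 ≠ p.1.2, (∀ t, ι (up t) = SpecialLinearGroup.transvection h t) ∧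
        ∀ t, ι (lo t) = SpecialLinearGroup.transvection h.symm t := by
    rintro ⟨⟨i, j⟩, hij⟩
    have h : i ≠ j := Fin.ne_of_val_ne (by simp only at hij; omega)
    obtain ⟨r, hri, hrj, -⟩ := S.data.exists_three i j j
    obtain ⟨ι, h1, h2⟩ := exists_pairHom (F := F) h (Ne.symm hrj) (Ne.symm hri)
    exact ⟨ι, h, h1, h2⟩
  choose ι hne hu hl using hι
  let m : {p : Fin n × Fin n // p.1.val + 1 = p.2.val} := ⟨(I.c, I.d), I.succ⟩
  let ρ : A → SL(2, F) →* Y := fun o => o.elim (π₂.comp (ι m)) fun p => π.comp (ι p)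
  let SR : ∀ o, SimpleRoot (ρ o) (fun r : DRoot n => r.U π π₂ I.c I.d) DRoot.val DRoot.pos DRoot.neg := fun o =>
    match o with
    | none => simpleSnd S.dpair (π₂.comp (ι m)) (i := I.c) (j := I.d) I.succ (hne m)
        (fun t => by rw [MonoidHom.comp_apply, hu]) fun t => by rw [MonoidHom.comp_apply, hl]
    | some p => simpleFst S.dpair (π.comp (ι p)) (i := p.1.1) (j := p.1.2) p.2 (hne p)
        (fun t => by rw [MonoidHom.comp_apply, hu]) fun t => by rw [MonoidHom.comp_apply, hl]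
  set X' := ⨆ o, (ρ o).range with hX'
  have hmemρ : ∀ o a, ρ o a ∈ X' := fun o a => Subgroup.mem_iSup_of_mem o ⟨a, rfl⟩
  have hπ : π.range ≤ X' := by
    refine range_le_of_adjacent π (by have := I.hn; omega) X' fun i j hij t => ?_
    rcases hij with h | h
    · let p : {p : Fin n × Fin n // p.1.val + 1 = p.2.val} := ⟨(i, j), h.symm⟩
      rw [rootsOf_eq π (hne p), ← hu p t]
      exact hmemρ (some p) (up t)
    · let p : {p : Fin n × Fin n // p.1.val + 1 = p.2.val} := ⟨(j, i), h.symm⟩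
      rw [rootsOf_eq π (hne p).symm, ← hl p t]
      exact hmemρ (some p) (lo t)
  have hflipdc : Φ I.d I.c ∈ X' := by
    have hmem : π₂ (wT I.hcd) ∈ X' := by
      rw [wT, map_mul, map_mul, ← hu m, ← hl m]
      exact mul_mem (mul_mem (hmemρ none _) (hmemρ none _)) (hmemρ none _)
    rw [S.second_w] at hmem
    exact (Subgroup.mul_mem_cancel_right _ (hπ ⟨_, rfl⟩)).1 hmem
  have hflip : ∀ {a b : Fin n}, a ≠ b → Φ a b ∈ X' := by
    intro a b hab
    obtain ⟨k, σ, hk, hd, -, hc⟩ := exists_to_three (F := F) I (a := a)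
      (b := (S.data.exists_three a b b).choose) (x := b) (S.data.exists_three a b b).choose_spec.1.symm hab
      (S.data.exists_three a b b).choose_spec.2.1
    have := S.data.conj_flip hk I.hcd.symm
    rw [hd, hc] at this
    rw [← this]
    exact mul_mem (mul_mem (hπ ⟨k, rfl⟩) hflipdc) (inv_mem (hπ ⟨k, rfl⟩))
  have hall : ∀ x, x ∈ X' := by
    have htop : (⊤ : Subgroup Y) ≤ X' := by
      rw [← hgen, Subgroup.closure_le]
      rintro x (⟨A, rfl⟩ | hx)
      · exact hπ ⟨A, rfl⟩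
      · rw [Set.mem_singleton_iff.1 hx, ← S.data.flip_base]
        exact hflip I.hde
    exact fun x => htop (Subgroup.mem_top x)
  have hw : ∀ o (a : F), a ≠ 0 → ρ o (wm a) ∈ monoGrp I π g := by
    intro o a ha
    have hmono : ∀ p, ι p (wm a) ∈ {m : SL(n, F) | ∃ σ v, Mono m σ v} := fun p => by
      simp only [wm, map_mul, hu, hl, Set.mem_setOf_eq]
      exact ⟨_, _, wij_spec (hne p) ha⟩
    cases o with
    | some p =>
      obtain ⟨σ, v, hv⟩ := hmono p
      exact Subgroup.subset_closure (Or.inl ⟨_, σ, v, hv, rfl⟩)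
    | none =>
      show π₂ (ι m (wm a)) ∈ _
      obtain ⟨σ, v, hv⟩ := hmono m
      have hΦm : Φ I.d I.e ∈ monoGrp I π g := Subgroup.subset_closure (Or.inr ⟨_, _, I.hde, rfl⟩)
      have he : π₂ (ι m (wm a)) = Φ I.d I.e * π (ι m (wm a)) * Φ I.d I.e := by
        have hsq := S.data.flip_sq I.hde
        have hT1 : ∀ t, π₂ (ι m (up t)) = Φ I.d I.e * π (ι m (up t)) * Φ I.d I.e := fun t => by
          rw [hu, ← rootsOf_eq π₂, S.spec _ _ (hne m), ← rootsOf_eq π]
          exact S.data.xr_eq (hne m) I.hce.symm I.hde.symm I.hde.symm t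
        have hT2 : ∀ t, π₂ (ι m (lo t)) = Φ I.d I.e * π (ι m (lo t)) * Φ I.d I.e := fun t => by
          rw [hl, ← rootsOf_eq π₂, S.spec _ _ (hne m).symm, ← rootsOf_eq π]
          exact S.data.xr_eq (hne m).symm I.hde.symm I.hce.symm I.hde.symm t
        simp only [wm, map_mul, hT1, hT2, conj_sq_mul hsq]
      rw [he]
      exact mul_mem (mul_mem hΦm (Subgroup.subset_closure (Or.inl ⟨_, σ, v, hv, rfl⟩))) hΦm
  have P' : DPair (L1 n F) (L2 F I.d) I.b I.c I.d := dpair_model I.hn I.hbc I.hbd I.hcd I.last I.succ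
  have htri : upper (fun r : DRoot n => r.U π π₂ I.c I.d) DRoot.val DRoot.pos ≤ (triSub F n).comap φ := by
    refine (Subgroup.closure_le _).2 ?_
    rintro y ⟨r, hr, hp, t, rfl⟩
    show φ _ ∈ triSub F n
    rw [S.elt_map M]
    exact model_pos P' hr hp t
  rw [← MonoidHom.ker_eq_bot_iff, eq_bot_iff]
  intro k hk
  rw [MonoidHom.mem_ker] at hk
  obtain ⟨u, hu', n₀, hn₀, u', hu'', rfl⟩ := mem_cell (val := DRoot.val) (pos := DRoot.pos) (neg := DRoot.neg) (fun r h => DRoot.val_neg h) (fun r h => DRoot.dich h)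
    ρ SR (monoGrp I π g) (fun y hy => S.rootMove hy) hw k (hall k)
  have hn1 : n₀ = 1 := by
    refine S.data.monoGrp_injective M hn₀ fun x => ?_
    have hmem : φ n₀ ∈ triSub F n := by
      rw [map_mul, map_mul] at hk
      have h1 : φ n₀ = (φ u)⁻¹ * (φ u')⁻¹ := by
        rw [eq_inv_mul_iff_mul_eq, eq_inv_iff_mul_eq_one]
        exact hk
      rw [h1]
      exact mul_mem (inv_mem (htri hu')) (inv_mem (htri hu''))
    simpa using mem_triSub.1 hmem x x le_rfl
  subst hn1
  rw [mul_one] at hk ⊢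
  exact Subgroup.mem_bot.2 (S.parabolic_injective M.onSL (S.comp_second M)
    (S.upper_le_parabolic (mul_mem hu' hu'')) hk)

end Second

end Cfsg.Agent.OmegaPres
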