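import Cfsg.Agent.OmegaPres.Data
import Cfsg.Agent.ShortPres.Tuples

/-!
The second copy of the special linear group, and the root subgroups as flipped transvections.
-/

set_option autoImplicit false
set_option linter.unusedSectionVars false

namespace Cfsg.Agent.OmegaPres

open Matrix Cfsg.Agent.CTits
open scoped MatrixGroups

universe u v

variable {F : Type u} [Field F] [Finite F] {n : ℕ} {Y : Type v} [Group Y]

open Classical in
/-- The root elements of the second copy. -/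
noncomputable def xr (I : Idx n) (π : SL(n, F) →* Y) (g : Y) (p q : Fin n) (t : F) : Y :=
  if h : ∃ z, z ≠ p ∧ z ≠ q ∧ z ≠ I.d then
    flipE I π g I.d h.choose * rootsOf π p q t * flipE I π g I.d h.choose else 1

theorem conj_sq_mul {G : Type*} [Group G] {f a b : G} (hf : f * f = 1) :
    f * a * f * (f * b * f) = f * (a * b) * f := by
  calc f * a * f * (f * b * f) = f * a * (f * f) * b * f := by group
    _ = f * (a * b) * f := by rw [hf]; group

theorem commute_conj_sq {G : Type*} [Group G] {f a b : G} (hf : f * f = 1) (h : Commute a b) :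
    Commute (f * a * f) (f * b * f) := by
  show _ = _
  rw [conj_sq_mul hf, conj_sq_mul hf, h.eq]

theorem conj_sq_sq {G : Type*} [Group G] {f a : G} (hf : f * f = 1) : f * (f * a * f) * f = a := by
  calc f * (f * a * f) * f = (f * f) * a * (f * f) := by group
    _ = a := by rw [hf, one_mul, mul_one]

namespace Data

variable {I : Idx n} {π : SL(n, F) →* Y} {g : Y} (D : Data I π g)

local notation "Φ" => flipE I π g

include D

theorem exists_three (p q r : Fin n) : ∃ z, z ≠ p ∧ z ≠ q ∧ z ≠ r := by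
  obtain ⟨z, hz⟩ := D.exists_other {p, q, r} (lt_of_le_of_lt Finset.card_le_three (by have := I.hn; omega))
  simp only [Finset.mem_insert, Finset.mem_singleton, not_or] at hz
  exact ⟨z, hz.1, hz.2.1, hz.2.2⟩

theorem flip_root_out {a b i j : Fin n} (hab : a ≠ b) (h : i ≠ j) (hia : i ≠ a) (hib : i ≠ b) (hja : j ≠ a)
    (hjb : j ≠ b) (t : F) : Φ a b * rootsOf π i j t * Φ a b = rootsOf π i j t := by
  rw [rootsOf_eq π h]; exact D.flip_T_out hab h ⟨hia, hib⟩ ⟨hja, hjb⟩ t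

theorem flip_root_in {a b : Fin n} (hab : a ≠ b) (t : F) :
    Φ a b * rootsOf π a b t * Φ a b = rootsOf π b a (-t) := by
  rw [rootsOf_eq π hab, rootsOf_eq π hab.symm]; exact D.flip_T_in hab t

/-- Changing the auxiliary index of a flip. -/
theorem flip_change {w z z' i j : Fin n} (hwz : w ≠ z) (hwz' : w ≠ z') (h : i ≠ j) (hiz : i ≠ z) (hiz' : i ≠ z')
    (hjz : j ≠ z) (hjz' : j ≠ z') (t : F) :
    Φ w z * rootsOf π i j t * Φ w z = Φ w z' * rootsOf π i j t * Φ w z' := by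
  by_cases e : z = z'
  · rw [e]
  have h1 := D.flip_mul (Ne.symm e) (Ne.symm hwz') hwz.symm
  have hc := (D.flip_comm hwz' (Ne.symm e)).eq
  have hwzz : Φ w z = Φ w z' * Φ z' z := (D.flip_mul hwz' hwz (Ne.symm e)).symm
  rw [hwzz]
  calc Φ w z' * Φ z' z * rootsOf π i j t * (Φ w z' * Φ z' z)
      = Φ w z' * Φ z' z * rootsOf π i j t * (Φ z' z * Φ w z') := by rw [hc]
    _ = Φ w z' * (Φ z' z * rootsOf π i j t * Φ z' z) * Φ w z' := by group
    _ = _ := by rw [D.flip_root_out (Ne.symm e) h hiz' hiz hjz' hjz]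

theorem xr_eq {p q z : Fin n} (h : p ≠ q) (hzp : z ≠ p) (hzq : z ≠ q) (hzd : z ≠ I.d) (t : F) :
    xr I π g p q t = Φ I.d z * rootsOf π p q t * Φ I.d z := by
  have hex : ∃ z, z ≠ p ∧ z ≠ q ∧ z ≠ I.d := ⟨z, hzp, hzq, hzd⟩
  rw [xr, dif_pos hex]
  obtain ⟨a, b, c⟩ := hex.choose_spec
  exact D.flip_change c.symm hzd.symm h a.symm hzp.symm b.symm hzq.symm t

theorem xr_out {p q : Fin n} (h : p ≠ q) (hp : p ≠ I.d) (hq : q ≠ I.d) (t : F) :
    xr I π g p q t = rootsOf π p q t := by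
  obtain ⟨z, h1, h2, h3⟩ := D.exists_three p q I.d
  rw [D.xr_eq h h1 h2 h3]
  exact D.flip_root_out h3.symm h hp h1.symm hq h2.symm t

theorem roots_commute_of_squares {A : F → Y} {B : F → Y} (hA : ∀ t u, A t * A u = A (t + u))
    (hB : ∀ t u, B t * B u = B (t + u)) (h : ∀ s r : F, Commute (A (s * s)) (B (r * r))) (t u : F) :
    Commute (A t) (B u) := by
  have hsub : ∀ {A : F → Y}, (∀ t u, A t * A u = A (t + u)) → ∀ x y, A (x - y) = A x * (A y)⁻¹ := by
    intro A hA x y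
    rw [eq_mul_inv_iff_mul_eq, hA, sub_add_cancel]
  have h1 : ∀ r t, Commute (A t) (B (r * r)) := fun r t => forall_of_squares (P := fun t => Commute (A t) (B (r * r)))
    (fun x y hx hy => by rw [hsub hA]; exact hx.mul_left hy.inv_left) (fun s => h s r) t
  exact forall_of_squares (P := fun u => Commute (A t) (B u))
    (fun x y hx hy => by rw [hsub hB]; exact hx.mul_right hy.inv_right) (fun r => h1 r t) u

theorem scale (p q : Fin n) (hpq : p = I.c ∧ q = I.d ∨ p = I.e ∧ q = I.l)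
    (h1 : Commute (rootsOf π p q 1) (Φ I.d I.e * rootsOf π I.c I.d 1 * Φ I.d I.e)) (t u : F) :
    Commute (rootsOf π p q t) (Φ I.d I.e * rootsOf π I.c I.d u * Φ I.d I.e) := by
  have hne : p ≠ q := by
    rcases hpq with ⟨rfl, rfl⟩ | ⟨rfl, rfl⟩
    · exact I.hcd
    · exact I.hle.symm
  have hsq := D.flip_sq I.hde
  refine D.roots_commute_of_squares (A := rootsOf π p q)
    (B := fun u => Φ I.d I.e * rootsOf π I.c I.d u * Φ I.d I.e)
    (fun x y => (sys_rootsOf π).add p q hne x y)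
    (fun x y => by rw [conj_sq_mul hsq, (sys_rootsOf π).add _ _ I.hcd]) (fun s r => ?_) t u
  rcases eq_or_ne (s * r) 0 with e | e
  · rcases mul_eq_zero.1 e with rfl | rfl
    · rw [zero_mul, Spec.StPres.zero (sys_rootsOf π) hne]; exact Commute.one_left _
    · simp only [zero_mul, Spec.StPres.zero (sys_rootsOf π) I.hcd, mul_one, hsq]; exact Commute.one_right _
  obtain ⟨hs, hr⟩ := mul_ne_zero_iff.1 e
  -- the torus element
  have hdel : r / s ≠ 0 := div_ne_zero hr hs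
  set T0 := SpecialLinearGroup.diag2n I.hde (r / s) hdel * SpecialLinearGroup.diag2n I.hlc.symm (s * r) e
  have hT : Mono T0 1 _ := (mono_diag2n I.hde _ hdel).mul (mono_diag2n I.hlc.symm _ e)
  obtain ⟨T1, hT1, hflip⟩ := D.flip_mono I.hde hT (fun q => Iff.rfl) (Or.inl (by
    simp [I.hcd.symm, I.hce.symm, I.hde.symm, I.hld.symm, I.hle.symm, hr, hs]))
  have e1 : π T0 * rootsOf π p q 1 * (π T0)⁻¹ = rootsOf π p q (s * s) := by
    rw [rootsOf_eq π hne, ← map_mul, DPair.mono_T hT hne 1 (hT.ne_zero q), map_mul, mul_inv_cancel_right,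
      ← rootsOf_eq π]
    congr 1
    rcases hpq with ⟨rfl, rfl⟩ | ⟨rfl, rfl⟩ <;>
      simp [I.hcd, I.hcd.symm, I.hce, I.hce.symm, I.hde, I.hde.symm, I.hld, I.hld.symm, I.hle, I.hle.symm,
        I.hlc, I.hlc.symm] <;> field_simp
  have e2 : π T1 * rootsOf π I.c I.d 1 * (π T1)⁻¹ = rootsOf π I.c I.d (r * r) := by
    rw [rootsOf_eq π I.hcd, ← map_mul, DPair.mono_T hT1 I.hcd 1 (hT1.ne_zero I.d), map_mul, mul_inv_cancel_right,
      ← rootsOf_eq π]
    congr 1
    simp [I.hcd, I.hcd.symm, I.hce, I.hce.symm, I.hde, I.hde.symm, I.hld, I.hld.symm, I.hle, I.hle.symm,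
        I.hlc, I.hlc.symm]
    field_simp
  have h := Commute.conj h1 (π T0)
  rw [e1] at h
  have e3 : π T0 * (Φ I.d I.e * rootsOf π I.c I.d 1 * Φ I.d I.e) * (π T0)⁻¹ =
      Φ I.d I.e * rootsOf π I.c I.d (r * r) * Φ I.d I.e := by
    rw [← e2]
    have a : π T0 * Φ I.d I.e = Φ I.d I.e * π T1 := by
      rw [← hflip]
      calc π T0 * Φ I.d I.e = (Φ I.d I.e * Φ I.d I.e) * π T0 * Φ I.d I.e := by rw [hsq, one_mul]
        _ = _ := by group
    have b : Φ I.d I.e * (π T0)⁻¹ = (π T1)⁻¹ * Φ I.d I.e := by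
      conv_lhs => rw [← D.flip_inv I.hde]
      conv_rhs => rw [← D.flip_inv I.hde]
      rw [← _root_.mul_inv_rev, ← _root_.mul_inv_rev, a]
    calc π T0 * (Φ I.d I.e * rootsOf π I.c I.d 1 * Φ I.d I.e) * (π T0)⁻¹
        = (π T0 * Φ I.d I.e) * rootsOf π I.c I.d 1 * (Φ I.d I.e * (π T0)⁻¹) := by group
      _ = _ := by rw [a, b]; group
  rw [e3] at h
  exact h

theorem comm_cd (t u : F) : Commute (rootsOf π I.c I.d t) (xr I π g I.c I.d u) := by
  rw [D.xr_eq I.hcd I.hce.symm I.hde.symm I.hde.symm]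
  refine D.scale I.c I.d (Or.inl ⟨rfl, rfl⟩) ?_ t u
  have := D.r6
  have hg : g⁻¹ = g := (congrArg (·⁻¹) D.flip_base).symm.trans ((D.flip_inv I.hde).trans D.flip_base)
  rw [hg, ← rootsOf_eq π I.hcd] at this
  rwa [D.flip_base]

theorem comm_el (h4 : n = 4) (t u : F) : Commute (rootsOf π I.e I.l t) (xr I π g I.c I.d u) := by
  rw [D.xr_eq I.hcd I.hce.symm I.hde.symm I.hde.symm]
  refine D.scale I.e I.l (Or.inr ⟨rfl, rfl⟩) ?_ t u
  have := D.r7 h4
  have hg : g⁻¹ = g := (congrArg (·⁻¹) D.flip_base).symm.trans ((D.flip_inv I.hde).trans D.flip_base)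
  rw [hg, ← rootsOf_eq π I.hle.symm, ← rootsOf_eq π I.hcd] at this
  rwa [D.flip_base]

/-- Conjugation of a flipped root element by a signed monomial element. -/
theorem signed_root {m : SL(n, F)} {σ : Equiv.Perm (Fin n)} (hm : Signed m σ) {p q : Fin n} (h : p ≠ q) :
    ∃ s : F, (s = 1 ∨ s = -1) ∧ ∀ t, π m * rootsOf π p q t * (π m)⁻¹ = rootsOf π (σ p) (σ q) (s * t) := by
  obtain ⟨v, hv, hmono⟩ := hm
  refine ⟨v p / v q, ?_, fun t => ?_⟩
  · rcases hv p with e | e <;> rcases hv q with e' | e' <;> simp [e, e']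
  rw [rootsOf_eq π h, ← map_mul, DPair.mono_T hmono h t (hmono.ne_zero q), map_mul, mul_inv_cancel_right,
    ← rootsOf_eq π]
  congr 1
  ring

theorem signed_flip_root {m : SL(n, F)} {σ : Equiv.Perm (Fin n)} (hm : Signed m σ) {p q a b : Fin n}
    (h : p ≠ q) (hab : a ≠ b) :
    ∃ s : F, (s = 1 ∨ s = -1) ∧ ∀ t, π m * (Φ a b * rootsOf π p q t * Φ a b) * (π m)⁻¹ =
      Φ (σ a) (σ b) * rootsOf π (σ p) (σ q) (s * t) * Φ (σ a) (σ b) := by
  obtain ⟨s, hs, h'⟩ := D.signed_root hm h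
  refine ⟨s, hs, fun t => ?_⟩
  rw [← h', ← D.conj_flip hm hab]
  group

theorem comm_four (t u : F) :
    Commute (rootsOf π I.c I.d t) (xr I π g I.c I.d u) ∧ Commute (rootsOf π I.c I.d t) (xr I π g I.d I.c u) ∧
    Commute (rootsOf π I.d I.c t) (xr I π g I.c I.d u) ∧ Commute (rootsOf π I.d I.c t) (xr I π g I.d I.c u) := by
  let σ := Equiv.swap I.c I.d * Equiv.swap I.e I.l
  obtain ⟨m, hm⟩ := exists_signed (F := F) σ
  have sc : σ I.c = I.d := by
    simp [σ, Equiv.swap_apply_of_ne_of_ne I.hce I.hlc.symm]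
  have sd : σ I.d = I.c := by
    simp [σ, Equiv.swap_apply_of_ne_of_ne I.hde I.hld.symm]
  have se : σ I.e = I.l := by
    simp [σ, Equiv.swap_apply_of_ne_of_ne I.hlc I.hld]
  have hsq := D.flip_sq I.hde
  -- conjugation by the monomial element
  have key : ∀ p q : Fin n, p = I.c ∧ q = I.d ∨ p = I.d ∧ q = I.c → ∃ s : F, (s = 1 ∨ s = -1) ∧
      ∀ u, π m * xr I π g p q u * (π m)⁻¹ = xr I π g p q (s * u) := by
    intro p q hpq
    have hpq' : p ≠ q := by
      rcases hpq with ⟨rfl, rfl⟩ | ⟨rfl, rfl⟩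
      · exact I.hcd
      · exact I.hcd.symm
    have hpe : I.e ≠ p ∧ I.e ≠ q ∧ I.l ≠ p ∧ I.l ≠ q := by
      rcases hpq with ⟨rfl, rfl⟩ | ⟨rfl, rfl⟩ <;> simp [I.hce.symm, I.hde.symm, I.hlc, I.hld]
    obtain ⟨s, hs, h'⟩ := D.signed_flip_root hm hpq' I.hde
    refine ⟨-s, by rcases hs with e | e <;> simp [e], fun u => ?_⟩
    rw [D.xr_eq hpq' hpe.1 hpe.2.1 I.hde.symm, h', sd, se, D.xr_eq hpq' hpe.2.2.1 hpe.2.2.2 I.hld]
    have hcl : I.c ≠ I.l := I.hlc.symm
    rw [← D.flip_mul I.hcd hcl I.hld.symm]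
    have hc := (D.flip_comm I.hcd I.hld.symm).eq
    calc Φ I.c I.d * Φ I.d I.l * rootsOf π (σ p) (σ q) (s * u) * (Φ I.c I.d * Φ I.d I.l)
        = Φ I.d I.l * Φ I.c I.d * rootsOf π (σ p) (σ q) (s * u) * (Φ I.c I.d * Φ I.d I.l) := by rw [hc]
      _ = Φ I.d I.l * (Φ I.c I.d * rootsOf π (σ p) (σ q) (s * u) * Φ I.c I.d) * Φ I.d I.l := by group
      _ = _ := by
        congr 2
        rcases hpq with ⟨rfl, rfl⟩ | ⟨rfl, rfl⟩
        · rw [sc, sd, D.flip_symm, D.flip_root_in I.hcd.symm, neg_mul]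
        · rw [sc, sd, D.flip_root_in I.hcd, neg_mul]
  obtain ⟨s1, hs1, hk1⟩ := key I.c I.d (Or.inl ⟨rfl, rfl⟩)
  obtain ⟨s2, hs2, hk2⟩ := key I.d I.c (Or.inr ⟨rfl, rfl⟩)
  obtain ⟨r1, hr1, hr⟩ := D.signed_root hm I.hcd
  have hss : ∀ {s : F}, s = 1 ∨ s = -1 → ∀ x, s * (s * x) = x := fun {s} hs x => by
    rcases hs with rfl | rfl <;> simp
  have h3 : ∀ t u, Commute (rootsOf π I.d I.c t) (xr I π g I.c I.d u) := fun t u => by
    have h := Commute.conj (D.comm_cd (r1 * t) (s1 * u)) (π m)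
    rwa [hk1, hr, sc, sd, hss hr1, hss hs1] at h
  have h2 : ∀ t u, Commute (rootsOf π I.c I.d t) (xr I π g I.d I.c u) := fun t u => by
    have h := commute_conj_sq hsq (h3 u t)
    rw [D.xr_eq I.hcd I.hce.symm I.hde.symm I.hde.symm, conj_sq_sq hsq] at h
    rw [D.xr_eq I.hcd.symm I.hde.symm I.hce.symm I.hde.symm]
    exact h.symm
  refine ⟨D.comm_cd t u, h2 t u, h3 t u, ?_⟩
  have h := Commute.conj (h2 (r1 * t) (s2 * u)) (π m)
  rwa [hk2, hr, sc, sd, hss hr1, hss hs2] at h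

theorem comm_split {i j k : Fin n} (hij : i ≠ j) (hik : i ≠ k) (hjk : j ≠ k) (hid : i ≠ I.d) (hjd : j ≠ I.d)
    (hkd : k ≠ I.d) (h4 : n = 4) (t u : F) :
    Commute (rootsOf π i j t) (xr I π g k I.d u) ∧ Commute (rootsOf π i j t) (xr I π g I.d k u) := by
  have main : ∀ {i j : Fin n}, i ≠ j → i ≠ k → j ≠ k → i ≠ I.d → j ≠ I.d → ∀ t u,
      Commute (rootsOf π i j t) (xr I π g k I.d u) := by
    intro i j hij hik hjk hid hjd t u
    have hinj : Function.Injective ![i, j, k, I.d] := by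
      intro x y e
      fin_cases x <;> fin_cases y <;> simp_all
    have hinj' : Function.Injective ![I.e, I.l, I.c, I.d] := by
      intro x y e
      have := I.hle; have := I.hce; have := I.hde; have := I.hlc; have := I.hld; have := I.hcd
      fin_cases x <;> fin_cases y <;> simp_all
    obtain ⟨σ, hσ⟩ := Cfsg.Agent.ShortPres.exists_perm_tuple ![I.e, I.l, I.c, I.d] ![i, j, k, I.d] hinj' hinj
    have se : σ I.e = i := hσ 0
    have sl : σ I.l = j := hσ 1
    have sc : σ I.c = k := hσ 2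
    have sd : σ I.d = I.d := hσ 3
    obtain ⟨m, hm⟩ := exists_signed (F := F) σ
    obtain ⟨r1, hr1, hr⟩ := D.signed_root hm I.hle.symm
    obtain ⟨s, hs, hk⟩ := D.signed_flip_root hm I.hcd I.hde
    have h := Commute.conj (D.comm_el h4 (r1 * t) (s * u)) (π m)
    rw [D.xr_eq I.hcd I.hce.symm I.hde.symm I.hde.symm, hr, hk, se, sl, sc, sd] at h
    rw [D.xr_eq hkd hik hid hid]
    have hss : ∀ {s : F}, s = 1 ∨ s = -1 → ∀ x, s * (s * x) = x := fun {s} hs x => by
      rcases hs with rfl | rfl <;> simp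
    rwa [hss hr1, hss hs] at h
  refine ⟨main hij hik hjk hid hjd t u, ?_⟩
  have h := commute_conj_sq (D.flip_sq hkd) (main hij hik hjk hid hjd t (-u))
  rw [D.flip_root_out hkd hij hik hid hjk hjd] at h
  rw [D.xr_eq hkd hik hid hid] at h
  rw [D.xr_eq hkd.symm hid hik hid]
  have hc := (D.flip_comm hkd hid.symm).eq
  have e : Φ k I.d * (Φ I.d i * rootsOf π k I.d (-u) * Φ I.d i) * Φ k I.d =
      Φ I.d i * rootsOf π I.d k u * Φ I.d i := by
    calc Φ k I.d * (Φ I.d i * rootsOf π k I.d (-u) * Φ I.d i) * Φ k I.d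
        = (Φ k I.d * Φ I.d i) * rootsOf π k I.d (-u) * (Φ I.d i * Φ k I.d) := by group
      _ = (Φ I.d i * Φ k I.d) * rootsOf π k I.d (-u) * (Φ k I.d * Φ I.d i) := by rw [hc]
      _ = Φ I.d i * (Φ k I.d * rootsOf π k I.d (-u) * Φ k I.d) * Φ I.d i := by group
      _ = _ := by rw [D.flip_root_in hkd, neg_neg]
  rwa [e] at h

theorem sys_xr : Spec.StPres.Sys F n (xr I π g) where
  add i j h t u := by
    obtain ⟨z, h1, h2, h3⟩ := D.exists_three i j I.d
    rw [D.xr_eq h h1 h2 h3, D.xr_eq h h1 h2 h3, D.xr_eq h h1 h2 h3, conj_sq_mul (D.flip_sq h3.symm),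
      (sys_rootsOf π).add i j h]
  comm0 i j k l hij hkl hil hjk t u := by
    by_cases hd : (i ≠ I.d ∧ j ≠ I.d) ∧ (k ≠ I.d ∧ l ≠ I.d)
    · rw [D.xr_out hij hd.1.1 hd.1.2, D.xr_out hkl hd.2.1 hd.2.2]
      exact (sys_rootsOf π).comm0 i j k l hij hkl hil hjk t u
    by_cases hz : ∃ z, (z ≠ i ∧ z ≠ j) ∧ (z ≠ k ∧ z ≠ l) ∧ z ≠ I.d
    · obtain ⟨z, ⟨a, b⟩, ⟨c, d⟩, e⟩ := hz
      rw [D.xr_eq hij a b e, D.xr_eq hkl c d e, conj_sq_mul (D.flip_sq e.symm), conj_sq_mul (D.flip_sq e.symm),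
        (sys_rootsOf π).comm0 i j k l hij hkl hil hjk t u]
    simp only [not_exists, not_and] at hz
    have hcard : n ≤ ({i, j, k, l} : Finset (Fin n)).card := by
      have : (Finset.univ : Finset (Fin n)) ⊆ {i, j, k, l} := fun z _ => by
        by_contra hc
        simp only [Finset.mem_insert, Finset.mem_singleton, not_or] at hc
        refine hz z ⟨hc.1, hc.2.1⟩ ⟨hc.2.2.1, hc.2.2.2⟩ ?_
        intro e
        subst e
        exact hd ⟨⟨Ne.symm hc.1, Ne.symm hc.2.1⟩, Ne.symm hc.2.2.1, Ne.symm hc.2.2.2⟩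
      simpa using Finset.card_le_card this
    have hn := I.hn
    have h4 : n = 4 := le_antisymm (hcard.trans (by
      refine (Finset.card_insert_le _ _).trans (Nat.succ_le_succ ?_)
      exact Finset.card_le_three)) hn
    have hik : i ≠ k := fun e => by
      subst e
      have : ({i, j, i, l} : Finset (Fin n)).card ≤ 3 := by
        rw [show ({i, j, i, l} : Finset (Fin n)) = {i, j, l} by ext x; simp; tauto]
        exact Finset.card_le_three
      omega
    have hjl : j ≠ l := fun e => by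
      subst e
      have : ({i, j, k, j} : Finset (Fin n)).card ≤ 3 := by
        rw [show ({i, j, k, j} : Finset (Fin n)) = {i, j, k} by ext x; simp; tauto]
        exact Finset.card_le_three
      omega
    by_cases hi : i = I.d
    · subst hi
      rw [D.xr_out hkl hik.symm hil.symm]
      exact ((D.comm_split hkl hjk.symm hjl.symm hik.symm hil.symm hij.symm h4 u t).2).symm.eq
    by_cases hj : j = I.d
    · subst hj
      rw [D.xr_out hkl hjk.symm hjl.symm]
      exact ((D.comm_split hkl hik.symm hil.symm hjk.symm hjl.symm hij h4 u t).1).symm.eq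
    rw [D.xr_out hij hi hj]
    by_cases hk : k = I.d
    · subst hk
      exact ((D.comm_split hij hil hjl hi hj hkl.symm h4 t u).2).eq
    by_cases hl : l = I.d
    · subst hl
      exact ((D.comm_split hij hik hjk hi hj hkl h4 t u).1).eq
    exact absurd ⟨⟨hi, hj⟩, hk, hl⟩ hd
  comm1 i j l hij hjl hil t u := by
    by_cases hd : i ≠ I.d ∧ j ≠ I.d ∧ l ≠ I.d
    · rw [D.xr_out hij hd.1 hd.2.1, D.xr_out hjl hd.2.1 hd.2.2, D.xr_out hil hd.1 hd.2.2]
      exact (sys_rootsOf π).comm1 i j l hij hjl hil t u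
    obtain ⟨z, hz⟩ := D.exists_other {i, j, l} (lt_of_le_of_lt Finset.card_le_three (by have := I.hn; omega))
    simp only [Finset.mem_insert, Finset.mem_singleton, not_or] at hz
    obtain ⟨a, b, c⟩ := hz
    have e : z ≠ I.d := fun e => by
      subst e; exact hd ⟨Ne.symm a, Ne.symm b, Ne.symm c⟩
    have hsq := D.flip_sq e.symm
    rw [D.xr_eq hij a b e, D.xr_eq hjl b c e, D.xr_eq hil a c e, conj_sq_mul hsq, conj_sq_mul hsq,
      conj_sq_mul hsq, (sys_rootsOf π).comm1 i j l hij hjl hil t u]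

/-- The second copy of the special linear group. -/
theorem exists_second : ∃ π₂ : SL(n, F) →* Y, ∀ p q, p ≠ q → ∀ t, rootsOf π₂ p q t = xr I π g p q t := by
  obtain ⟨f, hf⟩ := Cfsg.Agent.Spec.StPres.exists_hom (by have := I.hn; omega) D.sys_xr
  exact ⟨f, fun p q h t => by rw [rootsOf_eq f h, hf]⟩

theorem dpair {π₂ : SL(n, F) →* Y} (h₂ : ∀ p q, p ≠ q → ∀ t, rootsOf π₂ p q t = xr I π g p q t) :
    DPair π π₂ I.b I.c I.d where
  hn := I.hn
  hbc := I.hbc
  hbd := I.hbd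
  hcd := I.hcd
  last := I.last
  succ := I.succ
  agree p q h hp hq t := by rw [h₂ p q h, D.xr_out h hp hq]
  comm t u := by
    rw [h₂ _ _ I.hcd, h₂ _ _ I.hcd.symm]
    exact D.comm_four t u

end Data

end Cfsg.Agent.OmegaPres
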