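import Cfsg.Agent.OmegaPres.Gens
import Cfsg.Agent.OmegaPres.Image
import Cfsg.Agent.ShortPres.Counts

/-!
Presentations of the plus type orthogonal groups.
-/

set_option autoImplicit false
set_option linter.unusedSectionVars false

namespace Cfsg.Agent.OmegaPres

open Matrix Cfsg.Agent.CTits Cfsg.Agent.GKKL
open scoped MatrixGroups

universe u

variable {F : Type u} [Field F] [Finite F] {n : ℕ}

theorem exists_idx (hn : 4 ≤ n) : Nonempty (Idx n) := by
  have ne : ∀ a b : ℕ, ∀ (ha : a < n) (hb : b < n), a ≠ b → (⟨a, ha⟩ : Fin n) ≠ ⟨b, hb⟩ :=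
    fun a b ha hb h e => h (congrArg Fin.val e)
  exact ⟨{
    b := ⟨n - 3, by omega⟩, c := ⟨n - 2, by omega⟩, d := ⟨n - 1, by omega⟩, e := ⟨n - 3, by omega⟩,
    l := ⟨0, by omega⟩, hn := hn
    hbc := ne _ _ _ _ (by omega), hbd := ne _ _ _ _ (by omega), hcd := ne _ _ _ _ (by omega)
    hce := ne _ _ _ _ (by omega), hde := ne _ _ _ _ (by omega), hlc := ne _ _ _ _ (by omega)
    hld := ne _ _ _ _ (by omega), hle := ne _ _ _ _ (by omega)
    last := fun i => Fin.le_def.2 (by simp only; have := i.isLt; omega)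
    succ := by simp only; omega }⟩

/-- The image of the matrices is the commutator subgroup. -/
noncomputable def toOmega (F : Type u) [Field F] (n : ℕ) :
    Cfsg.Omega F (Cfsg.quadFormPlus n F) ≃* omegaMat F n :=
  Subgroup.equivMapOfInjective _ _ (Subgroup.subtype_injective _)

/-- A presentation of the special linear group and one exchange element. -/
theorem pres (hn : 4 ≤ n) {k r : ℕ} {w : Fin k → SL(n, F)} (h : HasPres w r) :
    ∃ v : Fin (k + 1) → Cfsg.Omega F (Cfsg.quadFormPlus n F),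
      HasPres v (r + (if n = 4 then 7 else 6)) := by
  classical
  obtain ⟨I⟩ := exists_idx hn
  obtain ⟨a, ha, hCle⟩ := exists_four (F := F) I
  choose a' ha' using fun i => exists_R I (ha i)
  have hgen := ShortPres.closure_range_of_hasPres h
  obtain ⟨rels, hcard, e, he⟩ := h
  let W : SL(n, F) → FreeGroup (Fin (k + 1)) := fun A =>
    FreeGroup.map Fin.castSucc (Function.invFun (FreeGroup.lift w) A)
  let G : FreeGroup (Fin (k + 1)) := FreeGroup.of (Fin.last k)
  have hval : ∀ {P : Type u} [Group P] (π : SL(n, F) →* P) (ψ : FreeGroup (Fin (k + 1)) →* P),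
      (∀ i, ψ (FreeGroup.of (Fin.castSucc i)) = π (w i)) → ∀ A, ψ (W A) = π A := by
    intro P _ π ψ hψ A
    have h1 : ∀ x, ψ (FreeGroup.map Fin.castSucc x) = π (FreeGroup.lift w x) := fun x =>
      DFunLike.congr_fun (FreeGroup.ext_hom (ψ.comp (FreeGroup.map Fin.castSucc))
        (π.comp (FreeGroup.lift w)) fun i => by simp [hψ]) x
    conv_rhs => rw [← ShortPres.lift_invFun hgen A]
    exact h1 _
  -- the model
  set g₀ := gMat F I.d I.e I.hde with hg₀
  have D₀ := model_data (F := F) I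
  obtain ⟨m, m', σ, σ', hm, hm', s1, s2, s3, s4, hw1⟩ := D₀.w1
  let Tcd : SL(n, F) := SpecialLinearGroup.transvection I.hcd 1
  let Tel : SL(n, F) := SpecialLinearGroup.transvection I.hle.symm 1
  let cw : FreeGroup (Fin (k + 1)) → FreeGroup (Fin (k + 1)) → FreeGroup (Fin (k + 1)) :=
    fun x y => x * y * (y * x)⁻¹
  let extra : List (FreeGroup (Fin (k + 1))) :=
    [G * W (a 0) * (W (a' 0) * G)⁻¹, G * W (a 1) * (W (a' 1) * G)⁻¹, G * W (a 2) * (W (a' 2) * G)⁻¹,
      G * W (a 3) * (W (a' 3) * G)⁻¹, G * (W m * G * (W m)⁻¹) * (W m' * G * (W m')⁻¹)⁻¹,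
      cw (W Tcd) (G * W Tcd * G⁻¹)] ++ if n = 4 then [cw (W Tel) (G * W Tcd * G⁻¹)] else []
  let R : Finset (FreeGroup (Fin (k + 1))) := rels.image (FreeGroup.map Fin.castSucc) ∪ extra.toFinset
  have hR : R.card ≤ r + (if n = 4 then 7 else 6) := by
    refine (Finset.card_union_le _ _).trans (Nat.add_le_add (Finset.card_image_le.trans hcard) ?_)
    refine (List.toFinset_card_le _).trans ?_
    simp only [extra, List.length_append, List.length_cons, List.length_nil]
    split_ifs <;> simp
  let v₀ : Fin (k + 1) → GL (BI n) F := Fin.snoc (fun i => L1 n F (w i)) g₀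
  have hG₀ : FreeGroup.lift v₀ G = g₀ := by simp [G, v₀]
  have hW₀ : ∀ A, FreeGroup.lift v₀ (W A) = L1 n F A := hval (L1 n F) (FreeGroup.lift v₀) fun i => by simp [v₀]
  have hlift : ∀ x, e (PresentedGroup.mk _ x) = FreeGroup.lift w x := fun x =>
    DFunLike.congr_fun (FreeGroup.ext_hom (e.toMonoidHom.comp (PresentedGroup.mk _))
      (FreeGroup.lift w) fun i => by
        simp only [MonoidHom.comp_apply, FreeGroup.lift_apply_of]
        exact he i) x
  have htrue : ∀ ρ ∈ (↑R : Set (FreeGroup (Fin (k + 1)))), FreeGroup.lift v₀ ρ = 1 := by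
    intro ρ hρ
    simp only [R, Finset.coe_union, Set.mem_union, Finset.coe_image, Set.mem_image, Finset.mem_coe,
      List.mem_toFinset] at hρ
    rcases hρ with ⟨x, hx, rfl⟩ | hρ
    · rw [show FreeGroup.lift v₀ (FreeGroup.map Fin.castSucc x) = L1 n F (FreeGroup.lift w x) from
        DFunLike.congr_fun (FreeGroup.ext_hom ((FreeGroup.lift v₀).comp (FreeGroup.map Fin.castSucc))
          ((L1 n F).comp (FreeGroup.lift w)) fun i => by simp [v₀]) x,
        ← hlift, PresentedGroup.one_of_mem hx, map_one, map_one]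
    · have hc : ∀ i, FreeGroup.lift v₀ (G * W (a i) * (W (a' i) * G)⁻¹) = 1 := fun i => by
        rw [map_mul, map_inv, map_mul, map_mul, hG₀, hW₀, hW₀, mul_inv_eq_one]
        exact D₀.cC _ _ (ha i) (ha' i)
      rcases List.mem_append.1 hρ with hρ | hρ
      · simp only [List.mem_cons, List.not_mem_nil, or_false] at hρ
        rcases hρ with rfl | rfl | rfl | rfl | rfl | rfl
        · exact hc 0
        · exact hc 1
        · exact hc 2
        · exact hc 3
        · simp only [map_mul, map_inv, hG₀, hW₀]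
          rw [mul_inv_eq_one]
          exact hw1
        · simp only [cw, map_mul, map_inv, hG₀, hW₀]
          rw [mul_inv_eq_one]
          exact D₀.r6.eq
      · split_ifs at hρ with h4
        · rw [List.mem_singleton.1 hρ]
          simp only [cw, map_mul, map_inv, hG₀, hW₀]
          rw [mul_inv_eq_one]
          exact (D₀.r7 h4).eq
        · simp at hρ
  -- the presented group
  let mk := PresentedGroup.mk (↑R : Set (FreeGroup (Fin (k + 1))))
  have hπrel : ∀ x ∈ (↑rels : Set (FreeGroup (Fin k))),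
      FreeGroup.lift (fun i => mk (FreeGroup.of (Fin.castSucc i))) x = 1 := by
    intro x hx
    rw [show FreeGroup.lift (fun i => mk (FreeGroup.of (Fin.castSucc i))) x =
        mk (FreeGroup.map Fin.castSucc x) from
      DFunLike.congr_fun (FreeGroup.ext_hom (FreeGroup.lift fun i => mk (FreeGroup.of (Fin.castSucc i)))
        (mk.comp (FreeGroup.map Fin.castSucc)) fun i => by simp) x]
    exact PresentedGroup.one_of_mem (Finset.mem_coe.2
      (Finset.mem_union_left _ (Finset.mem_image_of_mem _ hx)))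
  let π : SL(n, F) →* PresentedGroup (↑R : Set (FreeGroup (Fin (k + 1)))) :=
    (PresentedGroup.toGroup hπrel).comp e.symm.toMonoidHom
  have hπw : ∀ i, mk (FreeGroup.of (Fin.castSucc i)) = π (w i) := fun i => by
    show mk (FreeGroup.of (Fin.castSucc i)) = PresentedGroup.toGroup hπrel (e.symm (w i))
    rw [← he, MulEquiv.symm_apply_apply, PresentedGroup.toGroup.of]
  have hW : ∀ A, mk (W A) = π A := fun A => by
    have h1 : ∀ x, mk (FreeGroup.map Fin.castSucc x) = π (FreeGroup.lift w x) := fun x =>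
      DFunLike.congr_fun (FreeGroup.ext_hom (mk.comp (FreeGroup.map Fin.castSucc))
        (π.comp (FreeGroup.lift w)) fun i => by simp [hπw]) x
    conv_rhs => rw [← ShortPres.lift_invFun hgen A]
    exact h1 _
  let E : PresentedGroup (↑R : Set (FreeGroup (Fin (k + 1)))) →* GL (BI n) F := PresentedGroup.toGroup htrue
  have hE : E.comp π = L1 n F := MonoidHom.eq_of_eqOn_dense hgen (by
    rintro _ ⟨i, rfl⟩
    show E (π (w i)) = L1 n F (w i)
    rw [← hπw i]
    exact (PresentedGroup.toGroup.of htrue).trans (by simp [v₀]))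
  set g := mk G with hg
  have hEg : E g = g₀ := (PresentedGroup.toGroup.of htrue).trans (by simp [v₀])
  have hrel : ∀ x ∈ extra, mk x = 1 := fun x hx => PresentedGroup.one_of_mem (Finset.mem_coe.2
    (Finset.mem_union_right _ (List.mem_toFinset.2 hx)))
  have h4 : ∀ i, g * π (a i) = π (a' i) * g := by
    intro i
    have : mk (G * W (a i) * (W (a' i) * G)⁻¹) = 1 := hrel _ (by fin_cases i <;> simp [extra])
    rwa [map_mul, map_inv, map_mul, map_mul, hW, hW, mul_inv_eq_one] at this
  have D : Data I π g := by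
    refine ⟨fun A A' hA hR => ?_, ⟨m, m', σ, σ', hm, hm', s1, s2, s3, s4, ?_⟩, ?_, fun hn4 => ?_⟩
    · let H : Subgroup SL(n, F) :=
        { carrier := {A | ∃ A', OmegaPres.R I.d I.e A A' ∧ g * π A = π A' * g}
          one_mem' := ⟨1, OmegaPres.R.one, by simp⟩
          mul_mem' := by
            rintro x y ⟨x', h1, h2⟩ ⟨y', h3, h4⟩
            refine ⟨x' * y', h1.mul h3, ?_⟩
            rw [map_mul, map_mul, ← mul_assoc, h2, mul_assoc, h4, mul_assoc]
          inv_mem' := by
            rintro x ⟨x', h1, h2⟩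
            refine ⟨x'⁻¹, h1.inv, ?_⟩
            rw [map_inv, map_inv, eq_inv_mul_iff_mul_eq, ← mul_assoc, ← h2, mul_inv_cancel_right] }
      have hle : Cgrp F I ≤ H := hCle.trans ((Subgroup.closure_le _).2 (by
        rintro _ ⟨i, rfl⟩
        exact ⟨_, ha' i, h4 i⟩))
      obtain ⟨A'', h1, h2⟩ := hle hA
      rwa [hR.unique h1]
    · have := hrel _ (show G * (W m * G * (W m)⁻¹) * (W m' * G * (W m')⁻¹)⁻¹ ∈ extra by simp [extra])
      simp only [map_mul, map_inv, hW] at this
      rwa [mul_inv_eq_one] at this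
    · have := hrel _ (show cw (W Tcd) (G * W Tcd * G⁻¹) ∈ extra by simp [extra])
      simp only [cw, map_mul, map_inv, hW] at this
      rwa [mul_inv_eq_one] at this
    · have := hrel _ (show cw (W Tel) (G * W Tcd * G⁻¹) ∈ extra by simp [extra, hn4])
      simp only [cw, map_mul, map_inv, hW] at this
      rwa [mul_inv_eq_one] at this
  obtain ⟨π₂, hπ₂⟩ := D.exists_second
  have S : Second I π π₂ g := ⟨D, hπ₂⟩
  have M : Model I π g E := ⟨hE, fun x y => by rw [hEg]; rfl⟩
  have hY : Subgroup.closure (Set.range π ∪ {g}) = ⊤ := by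
    rw [eq_top_iff, ← PresentedGroup.closure_range_of, Subgroup.closure_le]
    rintro _ ⟨i, rfl⟩
    refine Fin.lastCases ?_ (fun j => ?_) i
    · exact Subgroup.subset_closure (Or.inr rfl)
    · exact Subgroup.subset_closure (Or.inl ⟨w j, (hπw j).symm⟩)
  have hinj := S.injective M hY
  have hrange : E.range = omegaMat F n := by
    rw [← closure_model I, MonoidHom.range_eq_map, ← hY, MonoidHom.map_closure, Set.image_union, Set.image_singleton,
      hEg, ← Set.range_comp, ← MonoidHom.coe_comp, hE]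
  let iso : PresentedGroup (↑R : Set (FreeGroup (Fin (k + 1)))) ≃* Cfsg.Omega F (Cfsg.quadFormPlus n F) :=
    (MonoidHom.ofInjective hinj).trans ((MulEquiv.subgroupCongr hrange).trans (toOmega F n).symm)
  exact ⟨fun i => iso (PresentedGroup.of i), R, hR, iso, fun i => rfl⟩

/-- The centre of the group is cyclic. -/
theorem isCyclic_center (hn : 3 ≤ n) :
    IsCyclic (Subgroup.center (Cfsg.Omega F (Cfsg.quadFormPlus n F))) := by
  classical
  let o : DType.I n := Sum.inl ⟨0, by omega⟩
  let f : Subgroup.center (Cfsg.Omega F (Cfsg.quadFormPlus n F)) →* F :=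
    { toFun := fun z => DType.mat z.1.1 o o
      map_one' := by
        show (1 : Matrix (DType.I n) (DType.I n) F) o o = 1
        simp
      map_mul' := fun x y => by
        obtain ⟨c, -, hc⟩ := (DType.mem_center_iff hn x.1).1 x.2
        obtain ⟨d, -, hd⟩ := (DType.mem_center_iff hn y.1).1 y.2
        show (DType.mat x.1.1 * DType.mat y.1.1) o o = DType.mat x.1.1 o o * DType.mat y.1.1 o o
        rw [hc, hd]
        simp [mul_comm] }
  refine isCyclic_of_subgroup_isDomain f fun x y hxy => ?_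
  obtain ⟨c, -, hc⟩ := (DType.mem_center_iff hn x.1).1 x.2
  obtain ⟨d, -, hd⟩ := (DType.mem_center_iff hn y.1).1 y.2
  have : c = d := by
    have h : DType.mat x.1.1 o o = DType.mat y.1.1 o o := hxy
    rw [hc, hd] at h
    simpa using h
  exact Subtype.ext (Subtype.ext (DType.mat_inj (by rw [hc, hd, this])))

/-- Eight generators: the group and its central quotient. -/
theorem eight (hn : 4 ≤ n) {r : ℕ} {v : Fin 8 → Cfsg.Omega F (Cfsg.quadFormPlus n F)} (h : HasPres v r) :
    (∃ rels : Finset (FreeGroup (Fin 8)), rels.card ≤ r ∧ Nonempty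
      (PresentedGroup (↑rels : Set (FreeGroup (Fin 8))) ≃* ↥(Cfsg.Omega F (Cfsg.quadFormPlus n F)))) ∧
    ∃ rels : Finset (FreeGroup (Fin 8)), rels.card ≤ r + 1 ∧ Nonempty
      (PresentedGroup (↑rels : Set (FreeGroup (Fin 8))) ≃* Cfsg.POmega F (Cfsg.quadFormPlus n F)) := by
  have := isCyclic_center (F := F) (n := n) (by omega)
  obtain ⟨rels, hc, e, -⟩ := id h
  obtain ⟨rels', hc', e', -⟩ := ShortPres.hasPres_quot h
    (Subgroup.center (Cfsg.Omega F (Cfsg.quadFormPlus n F)))
  exact ⟨⟨rels, hc, ⟨e⟩⟩, rels', hc', ⟨e'⟩⟩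

theorem omega_eight (hn : 4 ≤ n) :
    ∃ v : Fin 8 → Cfsg.Omega F (Cfsg.quadFormPlus n F), HasPres v (if n ≤ 5 then 29 else 31) := by
  have pad : ∀ {k r : ℕ} {v : Fin k → Cfsg.Omega F (Cfsg.quadFormPlus n F)}, HasPres v r → k ≤ 8 →
      ∃ v' : Fin 8 → Cfsg.Omega F (Cfsg.quadFormPlus n F), HasPres v' (r + (8 - k)) := by
    intro k r v hv hk
    obtain ⟨w', hw'⟩ := ShortPres.hasPres_pad hv (8 - k)
    have e : k + (8 - k) = 8 := by omega
    generalize k + (8 - k) = t at e w' hw'
    subst e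
    exact ⟨w', hw'⟩
  rcases (show n = 4 ∨ n = 5 ∨ 6 ≤ n by omega) with rfl | rfl | h6
  · obtain ⟨w, hw⟩ := ShortPres.sl_four (F := F)
    obtain ⟨v, hv⟩ := pres hn hw
    obtain ⟨v', hv'⟩ := pad hv (by omega)
    exact ⟨v', hv'.mono (by norm_num)⟩
  · obtain ⟨w, hw⟩ := ShortPres.sl_five (F := F)
    obtain ⟨v, hv⟩ := pres hn hw
    obtain ⟨v', hv'⟩ := pad hv (by omega)
    exact ⟨v', hv'.mono (by norm_num)⟩
  · obtain ⟨k, hk, w, r, hr, hw⟩ := ShortPres.sl_general (F := F) n h6
    obtain ⟨v, hv⟩ := pres hn hw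
    obtain ⟨v', hv'⟩ := pad hv (by omega)
    refine ⟨v', hv'.mono ?_⟩
    rw [if_neg (by omega), if_neg (by omega)]
    omega

end Cfsg.Agent.OmegaPres
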