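import Cfsg.Agent.OmegaPres.Pair

/-!
Every root subgroup is a flipped transvection subgroup, and flips permute root subgroups.
-/

set_option autoImplicit false
set_option linter.unusedSectionVars false

namespace Cfsg.Agent.OmegaPres

open Matrix Cfsg.Agent.CTits
open scoped MatrixGroups

universe u v

variable {F : Type u} [Field F] [Finite F] {n : ℕ} {Y : Type v} [Group Y]

theorem dualSL_signed {m : SL(n, F)} {σ : Equiv.Perm (Fin n)} (hm : Signed m σ) : dualSL m = m := by
  obtain ⟨v, hv, hmono⟩ := hm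
  have hd := DPair.mono_dual hmono hmono.ne_zero
  refine Subtype.ext (Matrix.ext fun p q => ?_)
  rw [hd p q, hmono p q]
  rcases hv q with e | e <;> simp [e]

/-- The two root systems of the pair. -/
structure Second (I : Idx n) (π π₂ : SL(n, F) →* Y) (g : Y) : Prop where
  data : Data I π g
  spec : ∀ p q, p ≠ q → ∀ t, rootsOf π₂ p q t = xr I π g p q t

/-- A signed permutation acting on roots. -/
def flipRoot {n : ℕ} (a b : Fin n) : DRoot n → DRoot n
  | .ee i j => if (i = a ∨ i = b) ↔ (j = a ∨ j = b) then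
      (if i = a ∨ i = b then .ee j i else .ee i j)
    else if i = a ∨ i = b then (if i < j then .mm i j else .mm j i)
    else (if i < j then .pp i j else .pp j i)
  | .pp i j => if (i = a ∨ i = b) ↔ (j = a ∨ j = b) then
      (if i = a ∨ i = b then .mm i j else .pp i j)
    else if i = a ∨ i = b then .ee j i else .ee i j
  | .mm i j => if (i = a ∨ i = b) ↔ (j = a ∨ j = b) then
      (if i = a ∨ i = b then .pp i j else .mm i j)
    else if i = a ∨ i = b then .ee i j else .ee j i

theorem flipRoot_val (a b : Fin n) {r : DRoot n} (hr : r.val) :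
    (flipRoot a b r).val ∧ flipRoot a b r.neg = (flipRoot a b r).neg := by
  cases r with
  | ee i j =>
    simp only [DRoot.val] at hr
    simp only [flipRoot, DRoot.neg]
    rcases lt_or_gt_of_ne hr with h | h <;>
      by_cases hi : i = a ∨ i = b <;> by_cases hj : j = a ∨ j = b <;>
        simp [hi, hj, DRoot.val, DRoot.neg, h, h.not_gt, hr, hr.symm]
  | pp i j =>
    simp only [DRoot.val] at hr
    simp only [flipRoot, DRoot.neg]
    by_cases hi : i = a ∨ i = b <;> by_cases hj : j = a ∨ j = b <;>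
      simp [hi, hj, DRoot.val, DRoot.neg, hr, hr.ne, hr.ne']
  | mm i j =>
    simp only [DRoot.val] at hr
    simp only [flipRoot, DRoot.neg]
    by_cases hi : i = a ∨ i = b <;> by_cases hj : j = a ∨ j = b <;>
      simp [hi, hj, DRoot.val, DRoot.neg, hr, hr.ne, hr.ne']

namespace Second

variable {I : Idx n} {π π₂ : SL(n, F) →* Y} {g : Y} (S : Second I π π₂ g)

local notation "Φ" => flipE I π g

include S

theorem dpair : DPair π π₂ I.b I.c I.d := S.data.dpair S.spec

theorem pos_root_eq {i j z : Fin n} (hij : i ≠ j) (hzi : z ≠ i) (hzj : z ≠ j) (t : F) :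
    DY π π₂ I.c I.d i j t = Φ j z * rootsOf π i j t * Φ j z := by
  have D := S.data
  obtain ⟨m, σ, hm, sd, se, sc⟩ := exists_to_three (F := F) I hzj.symm hij.symm hzi
  obtain ⟨v, hv, hmono⟩ := id hm
  have hsq : ∀ q, v q * v q = 1 := fun q => by rcases hv q with e | e <;> simp [e]
  have hact : t • biv F i j = act m ((t * (v I.c * v I.d)) • biv F I.c I.d) := by
    rw [act_smul, DPair.mono_act hmono, smul_smul, sc, sd, mul_assoc,
      show v I.c * v I.d * (v I.c * v I.d) = 1 by rw [mul_mul_mul_comm, hsq, hsq, mul_one], mul_one]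
  rw [DY, hact, S.dpair.siegel.Y_act, S.dpair.siegel.Y_base, S.spec _ _ I.hcd,
    D.xr_eq I.hcd I.hce.symm I.hde.symm I.hde.symm]
  have h1 : π m * rootsOf π I.c I.d (t * (v I.c * v I.d)) * (π m)⁻¹ = rootsOf π i j t := by
    rw [rootsOf_eq π I.hcd, ← map_mul, DPair.mono_T hmono I.hcd _ (hmono.ne_zero _), map_mul,
      mul_inv_cancel_right, ← rootsOf_eq π, sc, sd]
    congr 1
    rw [div_eq_iff (hmono.ne_zero _)]
    linear_combination (t * v I.d) * hsq I.c
  have h2 : π m * Φ I.d I.e * (π m)⁻¹ = Φ j z := by rw [D.conj_flip hm I.hde, sd, se]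
  rw [← h1, ← h2]
  group

theorem neg_root_eq {i j z : Fin n} (hij : i ≠ j) (hzi : z ≠ i) (hzj : z ≠ j) (t : F) :
    DY (π.comp dualSL) (π₂.comp dualSL) I.c I.d i j t = Φ j z * rootsOf π j i (-t) * Φ j z := by
  have D := S.data
  obtain ⟨m, σ, hm, sd, se, sc⟩ := exists_to_three (F := F) I hzj.symm hij.symm hzi
  obtain ⟨v, hv, hmono⟩ := id hm
  have hsq : ∀ q, v q * v q = 1 := fun q => by rcases hv q with e | e <;> simp [e]
  have hact : t • biv F i j = act m ((t * (v I.c * v I.d)) • biv F I.c I.d) := by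
    rw [act_smul, DPair.mono_act hmono, smul_smul, sc, sd, mul_assoc,
      show v I.c * v I.d * (v I.c * v I.d) = 1 by rw [mul_mul_mul_comm, hsq, hsq, mul_one], mul_one]
  rw [DY, hact, S.dpair.dual.siegel.Y_act, S.dpair.dual.siegel.Y_base, rootsOf_dual _ I.hcd,
    S.spec _ _ I.hcd.symm, D.xr_eq I.hcd.symm I.hde.symm I.hce.symm I.hde.symm, MonoidHom.comp_apply,
    dualSL_signed hm]
  have h1 : π m * rootsOf π I.d I.c (-(t * (v I.c * v I.d))) * (π m)⁻¹ = rootsOf π j i (-t) := by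
    rw [rootsOf_eq π I.hcd.symm, ← map_mul, DPair.mono_T hmono I.hcd.symm _ (hmono.ne_zero _), map_mul,
      mul_inv_cancel_right, ← rootsOf_eq π, sc, sd]
    congr 1
    rw [div_eq_iff (hmono.ne_zero _)]
    linear_combination (-t * v I.c) * hsq I.d
  have h2 : π m * Φ I.d I.e * (π m)⁻¹ = Φ j z := by rw [D.conj_flip hm I.hde, sd, se]
  rw [← h1, ← h2]
  group

theorem U_pp {i j : Fin n} (hij : i ≠ j) {x : Y} (z : Fin n) (hzi : z ≠ i) (hzj : z ≠ j) (t : F)
    (hx : x = Φ j z * rootsOf π i j t * Φ j z) :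
    x ∈ (if i < j then DRoot.pp i j else DRoot.pp j i).U π π₂ I.c I.d := by
  rw [← S.pos_root_eq hij hzi hzj] at hx
  subst hx
  split_ifs
  · exact ⟨t, rfl⟩
  · refine ⟨-t, ?_⟩
    show DY π π₂ I.c I.d j i (-t) = _
    rw [DY, DY, biv_swap i j, smul_neg, neg_smul, neg_neg]

theorem U_mm {i j : Fin n} (hij : i ≠ j) {x : Y} (z : Fin n) (hzi : z ≠ i) (hzj : z ≠ j) (t : F)
    (hx : x = Φ j z * rootsOf π j i (-t) * Φ j z) :
    x ∈ (if i < j then DRoot.mm i j else DRoot.mm j i).U π π₂ I.c I.d := by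
  rw [← S.neg_root_eq hij hzi hzj] at hx
  subst hx
  split_ifs
  · exact ⟨t, rfl⟩
  · refine ⟨-t, ?_⟩
    show DY (π.comp dualSL) (π₂.comp dualSL) I.c I.d j i (-t) = _
    rw [DY, DY, biv_swap i j, smul_neg, neg_smul, neg_neg]

theorem flip_flip (f : Y) {a b x : Fin n} (hab : a ≠ b) (hax : a ≠ x) (hbx : b ≠ x) :
    Φ a b * (Φ b x * f * Φ b x) * Φ a b = Φ a x * f * Φ a x := by
  have hc := (S.data.flip_comm hab hbx).eq
  calc Φ a b * (Φ b x * f * Φ b x) * Φ a b = Φ a b * Φ b x * f * (Φ b x * Φ a b) := by group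
    _ = _ := by rw [← hc, S.data.flip_mul hab hax hbx]

/-- A flip maps root subgroups to root subgroups. -/
theorem conj_flipRoot {a b : Fin n} (hab : a ≠ b) {r : DRoot n} (hr : r.val) {x : Y}
    (hx : x ∈ r.U π π₂ I.c I.d) : Φ a b * x * Φ a b ∈ (flipRoot a b r).U π π₂ I.c I.d := by
  have D := S.data
  obtain ⟨t, rfl⟩ := hx
  cases r with
  | ee i j =>
    simp only [DRoot.val] at hr
    show Φ a b * rootsOf π i j t * Φ a b ∈ _
    simp only [flipRoot]
    by_cases hi : i = a ∨ i = b <;> by_cases hj : j = a ∨ j = b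
    · rw [if_pos (by simp [hi, hj]), if_pos hi]
      refine ⟨-t, ?_⟩
      show rootsOf π j i (-t) = _
      rcases hi with rfl | rfl <;> rcases hj with rfl | rfl
      · exact absurd rfl hr
      · rw [D.flip_root_in hab]
      · rw [D.flip_symm, D.flip_root_in hr]
      · exact absurd rfl hr
    · rw [if_neg (by simp [hi, hj]), if_pos hi]
      obtain ⟨w, hw⟩ : ∃ w, Φ a b = Φ i w ∧ w ≠ i ∧ w ≠ j := by
        simp only [not_or] at hj
        rcases hi with rfl | rfl
        · exact ⟨b, rfl, hab.symm, Ne.symm hj.2⟩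
        · exact ⟨a, D.flip_symm a i, hab, Ne.symm hj.1⟩
      obtain ⟨hw, hwi, hwj⟩ := hw
      refine S.U_mm hr w hwi hwj t ?_
      rw [hw]
      conv_lhs => rw [show rootsOf π i j t = Φ i j * rootsOf π j i (-t) * Φ i j by
        rw [D.flip_symm, D.flip_root_in hr.symm, neg_neg]]
      rw [D.flip_symm i w, S.flip_flip _ hwi hwj hr, D.flip_symm w j]
    · rw [if_neg (by simp [hi, hj]), if_neg hi]
      obtain ⟨w, hw⟩ : ∃ w, Φ a b = Φ j w ∧ w ≠ i ∧ w ≠ j := by
        simp only [not_or] at hi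
        rcases hj with rfl | rfl
        · exact ⟨b, rfl, Ne.symm hi.2, hab.symm⟩
        · exact ⟨a, D.flip_symm a j, Ne.symm hi.1, hab⟩
      obtain ⟨hw, hwi, hwj⟩ := hw
      exact S.U_pp hr w hwi hwj t (by rw [hw])
    · rw [if_pos (by simp [hi, hj]), if_neg hi]
      simp only [not_or] at hi hj
      exact ⟨t, (D.flip_root_out hab hr hi.1 hi.2 hj.1 hj.2 t).symm⟩
  | pp i j =>
    simp only [DRoot.val] at hr
    show Φ a b * DY π π₂ I.c I.d i j t * Φ a b ∈ _
    simp only [flipRoot]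
    by_cases hi : i = a ∨ i = b <;> by_cases hj : j = a ∨ j = b
    · rw [if_pos (by simp [hi, hj]), if_pos hi]
      obtain ⟨z, hzi, hzj, -⟩ := D.exists_three i j j
      have hw : Φ a b = Φ i j := by
        rcases hi with rfl | rfl <;> rcases hj with rfl | rfl
        · exact absurd rfl hr.ne
        · rfl
        · exact D.flip_symm _ _
        · exact absurd rfl hr.ne
      rw [S.pos_root_eq hr.ne hzi hzj, hw, S.flip_flip _ hr.ne hzi.symm hzj.symm]
      have := S.U_mm hr.ne z hzi hzj t (x := Φ i z * rootsOf π i j t * Φ i z) (by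
        conv_lhs => rw [show rootsOf π i j t = Φ i j * rootsOf π j i (-t) * Φ i j by
          rw [D.flip_symm, D.flip_root_in hr.ne', neg_neg]]
        rw [D.flip_symm i z, S.flip_flip _ hzi hzj hr.ne, D.flip_symm z j])
      rwa [if_pos hr] at this
    · rw [if_neg (by simp [hi, hj]), if_pos hi]
      obtain ⟨w, hw⟩ : ∃ w, Φ a b = Φ i w ∧ w ≠ i ∧ w ≠ j := by
        simp only [not_or] at hj
        rcases hi with rfl | rfl
        · exact ⟨b, rfl, hab.symm, Ne.symm hj.2⟩
        · exact ⟨a, D.flip_symm a i, hab, Ne.symm hj.1⟩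
      obtain ⟨hw, hwi, hwj⟩ := hw
      rw [S.pos_root_eq hr.ne hwi hwj, hw, D.flip_symm j w, S.flip_flip _ hwi.symm hr.ne hwj,
        D.flip_root_in hr.ne]
      exact ⟨-t, rfl⟩
    · rw [if_neg (by simp [hi, hj]), if_neg hi]
      obtain ⟨w, hw⟩ : ∃ w, Φ a b = Φ j w ∧ w ≠ i ∧ w ≠ j := by
        simp only [not_or] at hi
        rcases hj with rfl | rfl
        · exact ⟨b, rfl, Ne.symm hi.2, hab.symm⟩
        · exact ⟨a, D.flip_symm a j, Ne.symm hi.1, hab⟩
      obtain ⟨hw, hwi, hwj⟩ := hw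
      rw [S.pos_root_eq hr.ne hwi hwj, hw, conj_sq_sq (D.flip_sq hwj.symm)]
      exact ⟨t, rfl⟩
    · rw [if_pos (by simp [hi, hj]), if_neg hi]
      simp only [not_or] at hi hj
      refine ⟨t, ?_⟩
      show DY π π₂ I.c I.d i j t = _
      rw [S.pos_root_eq hr.ne (Ne.symm hi.1) (Ne.symm hj.1), D.flip_symm j a, D.flip_symm a b,
        S.flip_flip _ hab.symm (Ne.symm hj.2) (Ne.symm hj.1), D.flip_symm b j, ← S.pos_root_eq hr.ne (Ne.symm hi.2)
        (Ne.symm hj.2), S.pos_root_eq hr.ne (Ne.symm hi.1) (Ne.symm hj.1), D.flip_symm j a]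
  | mm i j =>
    simp only [DRoot.val] at hr
    show Φ a b * DY (π.comp dualSL) (π₂.comp dualSL) I.c I.d i j t * Φ a b ∈ _
    simp only [flipRoot]
    by_cases hi : i = a ∨ i = b <;> by_cases hj : j = a ∨ j = b
    · rw [if_pos (by simp [hi, hj]), if_pos hi]
      obtain ⟨z, hzi, hzj, -⟩ := D.exists_three i j j
      have hw : Φ a b = Φ i j := by
        rcases hi with rfl | rfl <;> rcases hj with rfl | rfl
        · exact absurd rfl hr.ne
        · rfl
        · exact D.flip_symm _ _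
        · exact absurd rfl hr.ne
      rw [S.neg_root_eq hr.ne hzi hzj, hw, S.flip_flip _ hr.ne hzi.symm hzj.symm]
      have := S.U_pp hr.ne z hzi hzj t (x := Φ i z * rootsOf π j i (-t) * Φ i z) (by
        conv_lhs => rw [show rootsOf π j i (-t) = Φ i j * rootsOf π i j t * Φ i j by rw [D.flip_root_in hr.ne]]
        rw [D.flip_symm i z, S.flip_flip _ hzi hzj hr.ne, D.flip_symm z j])
      rwa [if_pos hr] at this
    · rw [if_neg (by simp [hi, hj]), if_pos hi]
      obtain ⟨w, hw⟩ : ∃ w, Φ a b = Φ i w ∧ w ≠ i ∧ w ≠ j := by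
        simp only [not_or] at hj
        rcases hi with rfl | rfl
        · exact ⟨b, rfl, hab.symm, Ne.symm hj.2⟩
        · exact ⟨a, D.flip_symm a i, hab, Ne.symm hj.1⟩
      obtain ⟨hw, hwi, hwj⟩ := hw
      rw [S.neg_root_eq hr.ne hwi hwj, hw, D.flip_symm j w, S.flip_flip _ hwi.symm hr.ne hwj,
        D.flip_symm i j, D.flip_root_in hr.ne', neg_neg]
      exact ⟨t, rfl⟩
    · rw [if_neg (by simp [hi, hj]), if_neg hi]
      obtain ⟨w, hw⟩ : ∃ w, Φ a b = Φ j w ∧ w ≠ i ∧ w ≠ j := by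
        simp only [not_or] at hi
        rcases hj with rfl | rfl
        · exact ⟨b, rfl, Ne.symm hi.2, hab.symm⟩
        · exact ⟨a, D.flip_symm a j, Ne.symm hi.1, hab⟩
      obtain ⟨hw, hwi, hwj⟩ := hw
      rw [S.neg_root_eq hr.ne hwi hwj, hw, conj_sq_sq (D.flip_sq hwj.symm)]
      exact ⟨-t, rfl⟩
    · rw [if_pos (by simp [hi, hj]), if_neg hi]
      simp only [not_or] at hi hj
      refine ⟨t, ?_⟩
      show DY (π.comp dualSL) (π₂.comp dualSL) I.c I.d i j t = _
      rw [S.neg_root_eq hr.ne (Ne.symm hi.1) (Ne.symm hj.1), D.flip_symm j a, D.flip_symm a b,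
        S.flip_flip _ hab.symm (Ne.symm hj.2) (Ne.symm hj.1), D.flip_symm b j, ← S.neg_root_eq hr.ne (Ne.symm hi.2)
        (Ne.symm hj.2), S.neg_root_eq hr.ne (Ne.symm hi.1) (Ne.symm hj.1), D.flip_symm j a]

end Second

end Cfsg.Agent.OmegaPres
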